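import Mathlib.Algebra.MonoidAlgebra.Basic
import Mathlib.RingTheory.RootsOfUnity.PrimitiveRoots
import Mathlib.RingTheory.Ideal.Quotient.Basic
import Mathlib.GroupTheory.Nilpotent
import Mathlib.Algebra.Field.ZMod
import Mathlib.Tactic.NormNum.Prime
import Mathlib.Tactic.LinearCombination

/-! Weights for a cyclic group of order 13 without extending scalars (`supp3`); the norm lemma `maz` for the
Frobenius group `13 : k`, and `cls2`: a `13'`-group with the operator group `13 : 3`, kernel fixed-point-free and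
complement with abelian fixed points, has class at most two (reduced to class three). -/

set_option autoImplicit false

namespace H326.Cr

open Finset
open scoped commutatorElement

instance f13 : Fact (Nat.Prime 13) := ⟨by norm_num⟩

theorem log13 {Γ k : Type*} [Monoid Γ] [Field k] (ψ : Γ →* k) (h : ∀ g, ψ g ^ 13 = 1) :
    ∃ χ : Γ →* Multiplicative (ZMod 13), ∀ g g', χ g = χ g' ↔ ψ g = ψ g' := by
  by_cases c : ∀ g, ψ g = 1
  · exact ⟨1, fun g g' => by simp [c]⟩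
  push Not at c
  obtain ⟨g₀, c⟩ := c
  have o : orderOf (ψ g₀) = 13 := orderOf_eq_prime (h g₀) c
  have pr : IsPrimitiveRoot (ψ g₀) 13 := o ▸ IsPrimitiveRoot.orderOf _
  choose i _ hi using fun g => pr.eq_pow_of_pow_eq_one (h g)
  have k : ∀ a b : ℕ, ψ g₀ ^ a = ψ g₀ ^ b ↔ (a : ZMod 13) = b := fun a b => by
    rw [(pr.isOfFinOrder (by norm_num)).pow_eq_pow_iff_modEq, o, ZMod.natCast_eq_natCast_iff]
  refine ⟨⟨⟨fun g => .ofAdd (i g : ZMod 13), ?_⟩, fun a b => ?_⟩, fun g g' => ?_⟩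
  · rw [(k (i 1) 0).1 (by rw [hi, map_one, pow_zero])]; simp
  · change Multiplicative.ofAdd (i (a * b) : ZMod 13) = .ofAdd ((i a : ZMod 13) + i b)
    rw [(k _ (i a + i b)).1 (by rw [hi, pow_add, hi, hi, map_mul]), Nat.cast_add]
  · change Multiplicative.ofAdd (i g : ZMod 13) = .ofAdd (i g' : ZMod 13) ↔ _
    rw [Multiplicative.ofAdd.injective.eq_iff, ← k, hi, hi]

theorem supp0 {Γ M : Type*} [CommMonoid Γ] [AddCommGroup M] (ρ : Γ →* Module.End ℤ M) (h13 : ∀ g, ρ (g ^ 13) = 1)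
    {f : M} (hf : f ≠ 0) {n : ℕ} (hn : n.Coprime 13) (hnf : n • f = 0) :
    ∃ (S : M → Prop) (χ : Γ →* Multiplicative (ZMod 13)), S f ∧ ¬ S 0 ∧ (∀ a b, S (a + b) → S a ∨ S b) ∧
      (∀ a, S (-a) → S a) ∧ (∀ m g h, S m → ρ g m = ρ h m → χ g = χ h) ∧
      (∀ m g, S m → ∑ i ∈ range 13, ρ (g ^ i) m = 0 → χ g ≠ 1) := by
  let Φ := MonoidAlgebra.lift ℤ (Module.End ℤ M) Γ ρ
  let o := MonoidAlgebra.of ℤ Γ
  have Φo : ∀ g, Φ (o g) = ρ g := MonoidAlgebra.lift_of ρ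
  let An : M → Ideal (MonoidAlgebra ℤ Γ) := fun m =>
    { carrier := {a | Φ a m = 0}
      add_mem' := fun {a b} (ha : _ = _) (hb : _ = _) => by simp [ha, hb]
      zero_mem' := by simp
      smul_mem' := fun c a (ha : _ = _) => by simp [ha] }
  have mA : ∀ m a, a ∈ An m ↔ Φ a m = 0 := fun _ _ => Iff.rfl
  obtain ⟨I, hI, hle⟩ := Ideal.exists_le_maximal (An f) fun e => hf (by
    simpa using (mA f 1).1 (e ▸ Submodule.mem_top))
  letI := Ideal.Quotient.field I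
  let ψ : Γ →* MonoidAlgebra ℤ Γ ⧸ I := (Ideal.Quotient.mk I).toMonoidHom.comp o
  have e : ∀ m g h, An m ≤ I → ρ g m = ρ h m → ψ g = ψ h := fun m g h hm e =>
    Ideal.Quotient.eq.2 (hm ((mA _ _).2 (by rw [map_sub, Φo, Φo, LinearMap.sub_apply, e, sub_self])))
  obtain ⟨χ, hχ⟩ := log13 ψ fun g => by rw [← map_pow, e f _ 1 hle (by rw [h13, map_one]), map_one]
  refine ⟨fun m => An m ≤ I, χ, hle, fun h => hI.ne_top (top_le_iff.1 fun a _ => h ((mA _ _).2 (map_zero _))),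
    fun a b h => ?_, fun a h x hx => h ((mA _ _).2 (by rw [map_neg, (mA _ _).1 hx, neg_zero])),
    fun m g h hm e' => (hχ _ _).2 (e m g h hm e'), fun m g hm e' c => ?_⟩
  · by_contra! c
    obtain ⟨x, h1, h2⟩ := SetLike.not_le_iff_exists.1 c.1
    obtain ⟨y, h3, h4⟩ := SetLike.not_le_iff_exists.1 c.2
    refine (hI.isPrime.mem_or_mem (h ((mA _ _).2 ?_) : x * y ∈ I)).elim h2 h4
    rw [map_add, map_mul, Module.End.mul_apply (Φ x) (Φ y) b, (mA _ _).1 h3, ← map_mul, mul_comm x, map_mul,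
      Module.End.mul_apply, (mA _ _).1 h1, map_zero, map_zero, add_zero]
  · have c : ψ g = 1 := by rw [(hχ g 1).1 (by rw [c, map_one]), map_one]
    have h1 : ∑ i ∈ range 13, o (g ^ i) ∈ I := hm ((mA _ _).2 (by
      rw [map_sum, LinearMap.sum_apply, ← e']; simp only [Φo]))
    have h2 : ((n : ℕ) : MonoidAlgebra ℤ Γ) ∈ I := hle ((mA _ _).2 (by simpa using hnf))
    rw [← Ideal.Quotient.eq_zero_iff_mem] at h1 h2
    rw [map_sum, sum_congr rfl fun i _ => show Ideal.Quotient.mk I (o (g ^ i)) = 1 by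
      change ψ (g ^ i) = 1; rw [map_pow, c, one_pow]] at h1
    rw [map_natCast] at h2
    obtain ⟨a, b, h⟩ := Nat.isCoprime_iff_coprime.2 hn
    have := congrArg (Int.cast : ℤ → MonoidAlgebra ℤ Γ ⧸ I) h
    simp only [sum_const, card_range, nsmul_eq_mul, mul_one] at h1
    simp only [Int.cast_add, Int.cast_mul, Int.cast_natCast, h1, h2, mul_zero, add_zero, Int.cast_one] at this
    exact zero_ne_one this

theorem supp3 {A W : Type*} [Group A] [CommGroup W] (τ : MulAut A) (σ : MulAut W) (hτ : τ ^ 13 = 1) (hσ : σ ^ 13 = 1)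
    {f : A → A → A → W} (hf : f ≠ 1) {n : ℕ} (hn : n.Coprime 13) (hnf : ∀ w : W, w ^ n = 1) :
    ∃ (S : (A → A → A → W) → Prop) (x₁ x₂ x₃ z : ZMod 13), S f ∧ (∀ a b, S (a * b) → S a ∨ S b) ∧
      (∀ a, S a⁻¹ → S a) ∧ (∀ (s : Finset (ℕ × ℕ)) (F : ℕ × ℕ → A → A → A → W), (0, 0) ∈ s → S (F (0, 0)) →
        (∀ a b c, ∏ i ∈ s, F i a b c = 1) → ∃ i ∈ s, i ≠ (0, 0) ∧ S (F i)) ∧
      (∀ m (i j k : ℕ), S m → (∀ a b c, σ (m a b c) = m ((τ ^ i) a) ((τ ^ j) b) ((τ ^ k) c)) →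
        z = i * x₁ + j * x₂ + k * x₃) ∧
      (∀ m (i j k : ℕ), S m → (∀ a b c, ∏ l ∈ range 13, m ((τ ^ (l * i)) a) ((τ ^ (l * j)) b) ((τ ^ (l * k)) c) = 1) →
        i * x₁ + j * x₂ + k * x₃ ≠ 0) := by
  let L : Multiplicative (ℕ × ℕ × ℕ × ℕ) → Module.End ℤ (Additive (A → A → A → W)) := fun g =>
    AddMonoidHom.toIntLinearMap (AddMonoidHom.mk' (fun m => .ofMul fun a b c =>
      (σ ^ g.toAdd.2.2.2) (m.toMul ((τ ^ g.toAdd.1) a) ((τ ^ g.toAdd.2.1) b) ((τ ^ g.toAdd.2.2.1) c)))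
      fun m m' => congrArg Additive.ofMul (by ext a b c; simp))
  have hL : ∀ (i j k l : ℕ) (m : A → A → A → W), L (.ofAdd (i, j, k, l)) (.ofMul m) = .ofMul fun a b c =>
      (σ ^ l) (m ((τ ^ i) a) ((τ ^ j) b) ((τ ^ k) c)) := fun _ _ _ _ _ => rfl
  let ρ : Multiplicative (ℕ × ℕ × ℕ × ℕ) →* Module.End ℤ (Additive (A → A → A → W)) :=
    { toFun := L
      map_one' := LinearMap.ext fun m => (hL 0 0 0 0 m.toMul).trans (by simp)
      map_mul' := fun g h => LinearMap.ext fun m => (hL _ _ _ _ m.toMul).trans (by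
        refine Eq.trans (congrArg Additive.ofMul ?_) (hL _ _ _ _ _).symm
        ext a b c
        change _ = (σ ^ g.toAdd.2.2.2) ((σ ^ h.toAdd.2.2.2) (m.toMul ((τ ^ h.toAdd.1) ((τ ^ g.toAdd.1) a))
          ((τ ^ h.toAdd.2.1) ((τ ^ g.toAdd.2.1) b)) ((τ ^ h.toAdd.2.2.1) ((τ ^ g.toAdd.2.2.1) c))))
        simp only [← MulAut.mul_apply, ← pow_add, add_comm h.toAdd.1, add_comm h.toAdd.2.1, add_comm h.toAdd.2.2.1]) }
  have pw : ∀ (i j k l n : ℕ), (Multiplicative.ofAdd (i, j, k, l)) ^ n = .ofAdd (n * i, n * j, n * k, n * l) :=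
    fun _ _ _ _ _ => rfl
  obtain ⟨S, χ, h1, h2, h3, h4, h5, h6⟩ := supp0 ρ (fun g => LinearMap.ext fun m => (hL (13 * _) (13 * _) (13 * _) (13 * _)
    m.toMul).trans (by simp [pow_mul, hτ, hσ])) (f := .ofMul f) hf hn (congrArg Additive.ofMul (by
      ext a b c; exact hnf _))
  have lin : ∀ i j k : ℕ, χ (.ofAdd (i, j, k, 0)) = .ofAdd (i * (χ (.ofAdd (1, 0, 0, 0))).toAdd +
      j * (χ (.ofAdd (0, 1, 0, 0))).toAdd + k * (χ (.ofAdd (0, 0, 1, 0))).toAdd) := fun i j k => by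
    rw [ofAdd_add, ofAdd_add, ← nsmul_eq_mul, ← nsmul_eq_mul, ← nsmul_eq_mul, ofAdd_nsmul, ofAdd_nsmul, ofAdd_nsmul,
      ofAdd_toAdd, ofAdd_toAdd, ofAdd_toAdd, ← map_pow χ, ← map_pow χ, ← map_pow χ, ← map_mul, ← map_mul, pw, pw, pw,
      ← ofAdd_add, ← ofAdd_add]
    simp
  refine ⟨fun m => S (.ofMul m), (χ (.ofAdd (1, 0, 0, 0))).toAdd, (χ (.ofAdd (0, 1, 0, 0))).toAdd,
    (χ (.ofAdd (0, 0, 1, 0))).toAdd, (χ (.ofAdd (0, 0, 0, 1))).toAdd, h1, fun a b => h3 (.ofMul a) (.ofMul b),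
    fun a => h4 (.ofMul a), fun s F h0 hF e => ?_, fun m i j k hm e => ?_, fun m i j k hm e c => ?_⟩
  · have k : ∀ t : Finset (ℕ × ℕ), S (.ofMul (∏ i ∈ t, F i)) → ∃ i ∈ t, S (.ofMul (F i)) := fun t => by
      induction t using Finset.induction_on with
      | empty => exact fun h => (h2 h).elim
      | insert a t ha ih =>
        rw [prod_insert ha]
        intro h
        rcases h3 (.ofMul _) (.ofMul _) h with h | h
        · exact ⟨a, mem_insert_self _ _, h⟩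
        · obtain ⟨i, hi, h⟩ := ih h
          exact ⟨i, mem_insert_of_mem hi, h⟩
    have e' : F (0, 0) = (∏ i ∈ s.erase (0, 0), F i)⁻¹ := eq_inv_of_mul_eq_one_left (by
      rw [mul_prod_erase s F h0]; ext a b c; simpa using e a b c)
    rw [e'] at hF
    obtain ⟨i, hi, h⟩ := k _ (h4 (.ofMul _) hF)
    exact ⟨i, mem_of_mem_erase hi, ne_of_mem_erase hi, h⟩
  · have := h5 _ (.ofAdd (0, 0, 0, 1)) (.ofAdd (i, j, k, 0)) hm ((hL _ _ _ _ m).trans (Eq.trans (by simp [e])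
      (hL _ _ _ _ m).symm))
    rw [this, lin, toAdd_ofAdd]
  · refine h6 _ (.ofAdd (i, j, k, 0)) hm ?_ (by rw [lin, c]; rfl)
    rw [sum_congr rfl fun l _ => (show ρ (.ofAdd (i, j, k, 0) ^ l) (.ofMul m) = _ from
      hL (l * i) (l * j) (l * k) (l * 0) m), ← ofMul_prod]
    refine congrArg Additive.ofMul ?_
    ext a b c
    simpa using e a b c

variable {T : Type*} [Group T]

/-- the ordered norm `a · σ a ⋯ σ ^ (n - 1) a` -/
def nrm (σ : MulAut T) (a : T) : ℕ → T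
  | 0 => 1
  | n + 1 => nrm σ a n * (σ ^ n) a

theorem nrm_map {W : Type*} [CommGroup W] {P : Subgroup T} (φ : T → W)
    (hφ : ∀ a ∈ P, ∀ b ∈ P, φ (a * b) = φ a * φ b) {σ : MulAut T} {a : T} (hP : ∀ i : ℕ, (σ ^ i) a ∈ P) (n : ℕ) :
    nrm σ a n ∈ P ∧ ∏ i ∈ range n, φ ((σ ^ i) a) = φ (nrm σ a n) := by
  induction n with
  | zero => exact ⟨one_mem _, by simpa [nrm, eq_comm] using hφ 1 (one_mem _) 1 (one_mem _)⟩
  | succ n ih => exact ⟨mul_mem ih.1 (hP n), by rw [prod_range_succ, ih.2, nrm, hφ _ ih.1 _ (hP n)]⟩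

theorem tw {r y : MulAut T} {e : ℕ} (hy : r * y = y * r ^ e) (s : ℕ) (a : T) :
    r ((y ^ s) a) = (y ^ s) ((r ^ e ^ s) a) := by
  suffices h : r * y ^ s = y ^ s * r ^ e ^ s from DFunLike.congr_fun h a
  induction s with
  | zero => simp
  | succ s ih =>
    rw [pow_succ, ← mul_assoc, ih, mul_assoc, ← (SemiconjBy.pow_right (hy.symm : SemiconjBy y (r ^ e) r) (e ^ s)).eq,
      ← pow_mul, pow_succ' e, mul_assoc]

theorem maz {A : Type*} [CommGroup A] {r y : MulAut A} {e k n m : ℕ} (hr : r ^ 13 = 1) (hy : r * y = y * r ^ e)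
    (he : ∀ s, 0 < s → s < k → (e : ZMod 13) ^ s ≠ 1) (k0 : 0 < k) (hm : m.Coprime 13) (hA : ∀ a : A, a ^ m = 1)
    (hN : ∀ a, nrm r a 13 = 1) (hY : ∀ a, nrm y a k ^ n = 1) (a : A) : a ^ n = 1 := by
  by_contra c
  have hφ : ∀ a ∈ (⊤ : Subgroup A), ∀ b ∈ (⊤ : Subgroup A), (a * b) ^ n = a ^ n * b ^ n := fun a _ b _ => mul_pow a b n
  obtain ⟨S, x, x₂, x₃, z, h1, -, -, h4, h5, h6⟩ := supp3 r r hr hr (f := fun a _ _ => a ^ n)
    (fun e => c (congrFun (congrFun (congrFun e a) a) a)) hm hA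
  have e1 := h5 _ 1 0 0 h1 fun a b c => by simp
  have e2 := h6 _ 1 0 0 h1 fun a b c => by
    simpa [hN] using (nrm_map (· ^ n) hφ (σ := r) (a := a) (fun _ => trivial) 13).2
  obtain ⟨⟨s, t⟩, hi, i0, h⟩ := h4 (range k ×ˢ range 1) (fun i a _ _ => (y ^ i.1) a ^ n) (by simpa) (by simpa using h1)
    fun a b c => by simpa [prod_product, hY] using (nrm_map (· ^ n) hφ (σ := y) (a := a) (fun _ => trivial) k).2
  have e3 := h5 _ (e ^ s) 0 0 h fun a b c => by simp [tw hy]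
  simp only [mem_product, mem_range, Nat.lt_one_iff] at hi
  obtain ⟨hs, rfl⟩ := hi
  simp only [Nat.cast_one, Nat.cast_zero, zero_mul, add_zero, one_mul, Nat.cast_pow] at e1 e2 e3
  exact he s (Nat.pos_of_ne_zero fun e => i0 (by rw [e])) hs (mul_right_cancel₀ e2 (by rw [← e3, e1, one_mul]))

theorem ar2 : ∀ a b : ZMod 13, a ≠ 0 → b ≠ 0 → a + b ≠ 0 → ∀ i ∈ range 3 ×ˢ range 3, i ≠ (0, 0) →
    a + b = 3 ^ i.1 * a + 3 ^ i.2 * b → b = 3 * a ∨ b = 9 * a := by decide +kernel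

theorem ar3 : ∀ a b c : ZMod 13, a ≠ 0 → (b = 3 * a ∨ b = 9 * a) → (c = 3 * (a + b) ∨ c = 9 * (a + b)) →
    ¬ (c = 3 * b ∨ c = 9 * b) ∧ ¬ (a = 3 * c ∨ a = 9 * c) := by decide +kernel

open Subgroup IsMulCommutative in
theorem cls3 {r y : MulAut T} (hr : r ^ 13 = 1) (hy : r * y = y * r ^ 3) {n : ℕ} (hn : n.Coprime 13)
    (hT : ∀ a : T, a ^ n = 1) (hN : ∀ a, nrm r a 13 = 1) (hY : ∀ a, ∃ x c, y c = c ∧ nrm y a 3 = x * c * x⁻¹)
    (hC : ∀ c d, y c = c → y d = d → c * d = d * c) (h3 : ∀ a b c : T, ⁅⁅a, b⁆, c⁆ ∈ center T) (a b c : T) :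
    ⁅⁅a, b⁆, c⁆ = 1 := by
  classical
  by_contra hc
  let Z := (center T).upperCentralSeriesStep
  let δ : T → T → center T := fun m d => if h : ⁅m, d⁆ ∈ center T then ⟨_, h⟩ else 1
  have hδ : ∀ {m}, m ∈ Z → ∀ d, (δ m d : T) = ⁅m, d⁆ := fun hm d => by simp only [δ, dif_pos (hm d)]
  have zc : ∀ {z}, z ∈ center T → ∀ x, x * z * x⁻¹ = z := fun hz x => by
    rw [mem_center_iff.1 hz, mul_inv_cancel_right]
  have d0 : ∀ c d, c * d = d * c → δ c d = 1 := fun c d e => by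
    simp [δ, commutatorElement_eq_one_iff_mul_comm.2 e]
  have d1 : ∀ m ∈ Z, ∀ d e, δ m (d * e) = δ m d * δ m e := fun m hm d e => Subtype.ext (by
    rw [Subgroup.coe_mul, hδ hm, hδ hm, hδ hm, commutatorElement_mul_right_eq_mul_conj, mul_assoc, mul_assoc, ← mul_assoc d,
      zc (hm e)])
  have d2 : ∀ d, ∀ m ∈ Z, ∀ m' ∈ Z, δ (m * m') d = δ m d * δ m' d := fun d m hm m' hm' => by
    rw [mul_comm (δ m d)]
    exact Subtype.ext (by rw [Subgroup.coe_mul, hδ hm, hδ hm', hδ (mul_mem hm hm'), commutatorElement_mul_left_eq_conj_mul,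
      zc (hm' d)])
  have cj : ∀ φ : T → center T, (∀ d e, φ (d * e) = φ d * φ e) → ∀ x d, φ (x * d * x⁻¹) = φ d := fun φ h x d => by
    change MonoidHom.mk' φ h _ = MonoidHom.mk' φ h _
    rw [map_mul, map_mul, map_inv, mul_inv_cancel_comm]
  have d3 : ∀ m ∈ Z, ∀ x d, δ (x * m * x⁻¹) d = δ m d := fun m hm x d => by
    rw [← cj _ (d1 m hm) x⁻¹ d]
    refine Subtype.ext ?_
    rw [hδ (Normal.conj_mem inferInstance m hm x), hδ hm, ← zc (hm _) x, conjugate_commutatorElement]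
    congr 1; group
  have ch : ∀ (σ : MulAut T) {m}, m ∈ Z → σ m ∈ Z := fun σ m hm => characteristic_iff_le_comap.1 inferInstance σ hm
  let f : T → T → T → center T := fun a b c => δ ⁅a, b⁆ c
  have f1 : ∀ b c a a', f (a * a') b c = f a b c * f a' b c := fun b c a a' => by
    simp only [f]
    rw [commutatorElement_mul_left_eq_conj_mul, d2 c _ (Normal.conj_mem (H := Z) inferInstance _ (h3 _ _) _) _ (h3 _ _),
      d3 _ (h3 _ _), mul_comm]
  have fs : ∀ a b c, f a b c = (f b a c)⁻¹ := fun a b c => eq_inv_of_mul_eq_one_left (by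
    simp only [f]
    rw [← d2 c _ (h3 _ _) _ (h3 _ _), ← commutatorElement_inv a b, mul_inv_cancel, d0 _ _ (by simp)])
  have f2 : ∀ c a b b', f a (b * b') c = f a b c * f a b' c := fun c a b b' => by
    rw [fs, f1, mul_inv, ← fs, ← fs]
  have ev : ∀ a b c, MulAut.characteristic (center T) r (f a b c) = f (r a) (r b) (r c) := fun a b c =>
    Subtype.ext (show r (δ _ _ : T) = (δ _ _ : T) by
      rw [hδ (h3 _ _), hδ (h3 _ _), map_commutatorElement, map_commutatorElement])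
  have bil : ∀ (β : T → T → center T) (P : Subgroup T), P.Normal → (∀ d, ∀ m ∈ P, ∀ m' ∈ P, β (m * m') d = β m d * β m' d) →
      (∀ m ∈ P, ∀ d e, β m (d * e) = β m d * β m e) → (∀ m ∈ P, ∀ x d, β (x * m * x⁻¹) d = β m d) →
      (∀ c d, c * d = d * c → β c d = 1) → ∀ a b, (∀ i : ℕ, (y ^ i) a ∈ P) →
      ∏ i ∈ range 3 ×ˢ range 3, β ((y ^ i.1) a) ((y ^ i.2) b) = 1 := fun β P hP b1 b2 b3 b0 a b ha => by
    obtain ⟨x, c, hc, e⟩ := hY a
    obtain ⟨x', d, hd, e'⟩ := hY b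
    obtain ⟨m1, m2⟩ := nrm_map (β · (nrm y b 3)) (b1 _) ha 3
    have m3 : c ∈ P := by simpa [e, mul_assoc] using hP.conj_mem _ m1 x⁻¹
    rw [prod_product, prod_congr rfl fun s _ => (nrm_map (P := ⊤) (β ((y ^ s) a)) (fun d _ e _ => b2 _ (ha s) d e)
      (σ := y) (a := b) (fun _ => trivial) 3).2, m2, e, e', b3 c m3, cj _ (b2 c m3), b0 c d (hC c d hc hd)]
  have Y1 : ∀ a b c, ∏ i ∈ range 3 ×ˢ range 3, f ((y ^ i.1) a) ((y ^ i.2) b) c = 1 := fun a b c =>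
    bil (f · · c) ⊤ inferInstance (fun d m _ m' _ => f1 d c m m') (fun m _ => f2 c m) (fun m _ x d => cj (f · d c) (f1 d c) x m)
      (fun u v e => d0 _ _ (by simp [commutatorElement_eq_one_iff_mul_comm.2 e])) a b fun _ => trivial
  have Y2 : ∀ a b c, ∏ i ∈ range 3 ×ˢ range 3, f ((y ^ i.1) a) ((y ^ i.1) b) ((y ^ i.2) c) = 1 := fun a b c => by
    simpa only [map_commutatorElement] using bil δ Z inferInstance d2 d1 d3 d0 ⁅a, b⁆ c fun _ => ch _ (h3 a b)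
  have R : ∀ (φ : T → center T), (∀ d e, φ (d * e) = φ d * φ e) → ∀ a, ∏ l ∈ range 13, φ ((r ^ l) a) = 1 :=
    fun φ h a => by
      rw [(nrm_map (P := ⊤) φ (fun d _ e _ => h d e) (fun _ => trivial) 13).2, hN]
      exact (MonoidHom.mk' φ h).map_one
  have R2 : ∀ a b c, ∏ l ∈ range 13, f ((r ^ l) a) ((r ^ l) b) c = 1 := fun a b c => by
    simpa only [map_commutatorElement, hN, d0 1 c (by simp)] using
      (nrm_map (δ · c) (d2 c) (σ := r) (a := ⁅a, b⁆) (fun _ => ch _ (h3 a b)) 13).2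
  have R3 : ∀ a b c, ∏ l ∈ range 13, f ((r ^ l) a) ((r ^ l) b) ((r ^ l) c) = 1 := fun a b c => by
    have : ∀ n, ((∏ l ∈ range n, f ((r ^ l) a) ((r ^ l) b) ((r ^ l) c) : center T) : T) = nrm r ⁅⁅a, b⁆, c⁆ n := fun n => by
      induction n with
      | zero => rfl
      | succ n ih => rw [prod_range_succ, Subgroup.coe_mul, ih, nrm, hδ (h3 _ _), map_commutatorElement, map_commutatorElement]
    exact Subtype.ext ((this 13).trans (hN _))
  obtain ⟨S, x₁, x₂, x₃, z, h1, h2, h2', h4, h5, h6⟩ := supp3 r (MulAut.characteristic (center T) r) hr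
    (by rw [← map_pow, hr, map_one]) (f := f)
    (fun e => hc (by rw [← hδ (h3 a b)]; exact congrArg Subtype.val (congrFun (congrFun (congrFun e a) b) c))) hn
    fun w => Subtype.ext (hT w)
  have e0 := h5 f 1 1 1 h1 (by simpa using ev)
  have n1 := h6 f 1 0 0 h1 fun a b c => by simpa using R (f · b c) (f1 b c) a
  have n2 := h6 f 0 1 0 h1 fun a b c => by simpa using R (f a · c) (f2 c a) b
  have n3 := h6 f 0 0 1 h1 fun a b c => by simpa using R _ (d1 _ (h3 a b)) c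
  have n4 := h6 f 1 1 0 h1 (by simpa using R2)
  have n5 := h6 f 1 1 1 h1 (by simpa using R3)
  simp only [Nat.cast_one, Nat.cast_zero, zero_mul, add_zero, zero_add, one_mul] at e0 n1 n2 n3 n4 n5
  have i0 : ((0, 0) : ℕ × ℕ) ∈ range 3 ×ˢ range 3 := by decide
  obtain ⟨i, hi, i1, k1⟩ := h4 _ (fun i a b c => f ((y ^ i.1) a) ((y ^ i.2) b) c) i0 (by simpa using h1) Y1
  obtain ⟨j, hj, j1, k2⟩ := h4 _ (fun i a b c => f ((y ^ i.1) a) ((y ^ i.1) b) ((y ^ i.2) c)) i0 (by simpa using h1) Y2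
  have e1 := h5 _ (3 ^ i.1) (3 ^ i.2) 1 k1 fun a b c => by simp only [ev, tw hy, pow_one]
  have e2 := h5 _ (3 ^ j.1) (3 ^ j.1) (3 ^ j.2) k2 fun a b c => by simp only [ev, tw hy]
  push_cast at e1 e2
  have A := ar3 x₁ x₂ x₃ n1 (ar2 _ _ n1 n2 n4 i hi i1 (by linear_combination e1 - e0))
    (ar2 _ _ n4 n3 n5 j hj j1 (by linear_combination e2 - e0))
  have J : f = ((fun a b c => f b c a) * fun a b c => f c a b)⁻¹ := by
    funext a b c
    refine eq_inv_of_mul_eq_one_left ?_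
    change f a b c * (f b c a * f c a b) = 1
    rw [← cj (f a b) (d1 _ (h3 a b)) b, ← cj (f b c) (d1 _ (h3 b c)) c, ← cj (f c a) (d1 _ (h3 c a)) a, ← mul_assoc]
    refine Subtype.ext ?_
    rw [Subgroup.coe_mul, Subgroup.coe_mul, hδ (h3 _ _), hδ (h3 _ _), hδ (h3 _ _)]
    exact commutatorElement_commutatorElement_conj_mul a b c
  rcases h2 _ _ (h2' _ (J ▸ h1)) with h | h
  · obtain ⟨l, hl, l1, k3⟩ := h4 _ (fun i a b c => f ((y ^ i.1) b) ((y ^ i.2) c) a) i0 (by simpa using h)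
      fun a b c => Y1 b c a
    have e3 := h5 _ 1 (3 ^ l.1) (3 ^ l.2) k3 fun a b c => by simp only [ev, tw hy, pow_one]
    have n6 := h6 _ 0 1 1 h fun a b c => by simpa using R2 b c a
    push_cast at e3 n6
    exact A.1 (ar2 _ _ n2 n3 (by simpa using n6) l hl l1 (by linear_combination e3 - e0))
  · obtain ⟨l, hl, l1, k3⟩ := h4 _ (fun i a b c => f ((y ^ i.1) c) ((y ^ i.2) a) b) i0 (by simpa using h)
      fun a b c => Y1 c a b
    have e3 := h5 _ (3 ^ l.2) 1 (3 ^ l.1) k3 fun a b c => by simp only [ev, tw hy, pow_one]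
    have n6 := h6 _ 1 0 1 h fun a b c => by simpa using R2 c a b
    push_cast at e3 n6
    exact A.2 (ar2 _ _ n3 n1 (by simpa [add_comm] using n6) l hl l1 (by linear_combination e3 - e0))

end H326.Cr
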