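import Cfsg.Agent.H26.Cr1
import Cfsg.Agent.H23.FrobCompl
import Cfsg.Agent.H18.BG1
import Cfsg.Agent.H19.DadeGroup

/-! Soluble groups whose element orders lie in `{1, 2, 3, 4, 6, 8, 13}` (`Om`): `core_eq_bot` (if orders `3`, `8`, `13`
occur then `O_{13'} = 1`). -/

set_option autoImplicit false
set_option linter.unusedSectionVars false

namespace H326.Cr

open Cfsg H18 Subgroup
open scoped commutatorElement IsMulCommutative
universe u

/-- the spectrum of `PSL(3,3)` -/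
def Wn (n : ℕ) : Prop := n = 1 ∨ n = 2 ∨ n = 3 ∨ n = 4 ∨ n = 6 ∨ n = 8 ∨ n = 13

instance : DecidablePred Wn := fun _ => by unfold Wn; infer_instance

/-- element orders lie in the spectrum of `PSL(3,3)` -/
def Om (G : Type*) [Group G] : Prop := ∀ g : G, Wn (orderOf g)

variable {G : Type u} [Group G] {A T : Subgroup G} {a g n r x y : G} {e k p : ℕ}

theorem Wn.dvd {a d : ℕ} (h : Wn a) (hd : d ∣ a) : Wn d := by
  have := Nat.le_of_dvd (by unfold Wn at h; omega) hd
  rcases h with rfl | rfl | rfl | rfl | rfl | rfl | rfl <;> interval_cases d <;> revert hd <;> decide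

theorem Om.dvd (h : Om G) (hd : k ∣ orderOf g) : Wn k := (h g).dvd hd

theorem Om.surj {H : Type*} [Group H] (h : Om G) (f : G →* H) (hf : Function.Surjective f) : Om H := fun b => by
  obtain ⟨a, rfl⟩ := hf b
  exact h.dvd (orderOf_map_dvd f a)

theorem Om.inj {H : Type*} [Group H] (h : Om G) (f : H →* G) (hf : Function.Injective f) : Om H := fun b =>
  orderOf_injective f hf b ▸ h _

theorem Om.mul (h : Om G) (c : x * y = y * x) (hc : (orderOf x).Coprime (orderOf y)) :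
    Wn (orderOf x * orderOf y) :=
  Commute.orderOf_mul_eq_mul_orderOf_of_coprime c hc ▸ h _

theorem Om.c13 (h : Om G) (hr : orderOf r = 13) (c : x * r = r * x) (hx : ¬ 13 ∣ orderOf x) : x = 1 := by
  have := h.mul c (hr ▸ ((Nat.Prime.coprime_iff_not_dvd f13.out).2 hx).symm)
  rw [hr] at this
  rw [← orderOf_eq_one_iff]
  unfold Wn at this
  omega

theorem Om.prime [Finite G] (h : Om G) (hp : p.Prime) (hd : p ∣ Nat.card A) : p = 2 ∨ p = 3 ∨ p = 13 := by
  obtain ⟨x, -, rfl⟩ := cauchy hp hd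
  rcases h x with e | e | e | e | e | e | e <;> rw [e] at hp ⊢ <;> revert hp <;> decide

theorem coe_nrm [A.Normal] (y : G) (a : A) (n : ℕ) :
    (nrm (MulAut.conjNormal y) a n : A) = (a * y) ^ n * (y ^ n)⁻¹ := by
  induction n with
  | zero => simp [nrm]
  | succ n ih => rw [nrm, coe_mul, ih, ← map_pow, MulAut.conjNormal_apply, pow_succ, pow_succ']; group

theorem pow_mem_of [A.Normal] (ha : a ∈ A) (y : G) (n : ℕ) : (a * y) ^ n * (y ^ n)⁻¹ ∈ A :=
  coe_nrm y ⟨a, ha⟩ n ▸ SetLike.coe_mem _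

theorem ord_dvd [A.Normal] (ha : a ∈ A) (h : A ⊓ zpowers y = ⊥) : orderOf y ∣ orderOf (a * y) :=
  orderOf_dvd_of_pow_eq_one (eq_one_of_eq_bot h ⟨by simpa using pow_mem_of ha y (orderOf (a * y)), npow_mem_zpowers _ _⟩)

theorem twG (hy : r * y = y * r ^ e) (s : ℕ) : r * y ^ s = y ^ s * r ^ e ^ s := by
  induction s with
  | zero => simp
  | succ s ih =>
    rw [pow_succ, ← mul_assoc, ih, mul_assoc, ← (SemiconjBy.pow_right (hy.symm : SemiconjBy y (r ^ e) r) (e ^ s)).eq,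
      ← pow_mul, pow_succ' e, mul_assoc]

theorem pow_cast (hr : orderOf r = 13) {i j : ℕ} : r ^ i = r ^ j ↔ (i : ZMod 13) = j := by
  rw [pow_eq_pow_iff_modEq, hr, ZMod.natCast_eq_natCast_iff]

variable [Finite G]

theorem Om.inf_N (h : Om G) (hr : orderOf r = 13) [A.Normal] (hA : PiGrp {13}ᶜ A) : A ⊓ N(zpowers r) = ⊥ := by
  have hR : PiGrp {13} (zpowers r) := piGrp_of_prime f13.out (card_zpowers'.trans hr)
  have := cent_of_norm_coprime (A := A ⊓ N(zpowers r)) inf_le_right (norm_inf norm_of_normal (norm_N le_N))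
    (hA.inf_left.coprime' hR)
  exact eq_bot_iff.2 fun x hx => h.c13 hr (mem_C1.1 (C_zpowers.le (this hx)))
    ((piNat_compl_iff f13.out).1 (hA.elt hx.1))

theorem Om.nrm13 (h : Om G) (hr : orderOf r = 13) [A.Normal] (hA : PiGrp {13}ᶜ A) (a : A) :
    nrm (MulAut.conjNormal r) a 13 = 1 := by
  have := ord_dvd a.2 (eq_bot_iff.2 ((inf_le_inf_left A le_N).trans (h.inf_N hr hA).le))
  have k := h (a * r)
  have e : orderOf (a * r) = 13 := by
    rw [hr] at this
    unfold Wn at k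
    omega
  exact Subtype.ext (by rw [coe_nrm, ← e, pow_orderOf_eq_one, e, ← hr, pow_orderOf_eq_one]; simp)

theorem Om.exE (h : Om G) (hr : orderOf r = 13) (hn : n ∈ N(zpowers r)) (h13 : ¬ 13 ∣ orderOf n) :
    ∃ e : ℕ, r * n = n * r ^ e ∧ ∀ s, (e : ZMod 13) ^ s = 1 ↔ orderOf n ∣ s := by
  obtain ⟨e, he⟩ := mem_powers_iff_mem_zpowers.2 (conj_mem_N' hn (mem_zpowers r))
  have he : r * n = n * r ^ e := by rw [show r ^ e = _ from he]; group
  refine ⟨e, he, fun s => ?_⟩
  rw [← Nat.cast_pow, ← Nat.cast_one, ← pow_cast hr, pow_one, orderOf_dvd_iff_pow_eq_one]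
  exact ⟨fun c => h.c13 hr (by rw [twG he, c]) fun d => h13 (d.trans (orderOf_pow_dvd s)),
    fun c => by simpa [c] using (twG he s).symm⟩

theorem Om.maz (h : Om G) (hr : orderOf r = 13) [A.Normal] (hA : PiGrp {13}ᶜ A) (ab : Abel A) (hn : n ∈ N(zpowers r))
    (h13 : ¬ 13 ∣ orderOf n) {m : ℕ} (hm : ∀ a ∈ A, ((a * n) ^ orderOf n) ^ m = 1) (ha : a ∈ A) : a ^ m = 1 := by
  obtain ⟨e, he, k⟩ := h.exE hr hn h13
  have := ab.comm
  exact congrArg Subtype.val (Cr.maz (A := A) (r := MulAut.conjNormal r) (y := MulAut.conjNormal n) (e := e)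
    (k := orderOf n) (by rw [← map_pow, ← hr, pow_orderOf_eq_one, map_one]) (by rw [← map_pow, ← map_mul, he, map_mul])
    (fun s h0 hs c => (Nat.le_of_dvd h0 ((k s).1 c)).not_gt hs) (orderOf_pos n)
    ((piNat_compl_iff_coprime f13.out).1 hA) (fun _ => pow_card_eq_one') (h.nrm13 hr hA)
    (fun b => Subtype.ext (by rw [SubgroupClass.coe_pow, coe_nrm]; simpa using hm b b.2)) ⟨a, ha⟩)

theorem Om.pk (h : Om G) (hr : orderOf r = 13) [T.Normal] (hT : PiGrp {p} T) (hp : p ≠ 13) (h1 : T ≠ ⊥)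
    (hn : n ∈ N(zpowers r)) (h13 : ¬ 13 ∣ orderOf n) : Wn (p * orderOf n) := by
  have : (Z(T)).Normal := nml_top.Z.normal
  have hA : PiGrp {13}ᶜ Z(T) := hT.inf_left.p'_of_ne hp
  obtain ⟨b, hb, b1⟩ := exists_mem_ne_one' (hT.nil.Z_ne_bot h1)
  obtain ⟨a, ha, c⟩ : ∃ a ∈ Z(T), ((a * n) ^ orderOf n) ^ 1 ≠ 1 := by
    by_contra! c
    exact b1 (by simpa using h.maz hr hA abel_Z hn h13 c hb)
  obtain ⟨j, hj⟩ := ord_dvd ha (eq_bot_iff.2 ((inf_le_inf_left _ (zpowers_le.2 hn)).trans (h.inf_N hr hA).le))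
  have m : (a * n) ^ orderOf n ∈ T := by simpa using (pow_mem_of ha n (orderOf n)).1
  obtain ⟨q, -, hq, rfl⟩ := (hT.elt m).exists_mem (by simpa using c)
  rw [orderOf_pow_of_dvd (orderOf_pos n).ne' ⟨j, hj⟩, hj, Nat.mul_div_cancel_left _ (orderOf_pos n)] at hq
  exact h.dvd (g := a * n) (by rw [hj, mul_comm]; exact Nat.mul_dvd_mul_left _ hq)

/-- a normal `2`-subgroup and a Frobenius group `13 : 3` -/
structure Ctx (T : Subgroup G) (r y : G) : Prop where
  om : Om G
  nml : T.Normal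
  pi : PiGrp {2} T
  r13 : orderOf r = 13
  y3 : orderOf y = 3
  ry : r * y = y * r ^ 3

namespace Ctx

theorem p' (h : Ctx T r y) : PiGrp {13}ᶜ T := h.pi.p'_of_ne (by decide)

theorem sub (h : Ctx T r y) (hA : A ≤ T) (n : A.Normal) : Ctx A r y := ⟨h.om, n, h.pi.of_le hA, h.r13, h.y3, h.ry⟩

theorem quo (h : Ctx T r y) (hA : A ≤ T) [A.Normal] :
    Ctx (T.map (QuotientGroup.mk' A)) (QuotientGroup.mk' A r) (QuotientGroup.mk' A y) := by
  have k : ∀ {p : ℕ} {x : G}, p.Prime → p ≠ 2 → orderOf x = p → orderOf (QuotientGroup.mk' A x) = p := fun {p x} hp h2 e => by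
    refine ((Nat.dvd_prime hp).1 (e ▸ orderOf_map_dvd _ x)).resolve_left fun c => h2 ?_
    exact h.pi.elt (hA ((QuotientGroup.eq_one_iff x).1 (orderOf_eq_one_iff.1 c))) p hp e.symm.dvd
  exact ⟨h.om.surj _ (QuotientGroup.mk'_surjective A), h.nml.map _ (QuotientGroup.mk'_surjective A),
    h.pi.of_dvd (card_map_dvd _ _), k f13.out (by decide) h.r13, k Nat.prime_three (by decide) h.y3,
    by rw [← map_pow, ← map_mul, h.ry, map_mul]⟩

theorem yN (h : Ctx T r y) : y ∈ N(zpowers r) := by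
  refine (inv_mem_iff (H := N(zpowers r))).1 (mem_N_of_finite ?_)
  rintro _ ⟨i, rfl⟩
  rw [← conj_zpow, inv_inv, mul_assoc, h.ry, inv_mul_cancel_left]
  exact zpow_mem (npow_mem_zpowers _ _) _

theorem six (h : Ctx T r y) (ha : a ∈ T) : ((a * y) ^ 3) ^ 2 = 1 := by
  have := h.nml
  have d := ord_dvd ha (eq_bot_iff.2 ((inf_le_inf_left _ (zpowers_le.2 h.yN)).trans (h.om.inf_N h.r13 h.p').le))
  have k := h.om (a * y)
  rw [← pow_mul, ← orderOf_dvd_iff_pow_eq_one]
  rw [h.y3] at d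
  rcases k with e | e | e | e | e | e | e <;> rw [e] at d ⊢ <;> revert d <;> decide

theorem el2 (h : Ctx T r y) (ab : Abel T) (ha : a ∈ T) : a ^ 2 = 1 :=
  have := h.nml
  h.om.maz h.r13 h.p' ab h.yN (by rw [h.y3]; decide) (fun _ hb => h.y3 ▸ h.six hb) ha

theorem cls2 (h : Ctx T r y) : ⁅⁅T, T⁆, T⁆ = ⊥ := by
  induction' e : Nat.card G using Nat.strong_induction_on with n ih generalizing G
  subst e
  by_cases h1 : T = ⊥
  · simp [h1]
  have := h.nml
  have : (Z(T)).Normal := nml_top.Z.normal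
  have k := ih _ (by
    rw [card_eq_card_quotient_mul_card_subgroup Z(T)]
    exact lt_mul_of_one_lt_right Nat.card_pos (one_lt_card (h.pi.nil.Z_ne_bot h1))) (h.quo (A := Z(T)) inf_le_left) rfl
  rw [← map_commutator, ← map_commutator, Subgroup.map_eq_bot_iff, QuotientGroup.ker_mk'] at k
  have y3 : y ^ 3 = 1 := h.y3 ▸ pow_orderOf_eq_one y
  have fx : ∀ c : T, MulAut.conjNormal y c = c ↔ c * y = y * c := fun c => by
    rw [Subtype.ext_iff, MulAut.conjNormal_apply, mul_inv_eq_iff_eq_mul, eq_comm]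
  have sq : ∀ c : T, MulAut.conjNormal y c = c → c * c = 1 := fun c hc => Subtype.ext (by
    have := h.six c.2
    rw [Commute.mul_pow ((fx c).1 hc), y3, mul_one, ← pow_mul] at this
    rw [coe_mul, ← pow_two, coe_one, ← orderOf_dvd_iff_pow_eq_one]
    exact (h.pi.elt c.2).dvd_of_dvd_mul (n := 3) ((piNat_self Nat.prime_three).p'_of_ne (by decide))
      (orderOf_dvd_of_pow_eq_one this))
  have c3 := cls3 (T := T) (r := MulAut.conjNormal r) (y := MulAut.conjNormal y)
    (by rw [← map_pow, ← h.r13, pow_orderOf_eq_one, map_one]) (by rw [← map_pow, ← map_mul, h.ry, map_mul])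
    ((piNat_compl_iff_coprime f13.out).1 h.p') (fun _ => pow_card_eq_one') (h.om.nrm13 h.r13 h.p') (fun a => ?_)
    (fun c d hc hd => ?_) fun a b c => mem_center_iff.2 fun g => Subtype.ext
      ((k (commutator_mem_commutator (commutator_mem_commutator a.2 b.2) c.2)).2 g g.2)
  · rw [comm_eq_bot_iff, commutator_le]
    exact fun a ha b hb c hc => (commutatorElement_eq_one_iff_mul_comm.1
      (congrArg Subtype.val (c3 ⟨a, ha⟩ ⟨b, hb⟩ ⟨c, hc⟩))).symm
  · obtain ⟨x, hx, c, hc, e1, e2⟩ := H19.exists_conj_coset_centralizer T y (norm_of_normal (H := ⊤) trivial)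
      (h.y3 ▸ ((piNat_self Nat.prime_three).p'_of_ne (by decide)).coprime' h.pi) a a.2
    refine ⟨⟨x, hx⟩⁻¹, ⟨c, hc⟩ ^ 3, by rw [map_pow, (fx ⟨c, hc⟩).2 e1], Subtype.ext ?_⟩
    have := congrArg (· ^ 3) e2
    simp only [conj_pow, Commute.mul_pow e1, y3, mul_one] at this
    rw [coe_nrm, y3]
    simp [← this, mul_assoc]
  · have := sq (c * d) (by rw [map_mul, hc, hd])
    calc c * d = c * (c * d * (c * d)) * d := by rw [this, mul_one]
      _ = c * c * (d * c) * (d * d) := by simp only [mul_assoc]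
      _ = _ := by rw [sq c hc, sq d hd, one_mul, mul_one]

theorem exp4 (h : Ctx T r y) (ha : a ∈ T) : a ^ 4 = 1 := by
  have := h.nml
  have k := (h.quo (A := ⁅T, T⁆) der_le).el2 (abel_iff_der.2 (by
    rw [← map_commutator, Subgroup.map_eq_bot_iff, QuotientGroup.ker_mk'])) (mem_map_of_mem _ ha)
  rw [← map_pow] at k
  exact (pow_mul a 2 2).trans ((h.sub der_le inferInstance).el2
    ((comm_eq_bot_iff.1 h.cls2).trans (C_anti der_le)) ((QuotientGroup.eq_one_iff _).1 k))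

end Ctx

theorem core_eq_bot (h : Om G) (hs : Group.IsSolvable G) (h13 : 13 ∣ Nat.card G) (hg : orderOf g = 8)
    (hx : orderOf x = 3) : O[{13}ᶜ]((⊤ : Subgroup G)) = ⊥ := by
  by_contra h1
  set F := O[{13}ᶜ]((⊤ : Subgroup G))
  have : F.Normal := pcore_nml.normal
  have hF : PiGrp {13}ᶜ F := pcore_pi
  have nF : ∀ f ∈ F, ¬ 13 ∣ orderOf f := fun f hf => (piNat_compl_iff f13.out).1 (hF.elt hf)
  have o13 : ∀ {g : G}, PiElt {13} g → g ≠ 1 → orderOf g = 13 := fun {g} hg g1 => by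
    obtain ⟨q, -, d, rfl⟩ := hg.exists_mem g1
    have := h g
    unfold Wn at this
    omega
  obtain ⟨R, hR⟩ := exists_sylow f13.out O2[{13}ᶜ,{13}]((⊤ : Subgroup G))
  have R1 : R ≠ ⊥ := by
    rintro rfl
    have := (hR.compl_of_eq_bot).of_le (solvable_p_constrained (solv_top_iff.2 hs) hR)
    exact (piNat_compl_iff f13.out).1 this (by simpa using h13)
  obtain ⟨r, hr, r1⟩ := exists_mem_ne_one' R1
  have r13 := o13 (hR.pi.elt hr) r1
  obtain rfl : zpowers r = R := by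
    refine eq_of_card_ge (zpowers_le.2 hr) ?_
    by_contra! c
    obtain ⟨i, hi⟩ := hR.pi.card_eq_pow
    rw [card_zpowers', r13, hi] at c
    obtain ⟨P, l, hP⟩ := exists_sub_card_pow (H := R) (n := 2) f13.out (hi ▸ pow_dvd_pow _ (by
      by_contra! d
      interval_cases i <;> omega))
    obtain ⟨w, hw⟩ := (H1.cyc_of_semireg_abel (abel_of_card_sq f13.out hP) norm_of_normal h1 fun b hb b1 =>
      eq_bot_iff.2 fun f hf => h.c13 (o13 (hR.pi.elt (l hb)) b1) (mem_C1.1 hf.2) (nF f hf.1)).exists_ofOrder_eq_natCard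
    have := h w
    rw [orderOf_coe, hw, hP] at this
    revert this; decide
  have dec : ∀ g : G, ∃ f ∈ F, ∃ n ∈ N(zpowers r), g = f * n ∧ orderOf n ∣ orderOf g := fun g => by
    obtain ⟨m, hm, n, hn, rfl⟩ := frattini_elt f13.out hR (pcore2_nml.norm (mem_top g))
    obtain ⟨f, hf, s, hs, rfl⟩ := (mem_sup_of_norm' norm_of_normal).1 (hR.sup_pcore2.ge hm)
    have := mul_mem (le_N hs) hn
    exact ⟨f, hf, _, this, mul_assoc .., mul_assoc f s n ▸ ord_dvd hf
      (eq_bot_iff.2 ((inf_le_inf_left _ (zpowers_le.2 this)).trans (h.inf_N r13 hF).le))⟩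
  have nil : Nil F := H23.thompson_prime norm_of_normal (by rw [card_zpowers', r13]; exact f13.out)
    (eq_bot_iff.2 ((inf_le_inf_left _ C_le_N).trans (h.inf_N r13 hF).le))
  obtain ⟨f, hf, n, hn, rfl, d8⟩ := dec g
  obtain ⟨f', hf', m, hm, rfl, d3⟩ := dec x
  rw [hg] at d8
  rw [hx] at d3
  have n13 : ¬ 13 ∣ orderOf n := fun c => absurd (c.trans d8) (by decide)
  have m13 : ¬ 13 ∣ orderOf m := fun c => absurd (c.trans d3) (by decide)
  by_cases c3 : 3 ∣ Nat.card F
  · have : O[{3}](F).Normal := nml_top.pcore.normal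
    have k := h.pk r13 (pcore_pi : PiGrp {3} O[{3}](F)) (by decide)
      (nil.pcore_hall.ne_bot_p Nat.prime_three c3) hn n13
    have n2 : n ^ 2 = 1 := by
      rw [← orderOf_dvd_iff_pow_eq_one]
      rcases h n with e | e | e | e | e | e | e <;> rw [e] at k ⊢ <;> revert k <;> decide
    obtain ⟨u, hu, u3⟩ := cauchy Nat.prime_three c3
    have o4 : orderOf ((f * n) ^ 2) = 4 := by rw [orderOf_pow, hg]; rfl
    have cp : (orderOf ((f * n) ^ 2)).Coprime (orderOf u) := by rw [o4, u3]; decide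
    have := h.mul (comm_of_cent (nil.cent_coprime (zpowers_le.2 (by simpa [n2] using pow_mem_of hf n 2))
      (zpowers_le.2 hu) (by simpa only [card_zpowers'] using cp)) (mem_zpowers _) (mem_zpowers _)) cp
    rw [o4, u3] at this
    revert this; decide
  have F2 : PiGrp {2} F := fun q hq d => by
    rcases h.prime hq d with rfl | rfl | rfl
    exacts [rfl, (c3 d).elim, (hF _ hq d rfl).elim]
  have m3 : orderOf m = 3 := ((Nat.dvd_prime Nat.prime_three).1 d3).resolve_left fun c => by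
    rw [orderOf_eq_one_iff.1 c, mul_one] at hx
    exact c3 (hx ▸ orderOf_dvd_card hf')
  obtain ⟨e, he, k⟩ := h.exE r13 hn n13
  obtain ⟨e', he', k'⟩ := h.exE r13 hm m13
  by_cases n1 : n = 1
  · rw [n1, mul_one] at hg
    have a1 := (k' 3).2 m3.dvd
    have a2 := mt (k' 1).1 (by rw [m3]; decide)
    obtain ⟨y, hy⟩ : ∃ y, Ctx F r y := by
      rcases (by decide : ∀ e : ZMod 13, e ^ 3 = 1 → ¬ e ^ 1 = 1 → e = 3 ∨ e ^ 2 = 3) _ a1 a2 with c | c
      · exact ⟨m, h, this, F2, r13, m3, by rw [he', (pow_cast r13 (j := 3)).2 c]⟩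
      · exact ⟨m ^ 2, h, this, F2, r13, by rw [orderOf_pow, m3]; rfl,
          by rw [twG he', (pow_cast r13 (j := 3)).2 (by rw [Nat.cast_pow, c]; rfl)]⟩
    exact absurd (hg ▸ orderOf_dvd_of_pow_eq_one (hy.exp4 hf)) (by decide)
  have w : r * (n * m) = n * m * r ^ (e' * e) := by
    rw [← mul_assoc, he, mul_assoc, ← (SemiconjBy.pow_right (he'.symm : SemiconjBy m (r ^ e') r) e).eq, pow_mul, mul_assoc]
  have w1 : ((e' : ZMod 13) * e) ^ orderOf (n * m) = 1 := by
    have := twG w (orderOf (n * m))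
    rw [pow_orderOf_eq_one, mul_one, one_mul] at this
    exact_mod_cast (pow_cast r13 (j := 1)).1 (by rw [← this, pow_one])
  have b3 : 3 ∣ orderOf (n * m) := (by decide : Nat.Coprime 3 8).dvd_of_dvd_mul_right (m3 ▸ (k' _).1 (by
    have := congrArg (· ^ 8) w1
    simp only [mul_pow, ← pow_mul] at this
    rwa [(k _).2 (d8.mul_left _), mul_one, one_pow] at this))
  have b2 : orderOf n ∣ orderOf (n * m) * 3 := (k _).1 (by
    have := congrArg (· ^ 3) w1
    simp only [mul_pow, ← pow_mul] at this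
    rwa [(k' _).2 (m3.dvd.mul_left _), one_mul, one_pow] at this)
  have a1 := h (n * m)
  have a2 := h n
  have a3 := h.pk r13 F2 (by decide) h1 (mul_mem hn hm) fun c => by
    unfold Wn at a1
    omega
  rw [← orderOf_eq_one_iff] at n1
  have a4 : orderOf (n * m) = 3 := by
    unfold Wn at a1 a3
    omega
  rw [a4] at b2
  rcases a2 with e | e | e | e | e | e | e <;> rw [e] at b2 d8 n1 <;> revert b2 d8 n1 <;> decide

end H326.Cr
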