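import Cfsg.Agent.H26.Cr2
import Cfsg.Agent.H1.LiftChar
import Cfsg.Agent.H9.Quat

/-! The binary octahedral group as a Frobenius complement in characteristic `13`: `to_S4` (a group with a unique
involution and element orders `1, 2, 3, 4, 6, 8` maps onto `S₄` with kernel of order two), `dim6`, `frob13`. -/

set_option autoImplicit false
set_option linter.unusedSectionVars false

namespace H326.Cr

open Cfsg H18 Subgroup Equiv
open scoped commutatorElement

theorem s4_dec : ∀ g : Perm (Fin 4), ∃ l < 2, ∃ i < 3, ∃ j < 2, ∃ k < 3,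
    g = swap 0 1 ^ l * (swap 0 1 * swap 1 2) ^ i * (swap 1 2 * swap 2 3) ^ j * (swap 0 1 * swap 1 2) ^ k := by
  decide +kernel

theorem a4_pow : ∀ g : Perm (Fin 4), Perm.sign g = 1 → g ^ 2 = 1 ∨ g ^ 3 = 1 := by decide +kernel

theorem dim6 {H M : Type*} [Group H] [AddCommGroup M] [Module (ZMod 13) M] [Nontrivial M]
    (ρ : H →* Module.End (ZMod 13) M) (φ : H →* Perm (Fin 4)) (sj : Function.Surjective φ)
    (hk : ∀ h, φ h = 1 → h ^ 2 = 1) (fp : ∀ x, x ≠ 1 → ∀ v, ρ x v = v → v = 0)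
    (irr : ∀ W : Submodule (ZMod 13) M, (∀ h, ∀ w ∈ W, ρ h w ∈ W) → W ≠ ⊥ → W = ⊤) :
    Module.finrank (ZMod 13) M ≤ 6 := by
  obtain ⟨x₀, hx₀⟩ := sj (swap 0 1 * swap 1 2)
  obtain ⟨y, hy⟩ := sj (swap 1 2 * swap 2 3)
  obtain ⟨s, hs⟩ := sj (swap 0 1)
  obtain ⟨x, x3, hx⟩ : ∃ x : H, x * x * x = 1 ∧ φ x = swap 0 1 * swap 1 2 := by
    have := hk (x₀ ^ 3) (by rw [map_pow, hx₀]; decide)
    refine ⟨x₀ ^ 4, ?_, by rw [map_pow, hx₀]; decide⟩
    rw [← pow_mul] at this
    rw [← pow_add, ← pow_add, show 4 + 4 + 4 = 3 * 2 * 2 from rfl, pow_mul, this, one_pow]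
  have mu : ∀ g h w, ρ (g * h) w = ρ g (ρ h w) := fun g h w => by rw [map_mul]; rfl
  have hX : ∀ w, ρ x (ρ x w) = -ρ x w - w := fun w => by
    have := fp x (fun e => by rw [e, map_one] at hx; revert hx; decide) (ρ x (ρ x w) + ρ x w + w) (by
      rw [map_add, map_add, ← mu, ← mu, x3, map_one, Module.End.one_apply]; abel)
    linear_combination (norm := module) this
  obtain ⟨v, v0, c, hv⟩ : ∃ v ≠ 0, ∃ c : ZMod 13, ρ x v = c • v := by
    obtain ⟨u, hu⟩ := exists_ne (0 : M)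
    by_cases e : ρ x u = (9 : ZMod 13) • u
    · exact ⟨u, hu, 9, e⟩
    have z : ∀ w : M, (13 : ZMod 13) • w = 0 := fun w => zero_smul _ w
    refine ⟨ρ x u - (9 : ZMod 13) • u, sub_ne_zero.2 e, 3, ?_⟩
    rw [map_sub, map_smul, hX]
    linear_combination (norm := module) (2 : ZMod 13) • z u - z (ρ x u)
  let W := Submodule.span (ZMod 13) (Set.range ![v, ρ y v, ρ x (ρ y v), ρ s v, ρ s (ρ y v), ρ s (ρ x (ρ y v))])
  have mW : ∀ i, ![v, ρ y v, ρ x (ρ y v), ρ s v, ρ s (ρ y v), ρ s (ρ x (ρ y v))] i ∈ W := fun i =>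
    Submodule.subset_span ⟨i, rfl⟩
  let W₀ := W ⊓ W.comap (ρ s)
  let W₁ := W₀ ⊓ W₀.comap (ρ x)
  have v0' : v ∈ W₀ := ⟨mW 0, mW 3⟩
  have pw : ∀ (i : ℕ), ∀ w ∈ W₁, ρ (x ^ i) w ∈ W₁ := fun i w hw => by
    induction i with
    | zero => simpa using hw
    | succ i ih => rw [pow_succ', mu]; exact ⟨ih.2, show ρ x (ρ x _) ∈ W₀ from hX _ ▸ sub_mem (neg_mem ih.2) ih.1⟩
  have ev : ∀ k : ℕ, ρ (x ^ k) v = c ^ k • v := fun k => by
    induction k with
    | zero => simp
    | succ k ih => rw [pow_succ', mu, ih, map_smul, hv, smul_smul, pow_succ]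
  have key : ∀ h, ρ h v ∈ W := fun h => by
    obtain ⟨l, hl, i, -, j, hj, k, -, e⟩ := s4_dec (φ h)
    obtain ⟨t, rfl⟩ : ∃ t, h = s ^ l * x ^ i * y ^ j * x ^ k * t := ⟨_, (mul_inv_cancel_left _ h).symm⟩
    have t2 := hk t (by simpa only [map_mul, map_pow, hx, hy, hs, mul_eq_left] using e)
    obtain ⟨d, hd⟩ : ∃ d : ZMod 13, ρ t v = d • v := by
      by_cases t1 : t = 1
      · exact ⟨1, by simp [t1]⟩
      · have := fp t t1 (ρ t v + v) (by rw [map_add, ← mu, ← pow_two, t2, map_one, add_comm]; rfl)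
        exact ⟨-1, by linear_combination (norm := module) this⟩
    rw [mu, hd, map_smul, mu, ev, map_smul, mu, mu]
    refine W.smul_mem _ (W.smul_mem _ ?_)
    have := (pw i (ρ (y ^ j) v) (by
      interval_cases j
      · rw [pow_zero, map_one]; exact ⟨v0', show ρ x v ∈ W₀ from hv ▸ W₀.smul_mem c v0'⟩
      · rw [pow_one]; exact ⟨⟨mW 1, mW 4⟩, mW 2, mW 5⟩)).1
    interval_cases l
    · simpa using this.1
    · simpa using this.2
  have := irr (Submodule.span (ZMod 13) (Set.range fun h => ρ h v)) (fun g w hw => (Submodule.span_le (p := .comap (ρ g)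
    (Submodule.span (ZMod 13) (Set.range fun h => ρ h v)))).2 (by
    rintro _ ⟨h, rfl⟩
    exact Submodule.subset_span ⟨g * h, mu g h v⟩) hw) fun e => v0 (by
      simpa using (Submodule.span_eq_bot.1 e) _ ⟨1, rfl⟩)
  exact finrank_le_of_span_eq_top (v := ![v, ρ y v, ρ x (ρ y v), ρ s v, ρ s (ρ y v), ρ s (ρ x (ρ y v))])
    (top_le_iff.1 (this.ge.trans (Submodule.span_le.2 (by rintro _ ⟨h, rfl⟩; exact key h))))

theorem to_S4 {H : Type*} [Group H] [Finite H] (h : Om H) (h13 : ¬ 13 ∣ Nat.card H) (h9 : ¬ 9 ∣ Nat.card H) {z g x : H}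
    (hz : orderOf z = 2) (hu : ∀ t : H, orderOf t = 2 → t = z) (hg : orderOf g = 8) (hx : orderOf x = 3) :
    ∃ φ : H →* Perm (Fin 4), Function.Surjective φ ∧ φ.ker = zpowers z := by
  have := Fact.mk Nat.prime_three
  have zc : ∀ a, a * z = z * a := fun a => mul_inv_eq_iff_eq_mul.1 (hu _ (orderOf_conj.trans hz))
  have cx : ∀ c, c * x = x * c → PiElt {2} c → c ∈ zpowers z := fun c e hc => by
    have := h.mul e (hc.coprime (hx ▸ (piNat_self Nat.prime_three).p'_of_ne (by decide)))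
    rw [hx] at this
    rcases (by unfold Wn at this; omega : orderOf c = 1 ∨ orderOf c = 2) with e | e
    · exact orderOf_eq_one_iff.1 e ▸ one_mem _
    · exact hu c e ▸ mem_zpowers _
  obtain ⟨S, hS⟩ := exists_sylow Nat.prime_two (⊤ : Subgroup H)
  have c16 : Nat.card S ∣ 16 := by
    rcases H9.isCyclic_or_qData hS.pi.isPGroup fun v _ w _ a b => (hu v a).trans (hu w b).symm with c | ⟨n, a, b, c⟩
    · obtain ⟨w, hw⟩ := c.exists_ofOrder_eq_natCard
      have k := hS.pi.not_dvd Nat.prime_three (by decide)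
      have k' := hS.pi.not_dvd f13.out (by decide)
      rcases h w with e | e | e | e | e | e | e <;> rw [orderOf_coe, hw] at e <;> rw [e] at k k' ⊢ <;> revert k k' <;> decide
    · have k := h a
      have : 2 ∣ 2 ^ (n + 1) := dvd_pow_self 2 n.succ_ne_zero
      have k' : ¬ 3 ∣ 2 ^ (n + 1) := fun d => absurd (Nat.prime_three.dvd_of_dvd_pow d) (by decide)
      rw [c.ordx] at k
      rw [c.card_eq]
      rcases (by unfold Wn at k; omega : 2 ^ (n + 1) = 2 ∨ 2 ^ (n + 1) = 4) with e | e <;> rw [e] <;> decide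
  obtain ⟨P, hP⟩ : ∃ P : Sylow 3 H, (P : Subgroup H) = zpowers x := Hall.exists_sylow_top Nat.prime_three
    ⟨le_top, piGrp_of_prime Nat.prime_three (card_zpowers'.trans hx), (piNat_compl_iff Nat.prime_three).2 fun d => h9 (by
      rw [← card_mul_index (zpowers x), card_zpowers', hx, ← relIndex_top_right]
      exact Nat.mul_dvd_mul_left 3 d)⟩
  have c48 : Nat.card H ∣ 48 := by
    obtain ⟨i, hi⟩ := (show PiNat {3} S.index from fun q hq d => by
      rcases h.prime (A := ⊤) hq (by rw [card_top]; exact d.trans S.index_dvd_card) with rfl | rfl | rfl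
      exacts [(hS.idx _ hq (by simpa using d) rfl).elim, rfl, (h13 (d.trans S.index_dvd_card)).elim]).eq_pow
        index_ne_zero_of_finite
    rw [← card_mul_index S, hi] at h9 ⊢
    refine mul_dvd_mul c16 (pow_dvd_pow 3 (show i ≤ 1 from ?_))
    by_contra! c
    exact h9 ((pow_dvd_pow 3 c).mul_left _)
  have zN : zpowers z ≤ N(zpowers x) := zpowers_le.2 (C1_le_N_zpowers (mem_C1.2 (zc x).symm))
  have nN : g ∉ N(zpowers x) := fun c => by
    have d := prime_relIndex_C_dvd Nat.prime_three (card_zpowers'.trans hx) (le_refl N(zpowers x))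
    have := (nml_C_N (H := zpowers x)).subgroupOf_normal
    have m := mem_subgroupOf.1 ((C(zpowers x).subgroupOf N(zpowers x)).pow_index_mem ⟨g, c⟩)
    obtain ⟨j, hj⟩ := d
    have m2 : g ^ 2 ∈ C1(x) := by
      rw [← C_zpowers, show 2 = 3 - 1 from rfl, hj, pow_mul]
      exact pow_mem m j
    have := orderOf_dvd_card (cx _ (mem_C1.1 m2) (by rw [PiElt, orderOf_pow, hg]; exact piNat_pow_self Nat.prime_two 2))
    rw [card_zpowers', hz, orderOf_pow, hg] at this
    revert this; decide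
  have i4 : N(zpowers x).index = 4 := by
    have m := card_sylow_modEq_one 3 H
    rw [P.card_eq_index_normalizer, show normalizer (P : Set H) = N(zpowers x) by rw [← hP]; rfl] at m
    have d6 : 6 ∣ Nat.card N(zpowers x) := (by decide : Nat.Coprime 2 3).mul_dvd_of_dvd_of_dvd
      (hz ▸ orderOf_dvd_card (zN (mem_zpowers z))) (hx ▸ orderOf_dvd_card (le_N (mem_zpowers x)))
    rw [← card_mul_index N(zpowers x)] at c48
    have d8 : N(zpowers x).index ∣ 8 := Nat.dvd_of_mul_dvd_mul_left (by decide : 0 < 6) ((mul_dvd_mul_right d6 _).trans c48)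
    have n1 : N(zpowers x).index ≠ 1 := fun e => nN (index_eq_one.1 e ▸ mem_top g)
    have := Nat.le_of_dvd (by decide) d8
    generalize N(zpowers x).index = i at *
    interval_cases i <;> revert d8 n1 m <;> decide
  let φ : H →* Perm (Fin 4) := (Finite.equivFinOfCardEq i4).permCongrHom.toMonoidHom.comp
    (MulAction.toPermHom H (H ⧸ N(zpowers x)))
  have hk : φ.ker = zpowers z := by
    rw [show φ.ker = N(zpowers x).normalCore by
      rw [normalCore_eq_ker]; ext a; simp [φ]]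
    have : (zpowers z).Normal := norm_top_iff.1 (cent_norm (by rw [C_zpowers]; exact fun a _ => mem_C1.2 (zc a)))
    refine le_antisymm ?_ (normal_le_normalCore.2 zN)
    set K := N(zpowers x).normalCore
    have hP' := hP ▸ hall_sylow_top Nat.prime_three P
    have xK : ¬ zpowers x ≤ K := fun c => by
      obtain ⟨k, hk, e⟩ := sylow_conj Nat.prime_three (hP'.of_le c le_top) ((hP'.of_le c le_top).cj_N
        (norm_of_normal (H := ⊤) (mem_top g)))
      exact nN (mem_N_iff_cj.2 (e.trans (cj_eq_self (normalCore_le _ hk))))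
    have pr : (Nat.card (zpowers x)).Prime := by rw [card_zpowers', hx]; exact Nat.prime_three
    have := cent_of_inf_eq_bot (normalCore_le _ : K ≤ _) norm_of_normal (inf_comm K _ ▸ prime_TI pr xK)
    refine fun c hc => cx c (mem_C1.1 (C_zpowers.le (this hc))) fun q hq d => ?_
    have d' := d.trans (orderOf_dvd_card hc)
    rcases h.prime hq d' with rfl | rfl | rfl
    · rfl
    · exact (xK ((hP'.inf_nml nml_top).ne_bot_p hq d' |> prime_le_of_inf_ne_bot pr)).elim
    · exact (h13 (d.trans (orderOf_dvd_natCard c))).elim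
  refine ⟨φ, MonoidHom.range_eq_top.1 ?_, hk⟩
  have e : Nat.card H = Nat.card φ.range * 2 := by
    rw [← card_mul_index φ.ker, index_ker, hk, card_zpowers', hz, mul_comm]
  have d24 : 24 ∣ Nat.card H := (by decide : Nat.Coprime 8 3).mul_dvd_of_dvd_of_dvd
    (hg ▸ orderOf_dvd_natCard g) (hx ▸ orderOf_dvd_natCard x)
  have e2 := card_mul_index φ.range
  rw [Nat.card_perm, Nat.card_fin, show Nat.factorial 4 = 24 from rfl] at e2
  obtain ⟨j, hj⟩ := d24
  have : φ.range.index * j = 2 := by nlinarith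
  rcases (Nat.dvd_prime Nat.prime_two).1 ⟨j, this.symm⟩ with c | c
  · exact index_eq_one.1 c
  have m : ∀ n, φ g ^ n = 1 → 8 ∣ n * 2 := fun n e => hg ▸ orderOf_dvd_of_pow_eq_one (by
    have := pow_card_eq_one_of_mem (hk.le (show g ^ n ∈ φ.ker from (map_pow φ g n).trans e))
    rwa [card_zpowers', hz, ← pow_mul] at this)
  rcases a4_pow (φ g) (Perm.mem_alternatingGroup.1 (Perm.eq_alternatingGroup_of_index_eq_two c ▸ ⟨g, rfl⟩)) with k | k <;>
    exact absurd (m _ k) (by decide)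

theorem frob13 {G : Type*} [Group G] [Finite G] (h : Om G) {V H : Subgroup G} (hV : Elem 13 V) (mn : MinNorm V ⊤)
    (sd : SD V H ⊤) (h13 : ¬ 13 ∣ Nat.card H) {g x : H} (hg : orderOf g = 8) (hx : orderOf x = 3) :
    Nat.card V = 13 ^ 4 ∧ Semireg V H ∧ ∃ (Z : Subgroup H) (_ : Z.Normal), Nat.card Z = 2 ∧
      (∀ Z' : Subgroup H, Nat.card Z' = 2 → Z' = Z) ∧ Nonempty (H ⧸ Z ≃* Perm (Fin 4)) := by
  have sr : Semireg V H := fun a ha a1 => eq_bot_iff.2 fun v hv => by
    by_contra c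
    exact a1 (h.c13 (orderOf_eq_prime (hV.pow v hv.1) c) (mem_C1.1 hv.2).symm fun d => h13 (d.trans (orderOf_dvd_card ha)))
  have h9 : ¬ 9 ∣ Nat.card H := fun d => by
    obtain ⟨P, l, hP⟩ := exists_sub_card_pow (H := H) (n := 2) Nat.prime_three d
    obtain ⟨w, hw⟩ := (H1.cyc_of_semireg_abel (abel_of_card_sq Nat.prime_three hP) (l.trans sd.norm) mn.ne_bot
      (sr.mono le_rfl l)).exists_ofOrder_eq_natCard
    have := h w
    rw [orderOf_coe, hw, hP] at this
    revert this; decide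
  have hz : orderOf (g ^ 4) = 2 := by rw [orderOf_pow, hg]; rfl
  have hu : ∀ t : H, orderOf t = 2 → t = g ^ 4 := fun t ht => by
    have k : ∀ s : H, orderOf s = 2 → (s : G) ≠ 1 ∧ (s : G) * s = 1 := fun s hs =>
      ⟨fun e => by rw [← orderOf_coe, e, orderOf_one] at hs; omega,
        by rw [← pow_two, ← hs, ← orderOf_coe, pow_orderOf_eq_one]⟩
    exact Subtype.ext (H23.semireg_invol_eq sd.norm mn.ne_bot sr t.2 (g ^ 4).2 (k _ ht).1 (k _ hz).1 (k _ ht).2 (k _ hz).2)
  obtain ⟨φ, sj, hk⟩ := to_S4 (h.inj H.subtype H.subtype_injective) h13 h9 hz hu hg hx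
  have c2 : Nat.card φ.ker = 2 := by rw [hk, card_zpowers', hz]
  refine ⟨?_, sr, φ.ker, inferInstance, c2, fun Z hZ => ?_, ⟨QuotientGroup.quotientKerEquivOfSurjective φ sj⟩⟩
  · have : Nontrivial (H1.EV hV) := (nontrivial_iff_ne_bot V).2 mn.ne_bot
    have d6 := dim6 (H1.elemRep hV H.subtype fun a => sd.norm a.2) φ sj
      (fun a e => c2 ▸ pow_card_eq_one_of_mem (show a ∈ φ.ker from e))
      (fun a a1 v e => H1.EV.ext (eq_one_of_eq_bot (sr a a.2 fun c => a1 (Subtype.ext c))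
        ⟨v.mem, mem_C1.2 (mul_inv_eq_iff_eq_mul.1 (congrArg H1.EV.val e)).symm⟩)) fun W hW W0 => by
        let K : Subgroup G :=
          { carrier := {a | ∃ w ∈ W, w.val = a}
            mul_mem' := by rintro _ _ ⟨a, ha, rfl⟩ ⟨b, hb, rfl⟩; exact ⟨a + b, add_mem ha hb, rfl⟩
            one_mem' := ⟨0, zero_mem _, rfl⟩
            inv_mem' := by rintro _ ⟨a, ha, rfl⟩; exact ⟨-a, neg_mem ha, rfl⟩ }
        have l : K ≤ V := by rintro _ ⟨a, -, rfl⟩; exact a.mem
        obtain ⟨w, hw, w0⟩ := W.ne_bot_iff.1 W0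
        have := mn.min K l (ne_bot_of_mem ⟨w, hw, rfl⟩ fun e => w0 (H1.EV.ext e)) (sd.sup.ge.trans (sup_le
          (hV.abel.norm l) (norm_iff.2 (by rintro a ha _ ⟨b, hb, rfl⟩; exact ⟨_, hW ⟨a, ha⟩ b hb, rfl⟩))))
        refine top_le_iff.1 fun v _ => ?_
        obtain ⟨u, hu, e⟩ := this.ge v.mem
        exact H1.EV.ext e ▸ hu
    have e := Module.natCard_eq_pow_finrank (K := ZMod 13) (V := H1.EV hV)
    have d := sr.dvd_pred sd.norm
    have o := one_lt_card mn.ne_bot
    rw [← card_mul_index φ.ker, index_ker, MonoidHom.range_eq_top.2 sj, card_top, Nat.card_perm, Nat.card_fin, c2] at d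
    rw [Nat.card_zmod, H1.EV.card] at e
    rw [e] at d o ⊢
    generalize Module.finrank (ZMod 13) (H1.EV hV) = n at *
    interval_cases n <;> revert d o <;> decide
  · obtain ⟨t, ht, t2⟩ := cauchy Nat.prime_two hZ.symm.dvd
    rw [hk, ← hu t t2]
    exact (eq_of_card_eq (zpowers_le.2 ht) (by rw [card_zpowers', t2, hZ])).symm

end H326.Cr
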