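import Cfsg.Agent.H10.Zass2
import Cfsg.Agent.H10.Syl
import Cfsg.Agent.H22.Frobenius

/-! Numbers of elements of given order (`oc`); recognition of `PGL₂(q)` from the number of involutions
(`zass_of_inv`) and from these numbers (`PS.pgl`). -/

set_option autoImplicit false
set_option linter.unusedSectionVars false
set_option linter.unusedVariables false

namespace H326
open Subgroup MulAction
open scoped MatrixGroups

/-- the number of elements of order `k` -/
noncomputable def oc (G : Type*) [Group G] (k : ℕ) : ℕ := Nat.card {g : G // orderOf g = k}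

variable {G : Type*} [Group G] [Finite G] {p q k n r : ℕ} {x y g : G}

theorem oc_one : oc G 1 = 1 := by
  simp only [oc, orderOf_eq_one_iff]; exact Nat.card_unique

theorem oc_zero : oc G 0 = 0 := Nat.card_eq_zero.2 (.inl ⟨fun a => (orderOf_pos a.1).ne' a.2⟩)

theorem oc_sum (hn : n ≠ 0) : Nat.card {x : G // x ^ n = 1} = ∑ k ∈ n.divisors, oc G k := by
  classical
  have := Fintype.ofFinite G
  simp only [oc, Nat.card_eq_fintype_card, Fintype.card_subtype]
  exact (sum_card_orderOf_eq_card_pow_eq_one hn).symm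

theorem oc_total : Nat.card G = ∑ k ∈ (Nat.card G).divisors, oc G k := by
  rw [← oc_sum Nat.card_pos.ne']
  exact (Nat.card_congr (Equiv.subtypeUnivEquiv fun _ => pow_card_eq_one')).symm

theorem oc_prime (hp : p.Prime) (h : p ∣ Nat.card G) : p ∣ oc G p + 1 := by
  have := H22.frobenius_dvd_card_pow_eq_one h
  rwa [oc_sum hp.ne_zero, hp.sum_divisors, oc_one] at this

theorem oc_even (hk : 2 < k) : Even (oc G k) := by
  classical
  have := Fintype.ofFinite G
  let f : Function.End {g : G // orderOf g = k} := fun a => ⟨a⁻¹, (orderOf_inv _).trans a.2⟩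
  have := Equiv.Perm.card_fixedPoints_modEq (f := f) (p := 2) (n := 1) (funext fun a => Subtype.ext (inv_inv _))
  rw [(Fintype.card_eq_zero_iff (α := f.fixedPoints)).2 ⟨fun ⟨a, e⟩ => ?_⟩] at this
  · rw [oc, Nat.card_eq_fintype_card, even_iff_two_dvd]; exact Nat.modEq_zero_iff_dvd.1 this
  have e : (a : G)⁻¹ = a := congrArg Subtype.val e
  have : k ∣ 2 := by rw [← a.2, orderOf_dvd_iff_pow_eq_one, sq]; nth_rw 1 [← e]; simp
  exact absurd (Nat.le_of_dvd two_pos this) (by omega)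

theorem oc_odd (h : Odd (oc G k)) : k = 1 ∨ k = 2 := by
  have := mt (oc_even (G := G) (k := k)) (Nat.not_even_iff_odd.2 h)
  have : k ≠ 0 := by rintro rfl; simp [oc_zero] at h
  omega

theorem oc_two (h : 2 ∣ Nat.card G) : Odd (oc G 2) := by
  have := oc_prime Nat.prime_two h
  rw [Nat.odd_iff]; omega

theorem oc_two_eq {L : Type*} [Group L] [Finite L] (h : 2 ∣ Nat.card G) (h' : 2 ∣ Nat.card L)
    (e : {c : ℕ | 0 < c ∧ ∃ n, c = oc G n} = {c : ℕ | 0 < c ∧ ∃ n, c = oc L n}) : oc G 2 = oc L 2 := by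
  obtain ⟨-, i, hi⟩ := e.le ⟨(oc_two h).pos, 2, rfl⟩
  obtain ⟨-, j, hj⟩ := e.ge ⟨(oc_two h').pos, 2, rfl⟩
  obtain rfl | rfl := oc_odd (hi ▸ oc_two h)
  · obtain rfl | rfl := oc_odd (hj ▸ oc_two h')
    · rw [hi, hj, oc_one, oc_one]
    · exact hj.symm
  · exact hi

variable {Ω : Type*} [MulAction G Ω]

/-- Recognition from the point stabiliser and the number of involutions. -/
theorem zass_of_inv [Finite Ω] [IsPretransitive G Ω] (a : Ω) (K : Subgroup G) {m : ℕ}
    (hΩ : Nat.card Ω = Nat.card K + 1) (hK2 : 2 ≤ Nat.card K)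
    (hKa : ∀ k ∈ K, k • a = a) (hKn : ∀ g : G, g • a = a → ∀ k ∈ K, g * k * g⁻¹ ∈ K)
    (hKc : ∀ k ∈ K, ∀ l ∈ K, k * l = l * k)
    (hfree : ∀ k ∈ K, ∀ y, y ≠ a → k • y = y → k = 1)
    (hC : ∀ k ∈ K, k ≠ 1 → ∀ g : G, g • a = a → g * k = k * g → g ∈ K)
    (hm : Nat.card (stabilizer G a) = Nat.card K * m) (hm2 : Nat.card K ≤ 2 * m + 1)
    (ho : Odd (Nat.card K)) (hi : Nat.card K * (m + 1) ≤ oc G 2) :
    ∃ (F : Type) (_ : Field F) (_ : Fintype F), Fintype.card F = Nat.card K ∧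
      ((m + 1 = Nat.card K ∧ Nonempty (G ≃* PGL(2, F))) ∨
        (2 * m + 1 = Nat.card K ∧ Nonempty (G ≃* PSL(2, F)))) := by
  classical
  have htr : ∀ b y, b ≠ a → y ≠ a → ∃ k ∈ K, k • b = y := by
    intro b y hb hy
    let f : K → {y : Ω // y ≠ a} := fun k => ⟨(k : G) • b, fun h => hb (by
      rw [← hKa _ k.2] at h; exact smul_left_cancel _ h)⟩
    have hf : Function.Injective f := fun k l h => by
      have h' : (k : G) • b = (l : G) • b := congrArg Subtype.val h
      have := hfree ((l : G)⁻¹ * k) (K.mul_mem (K.inv_mem l.2) k.2) b hb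
        (by rw [mul_smul, h', inv_smul_smul])
      exact Subtype.ext (inv_mul_eq_one.1 this).symm
    have hc : Nat.card K = Nat.card {y : Ω // y ≠ a} := by
      have := Fintype.ofFinite Ω
      rw [Nat.card_eq_fintype_card (α := {y : Ω // y ≠ a}), Fintype.card_subtype_compl,
        Fintype.card_subtype_eq, ← Nat.card_eq_fintype_card, hΩ, Nat.add_sub_cancel]
    obtain ⟨k, hk⟩ := ((Nat.bijective_iff_injective_and_card f).2 ⟨hf, hc⟩).2 ⟨y, hy⟩
    exact ⟨k, k.2, congrArg Subtype.val hk⟩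
  have h2 : ∀ x y z w : Ω, x ≠ y → z ≠ w → ∃ g : G, g • x = z ∧ g • y = w := by
    intro x y z w hxy hzw
    obtain ⟨g, hg⟩ := exists_smul_eq G x a
    obtain ⟨g', hg'⟩ := exists_smul_eq G z a
    obtain ⟨k, hk, e⟩ := htr (g • y) (g' • w) (fun h => hxy (smul_left_cancel g (hg.trans h.symm)))
      (fun h => hzw (smul_left_cancel g' (hg'.trans h.symm)))
    refine ⟨g'⁻¹ * k * g, ?_, ?_⟩
    · rw [mul_smul, mul_smul, hg, hKa k hk, ← hg', inv_smul_smul]
    · rw [mul_smul, mul_smul, e, inv_smul_smul]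
  have hnt : Nontrivial Ω := Finite.one_lt_card_iff_nontrivial.1 (by omega)
  obtain ⟨b, hb⟩ := exists_ne a
  have hK1 : K ≠ ⊥ := by rintro rfl; simp at hK2
  obtain ⟨H, hH⟩ : ∃ H : Subgroup G, ∀ h, h ∈ H ↔ h • a = a ∧ h • b = b :=
    ⟨stabilizer G a ⊓ stabilizer G b, fun h => Iff.rfl⟩
  have hH1 : ∀ {h}, h ∈ H → h • a = a := fun h => ((hH _).1 h).1
  have hH2 : ∀ {h}, h ∈ H → h • b = b := fun h => ((hH _).1 h).2
  have hsemi : ∀ h ∈ H, ∀ y, y ≠ a → y ≠ b → h • y = y → h = 1 := by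
    intro h hh y hya hyb hy
    obtain ⟨k, hk, rfl⟩ := htr b y hb hya
    have hk1 : k ≠ 1 := by rintro rfl; exact hyb (one_smul _ _)
    have e1 : k⁻¹ * (h * k * h⁻¹) = 1 := by
      refine hfree _ (K.mul_mem (K.inv_mem hk) (hKn h (hH1 hh) k hk)) b hb ?_
      rw [mul_smul, mul_smul, mul_smul, ((hH _).1 (H.inv_mem hh)).2, hy, inv_smul_smul]
    have e2 : h * k = k * h := by
      rw [inv_mul_eq_one] at e1
      exact mul_inv_eq_iff_eq_mul.1 e1.symm
    exact hfree h (hC k hk hk1 h (hH1 hh) e2) b hb (hH2 hh)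
  obtain ⟨⟨k, hk⟩, hk1⟩ := ne_bot_iff_exists_ne_one.1 hK1
  replace hk1 : k ≠ 1 := fun e => hk1 (Subtype.ext e)
  have hfaith : ∀ g : G, (∀ x : Ω, g • x = x) → g = 1 := fun g hg => by
    refine hsemi g ((hH _).2 ⟨hg a, hg b⟩) (k • b) (fun h => hb ?_) (fun h => hk1 (hfree k hk b hb h)) (hg _)
    rw [← hKa _ hk] at h; exact smul_left_cancel _ h
  have hHcard : Nat.card H = m := by
    have hbij : Function.Bijective (fun q : K × H => (⟨q.1 * q.2, by
        rw [mem_stabilizer_iff, mul_smul, hH1 q.2.2, hKa _ q.1.2]⟩ : stabilizer G a)) := by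
      constructor
      · rintro ⟨k, h⟩ ⟨k', h'⟩ e
        have e' : (k : G) * h = k' * h' := congrArg Subtype.val e
        have e1 : (k' : G)⁻¹ * k = 1 := by
          refine hfree _ (K.mul_mem (K.inv_mem k'.2) k.2) b hb ?_
          have : (k' : G)⁻¹ * k = h' * (h : G)⁻¹ := by
            rw [inv_mul_eq_iff_eq_mul, ← mul_assoc, ← e']; group
          rw [this]
          exact hH2 (H.mul_mem h'.2 (H.inv_mem h.2))
        have e2 : k = k' := Subtype.ext (inv_mul_eq_one.1 e1).symm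
        subst e2
        rw [Subtype.ext (mul_left_cancel e' : (h : G) = h')]
      · rintro ⟨g, hg⟩
        obtain ⟨k, hk, e⟩ := htr b (g • b) hb fun h => hb (by
          rw [← (mem_stabilizer_iff.1 hg)] at h; exact smul_left_cancel _ h)
        refine ⟨(⟨k, hk⟩, ⟨k⁻¹ * g, (hH _).2 ⟨?_, ?_⟩⟩), Subtype.ext (by simp)⟩
        · rw [mul_smul, mem_stabilizer_iff.1 hg, hKa _ (K.inv_mem hk)]
        · rw [mul_smul, ← e, inv_smul_smul]
    have := Nat.card_eq_of_bijective _ hbij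
    rw [Nat.card_prod, hm] at this
    exact Nat.eq_of_mul_eq_mul_left (by omega) this
  obtain ⟨t, hta, htb⟩ := h2 a b b a hb.symm hb
  have hswap : ∀ g : G, g • a = b → g • b = a → t⁻¹ * g ∈ H := fun g h1 h2 => (hH _).2
    ⟨by rw [mul_smul, h1, ← hta, inv_smul_smul],
      by rw [mul_smul, h2, ← htb, inv_smul_smul]⟩
  suffices hall : ∀ g : G, g • a = b → g • b = a → g * g = 1 by
    have := H10.zass_of_kernel hb.symm K H hH hfaith hKa hKn hKc hK1 (fun y hy => htr b y hb hy)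
      (fun k hk => hfree k hk b hb) hsemi (by omega) hta (hall t hta htb) fun h hh => by
        have e1 := hall (t * h) (by rw [mul_smul, (hH1 hh), hta]) (by rw [mul_smul, (hH2 hh), htb])
        have e2 : t⁻¹ = t := by rw [inv_eq_iff_mul_eq_one, hall t hta htb]
        rw [e2, eq_inv_iff_mul_eq_one, ← e1]; group
    rwa [hHcard] at this
  intro g ga gb
  by_contra g2
  have sq : ∀ s : G, orderOf s = 2 → s * s = 1 := fun s hs => by rw [← sq, ← hs, pow_orderOf_eq_one]
  have inv : ∀ s : G, orderOf s = 2 → s • a = a → s * k * s⁻¹ = k⁻¹ := fun s hs sa => by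
    by_contra e
    have m1 := hKn s sa k hk
    have := hC _ (K.mul_mem m1 hk) (fun j => e (eq_inv_of_mul_eq_one_left j)) s sa (by
      calc _ = s * s * k * s⁻¹ * k := by group
        _ = (k * (s * k * s⁻¹)) * s := by rw [sq s hs, inv_eq_of_mul_eq_one_right (sq s hs)]; simp [mul_assoc, sq s hs]
        _ = _ := by rw [hKc k hk _ m1])
    exact Nat.not_even_iff_odd.2 ho (even_iff_two_dvd.2 (hs ▸ K.orderOf_dvd_natCard this))
  let A : Set G := {s | orderOf s = 2 ∧ s • a = a}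
  let T : Set G := {s | s • a ≠ a ∧ s • s • a = a}
  have cA : A.ncard ≤ Nat.card K := by
    obtain e | ⟨s, hs⟩ := A.eq_empty_or_nonempty
    · simp [e]
    refine Set.ncard_le_ncard_of_injOn (t := K) (s * ·) (fun u (hu : u ∈ A) => hC k hk hk1 _
      (by rw [mul_smul, hu.2, hs.2]) ?_) (fun _ _ _ _ e => mul_left_cancel e)
    calc _ = s * (u * k * u⁻¹) * s⁻¹ * (s * u) := by group
      _ = (s * k * s⁻¹)⁻¹ * (s * u) := by rw [inv u hu.1 hu.2]; group
      _ = _ := by rw [inv s hs.1 hs.2, inv_inv]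
  have cT : T.ncard ≤ Nat.card K * m := by
    have hch : ∀ s : T, ∃ u : K × H, (u.1 : G) * (t * u.2) * (u.1 : G)⁻¹ = s := fun ⟨s, h1, h2⟩ => by
      obtain ⟨u, hu, e⟩ := htr b _ hb h1
      refine ⟨(⟨u, hu⟩, ⟨_, hswap (u⁻¹ * s * u) ?_ ?_⟩), by simp [mul_assoc]⟩
      · rw [mul_smul, mul_smul, hKa u hu, ← e, inv_smul_smul]
      · rw [mul_smul, mul_smul, e, h2, hKa _ (K.inv_mem hu)]
    choose u hu using hch
    rw [← hHcard, ← Nat.card_prod]
    exact Nat.card_le_card_of_injective u fun s s' e => Subtype.ext (by rw [← hu s, ← hu s', e])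
  have gT : g ∈ T := ⟨ga ▸ hb, by rw [ga, gb]⟩
  have c1 := Set.ncard_diff_singleton_add_one gT
  have c2 : oc G 2 ≤ (A ∪ T \ {g}).ncard := Set.ncard_le_ncard (s := {s | orderOf s = 2}) fun s hs => by
    by_cases e : s • a = a
    · exact .inl ⟨hs, e⟩
    · exact .inr ⟨⟨e, by rw [← mul_smul, sq s hs, one_smul]⟩, fun j => g2 (j ▸ sq s hs)⟩
  have c3 := Set.ncard_union_le A (T \ {g})
  rw [mul_add] at hi
  omega

/-- `|G| = q (q² - 1)` with `q = r + 1` a power of the odd prime `p` -/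
structure PQ (G : Type*) [Group G] (p r : ℕ) : Prop where
  hp : p.Prime
  p2 : p ≠ 2
  pw : ∃ f, r + 1 = p ^ (f + 1)
  card : Nat.card G = (r + 1) * (r * (r + 2))

namespace PQ
variable (h : PQ G p r)
include h

theorem dq : p ∣ r + 1 := let ⟨f, e⟩ := h.pw; e ▸ dvd_pow_self p f.succ_ne_zero
theorem two_le : 2 ≤ r := by
  have := Nat.le_of_dvd r.succ_pos h.dq
  have := h.hp.two_le
  have := h.p2
  omega
theorem cop : (r + 1).Coprime (r * (r + 2)) := Nat.Coprime.mul_right (by simp) ((Nat.coprime_self_add_right (m := r + 1) (n := 1)).2 (by simp))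
theorem nd : ¬ p ∣ r * (r + 2) := fun e => h.hp.one_lt.ne' (Nat.eq_one_of_dvd_coprimes h.cop h.dq e)
theorem odd : Odd (r + 1) := let ⟨f, e⟩ := h.pw; e ▸ (h.hp.odd_of_ne_two h.p2).pow
theorem dG : p ∣ Nat.card G := h.card ▸ h.dq.mul_right _
theorem two_dvd : 2 ∣ Nat.card G := by
  obtain ⟨k, e⟩ := h.odd
  rw [h.card, show r = 2 * k by omega]
  exact ((dvd_mul_right 2 k).mul_right _).mul_left _
theorem syl [Fact p.Prime] (P : Sylow p G) : Nat.card P = r + 1 := by
  obtain ⟨f, e⟩ := h.pw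
  rw [e]; exact H10.sylow_card_of (e ▸ h.card) h.nd P

theorem union : ({x : G | x ^ (r * (r + 2)) = 1} ∪ {x | orderOf x = p}).ncard =
    Nat.card {x : G // x ^ (r * (r + 2)) = 1} + oc G p :=
  Set.ncard_union_eq (Set.disjoint_left.2 fun x (a : _ = _) (b : _ = _) => h.nd (b ▸ orderOf_dvd_of_pow_eq_one a))

theorem frob (hd : ∀ k, k ≠ 1 → k ≠ p → r + 1 ∣ oc G k) :
    Nat.card {x : G // x ^ (r * (r + 2)) = 1} = r * (r * (r + 2)) := by
  have := h.two_le
  have n0 : r * (r + 2) ≠ 0 := by positivity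
  obtain ⟨t, ht⟩ := H22.frobenius_dvd_card_pow_eq_one (G := G) (h.card ▸ dvd_mul_left (r * (r + 2)) _)
  have s := oc_sum (G := G) n0
  rw [← Finset.add_sum_erase _ _ (Nat.one_mem_divisors.2 n0), oc_one, ht] at s
  obtain ⟨u, hu⟩ := Finset.dvd_sum (s := (r * (r + 2)).divisors.erase 1) fun k hk => hd k (Finset.mem_erase.1 hk).1
    fun e => h.nd (e ▸ Nat.dvd_of_mem_divisors (Finset.mem_erase.1 hk).2)
  have d : r + 1 ∣ t + 1 := (Nat.dvd_add_right (dvd_mul_right _ u)).1 ⟨(r + 1) * t, by rw [hu] at s; linarith⟩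
  have le := h.union ▸ Set.ncard_le_card (_ ∪ _ : Set G)
  have o := oc_prime h.hp h.dG
  have o' : oc G p ≠ 0 := fun e => h.hp.one_lt.ne' (by simpa [e] using o)
  rw [ht, h.card, mul_comm (r + 1)] at le
  have lt : t < r + 1 := lt_of_mul_lt_mul_left (a := r * (r + 2)) (by omega) (Nat.zero_le _)
  have := Nat.le_of_dvd t.succ_pos d
  rw [ht, show t = r by omega, mul_comm]

theorem of_sing (hs : ∀ x : G, p ∣ orderOf x → orderOf x = p) :
    (∀ k, k ≠ 1 → k ≠ p → r + 1 ∣ oc G k) ∧ oc G p = r * (r + 2) := by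
  have := Fact.mk h.hp
  obtain ⟨P⟩ : Nonempty (Sylow p G) := inferInstance
  have hd : ∀ k, k ≠ 1 → k ≠ p → r + 1 ∣ oc G k := fun k k1 kp => by
    refine h.syl P ▸ H10.card_dvd_ncard_of_conj_free (P : Subgroup G) (S := {x | orderOf x = k}) (Set.toFinite _)
      (fun a _ s hs => (H22.orderOf_conj ..).trans hs) fun a ha s (e : _ = _) c => by_contra fun a1 => ?_
    obtain ⟨j, hj⟩ := H22.orderOf_eq_pow_of_mem P.isPGroup' ha
    have oa := hs a (hj ▸ dvd_pow_self p (by rintro rfl; exact a1 (by simpa using hj)))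
    have m := Commute.orderOf_mul_eq_mul_orderOf_of_coprime c
      (oa ▸ (h.hp.coprime_iff_not_dvd.2 fun d => kp (e ▸ hs s d)))
    have := hs (a * s) (by rw [m, oa]; exact dvd_mul_right _ _)
    rw [m, oa, e] at this
    exact k1 (by simpa [h.hp.ne_zero] using this)
  refine ⟨hd, ?_⟩
  have u := h.union
  rw [Set.eq_univ_of_forall (s := _ ∪ _) fun x => ?_, Set.ncard_univ, h.frob hd, h.card] at u
  · linarith
  by_cases e : p ∣ orderOf x
  · exact .inr (hs x e)
  obtain ⟨f, hf⟩ := h.pw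
  exact .inl (orderOf_dvd_iff_pow_eq_one.1 (Nat.Coprime.dvd_of_dvd_mul_left
    (hf ▸ (h.hp.coprime_iff_not_dvd.2 e).symm.pow_right _) (h.card ▸ orderOf_dvd_natCard x)))

theorem sing (hd : ∀ k, k ≠ 1 → k ≠ p → r + 1 ∣ oc G k) (hc : oc G p = r * (r + 2)) (x : G) (e : p ∣ orderOf x) :
    orderOf x = p := by
  have u := h.union
  rw [h.frob hd, hc] at u
  have := (Set.eq_univ_iff_ncard _).2 (u.trans (by rw [h.card]; ring))
  exact (this.ge (Set.mem_univ x)).resolve_left fun a => h.nd (e.trans (orderOf_dvd_of_pow_eq_one a))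

theorem transfer (h2 : r + 1 ∣ oc G 2) (hv : ∀ k, oc G k = 1 ∨ oc G k = r * (r + 2) ∨ r + 1 ∣ oc G k) :
    (∀ k, k ≠ 1 → k ≠ p → r + 1 ∣ oc G k) ∧ oc G p = r * (r + 2) := by
  classical
  have := h.two_le
  have v : ∀ k, k ≠ 1 → oc G k = r * (r + 2) ∨ r + 1 ∣ oc G k := fun k k1 => by
    refine (hv k).elim (fun e => ?_) id
    obtain rfl | rfl := oc_odd (e ▸ odd_one)
    exacts [absurd rfl k1, .inr h2]
  have hc := (v p h.hp.one_lt.ne').resolve_right fun e =>
    h.hp.one_lt.ne' (Nat.dvd_one.1 ((Nat.dvd_add_right (h.dq.trans e)).1 (oc_prime h.hp h.dG)))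
  refine ⟨fun k k1 kp => (v k k1).resolve_left fun e => ?_, hc⟩
  have N0 : Nat.card G ≠ 0 := Nat.card_pos.ne'
  let S := ((Nat.card G).divisors.erase 1).filter fun k => oc G k = r * (r + 2)
  have mem : ∀ k, k ≠ 1 → oc G k = r * (r + 2) → k ∈ S := fun k k1 e => by
    have : 0 < oc G k := by rw [e]; positivity
    obtain ⟨x, rfl⟩ := (Nat.card_pos_iff.1 this).1
    exact Finset.mem_filter.2 ⟨Finset.mem_erase.2 ⟨k1, Nat.mem_divisors.2 ⟨orderOf_dvd_natCard x, N0⟩⟩, e⟩
  have s := oc_total (G := G)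
  rw [← Finset.add_sum_erase _ _ (Nat.one_mem_divisors.2 N0), oc_one,
    ← Finset.sum_filter_add_sum_filter_not _ fun k => oc G k = r * (r + 2),
    Finset.sum_const_nat fun k hk => (Finset.mem_filter.1 hk).2] at s
  obtain ⟨u, hu⟩ := Finset.dvd_sum (s := ((Nat.card G).divisors.erase 1).filter fun k => ¬ oc G k = r * (r + 2))
    fun k hk => (v k (Finset.mem_erase.1 (Finset.mem_filter.1 hk).1).1).resolve_left (Finset.mem_filter.1 hk).2
  have c2 : 1 < S.card := Finset.one_lt_card.2 ⟨_, mem k k1 e, _, mem p h.hp.one_lt.ne' hc, kp⟩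
  obtain ⟨c, hc⟩ := Nat.exists_eq_add_of_lt c2
  rw [hu] at s
  nth_rw 1 [h.card] at s
  change _ = 1 + (S.card * _ + _) at s
  rw [hc] at s
  have d : r + 1 ∣ c + 1 := (Nat.dvd_add_right (dvd_mul_right _ (r * (r + 2)))).1
    ⟨(r + 1) * (c + 2) + u, by linarith⟩
  have := Nat.le_of_dvd c.succ_pos d
  nlinarith

theorem pw1 (hs : ∀ x : G, p ∣ orderOf x → orderOf x = p) (hx : orderOf x = p) (c : x * y = y * x) : y ^ p = 1 := by
  by_cases e : p ∣ orderOf y
  · rw [← hs y e, pow_orderOf_eq_one]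
  have m := Commute.orderOf_mul_eq_mul_orderOf_of_coprime c (hx ▸ (h.hp.coprime_iff_not_dvd.2 e))
  have := hs (x * y) (by rw [m, hx]; exact dvd_mul_right _ _)
  rw [m, hx] at this
  rw [show y = 1 by simpa [h.hp.ne_zero] using this, one_pow]

theorem cen (hs : ∀ x : G, p ∣ orderOf x → orderOf x = p) (hc : oc G p = r * (r + 2)) (hx : orderOf x = p) :
    Nat.card (centralizer ({x} : Set G)) = r + 1 ∧ ∀ y, orderOf y = p → IsConj x y := by
  have := Fact.mk h.hp
  have := h.two_le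
  have P : IsPGroup p (centralizer ({x} : Set G)) := fun y =>
    ⟨1, Subtype.ext (by simpa using h.pw1 hs hx (mem_centralizer_singleton_iff.1 y.2).symm)⟩
  obtain ⟨Q, hQ⟩ := P.exists_le_sylow
  have l1 := h.syl Q ▸ card_le_of_le hQ
  have c := H22.card_isConj_pow x 1
  simp only [pow_one, Nat.card_unique, mul_one] at c
  have sub : {y | IsConj x y} ⊆ {y | orderOf y = p} := fun y e => (H22.IsConj.orderOf_eq e).symm.trans hx
  have l2 : (centralizer ({x} : Set G)).index ≤ r * (r + 2) := c ▸ hc ▸ Set.ncard_le_ncard sub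
  have m := (centralizer ({x} : Set G)).card_mul_index.trans h.card
  have e1 : Nat.card (centralizer ({x} : Set G)) = r + 1 := by nlinarith
  rw [e1] at m
  exact ⟨e1, fun y e => (Set.eq_of_subset_of_ncard_le sub
    (hc.trans ((Nat.eq_of_mul_eq_mul_left r.succ_pos m).symm.trans c.symm)).le).ge e⟩

theorem abel (hs : ∀ x : G, p ∣ orderOf x → orderOf x = p) (hc : oc G p = r * (r + 2)) (hx : orderOf x = p) :
    IsMulCommutative (centralizer ({x} : Set G)) := by
  have := Fact.mk h.hp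
  obtain ⟨g, hg⟩ := isConj_iff.1 ((h.cen hs hc hx).2 x⁻¹ ((orderOf_inv x).trans hx))
  obtain ⟨i, hi⟩ := h.hp.odd_of_ne_two h.p2
  have g2 : x * (g * g) = g * g * x := by
    symm; rw [← mul_inv_eq_iff_eq_mul]
    calc _ = g * (g * x * g⁻¹) * g⁻¹ := by group
      _ = (g * x * g⁻¹)⁻¹ := by nth_rw 1 [hg]; group
      _ = x := by rw [hg, inv_inv]
  have gp : g ^ p ≠ 1 := fun e => by
    have c : Commute x g := by
      have : g = ((g * g) ^ i)⁻¹ := by rw [eq_inv_iff_mul_eq_one, ← sq, ← pow_mul, ← pow_succ', ← hi, e]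
      rw [this]; exact (Commute.pow_right g2 i).inv_right
    rw [← c.eq, mul_inv_cancel_right, eq_inv_iff_mul_eq_one, ← sq, ← orderOf_dvd_iff_pow_eq_one, hx] at hg
    exact h.p2 ((Nat.prime_dvd_prime_iff_eq h.hp Nat.prime_two).1 hg)
  have gg : g * g = 1 := by
    have a := h.pw1 hs hx g2
    rw [← sq, ← pow_mul, ← orderOf_dvd_iff_pow_eq_one] at a
    rw [← sq, ← orderOf_dvd_iff_pow_eq_one]
    exact Nat.Coprime.dvd_of_dvd_mul_right (h.hp.coprime_iff_not_dvd.2 fun d =>
      gp (hs g d ▸ pow_orderOf_eq_one g)).symm a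
  have gi : g⁻¹ = g := inv_eq_of_mul_eq_one_right gg
  let φ : centralizer ({x} : Set G) →* centralizer ({x} : Set G) := MonoidHom.mk' (fun y => ⟨g * y * g⁻¹, by
    have c : Commute (y : G) x := mem_centralizer_singleton_iff.1 y.2
    have := (c.map (MulAut.conj g)).inv_right
    rw [MulAut.conj_apply, MulAut.conj_apply, hg, inv_inv] at this
    exact mem_centralizer_singleton_iff.2 this⟩) fun a b => Subtype.ext (by simp [mul_assoc])
  refine ⟨⟨MonoidHom.FixedPointFree.commute_all_of_involutive (φ := φ) (fun y e => by_contra fun y1 => gp ?_)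
    fun y => Subtype.ext ?_⟩⟩
  · have e : g * y * g⁻¹ = y := congrArg Subtype.val e
    refine h.pw1 hs (x := (y : G)) (orderOf_eq_prime (h.pw1 hs hx (mem_centralizer_singleton_iff.1 y.2).symm)
      fun j => y1 (Subtype.ext j)) (mul_inv_eq_iff_eq_mul.1 e).symm
  · change g * (g * y * g⁻¹) * g⁻¹ = y
    rw [gi, ← mul_assoc, ← mul_assoc, gg, mul_assoc, mul_assoc, gg]; simp

theorem pgl (hs : ∀ x : G, p ∣ orderOf x → orderOf x = p) (hc : oc G p = r * (r + 2))
    (hi : (r + 1) * (r + 1) ≤ oc G 2) :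
    ∃ (F : Type) (_ : Field F) (_ : Fintype F), Fintype.card F = r + 1 ∧ Nonempty (G ≃* PGL(2, F)) := by
  classical
  have := Fact.mk h.hp
  have := h.two_le
  have o : ∀ (P : Sylow p G), ∀ y ∈ (P : Subgroup G), y ≠ 1 → orderOf y = p := fun P y hy y1 => by
    obtain ⟨j, hj⟩ := H22.orderOf_eq_pow_of_mem P.isPGroup' hy
    exact hs y (hj ▸ dvd_pow_self p (by rintro rfl; exact y1 (by simpa using hj)))
  have ce : ∀ (P : Sylow p G) (y : G), (P : Subgroup G) ≤ centralizer {y} → orderOf y = p →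
      (P : Subgroup G) = centralizer {y} := fun P y le hy =>
    eq_of_le_of_card_ge le (by rw [(h.cen hs hc hy).1, h.syl])
  have ab : ∀ (P : Sylow p G), ∀ y ∈ (P : Subgroup G), ∀ z ∈ (P : Subgroup G), y * z = z * y := fun P y hy z hz => by
    have : Nontrivial (P : Subgroup G) := Finite.one_lt_card_iff_nontrivial.1 (by rw [h.syl]; omega)
    obtain ⟨⟨w, hw⟩, w1⟩ := @exists_ne _ P.isPGroup'.center_nontrivial 1
    have ow := o P w w.2 fun j => w1 (Subtype.ext (Subtype.ext j))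
    have e := ce P w (fun u hu => mem_centralizer_singleton_iff.2
      (congrArg Subtype.val (mem_center_iff.1 hw ⟨u, hu⟩))) ow
    exact congrArg Subtype.val ((h.abel hs hc ow).is_comm.comm ⟨y, e ▸ hy⟩ ⟨z, e ▸ hz⟩)
  have cc : ∀ (P : Sylow p G), ∀ y ∈ (P : Subgroup G), y ≠ 1 → (P : Subgroup G) = centralizer {y} :=
    fun P y hy y1 => ce P y (fun u hu => mem_centralizer_singleton_iff.2 (ab P u hu y hy)) (o P y hy y1)
  choose f hf using fun x : {g : G // orderOf g = p} => H22.exists_sylow_mem (p := p) (x := x.1) ⟨1, by simp [x.2]⟩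
  have n1 : ∀ x : {g : G // orderOf g = p}, (x : G) ≠ 1 := fun x e => h.hp.one_lt.ne' (by rw [← x.2, e, orderOf_one])
  have hn := H10.card_eq_mul_of_fibers f r fun P => by
    have := Set.ncard_diff_singleton_add_one (P : Subgroup G).one_mem
    rw [show ((P : Subgroup G) : Set G).ncard = r + 1 from h.syl P, add_left_inj] at this
    rw [← this]
    exact Nat.card_congr ⟨fun a => ⟨a.1, (congrArg (fun Q : Sylow p G => (a.1 : G) ∈ (Q : Subgroup G)) a.2).mp (hf a.1), n1 _⟩, fun a => ⟨⟨a, o P a a.2.1 a.2.2⟩,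
      Sylow.ext ((cc _ _ (hf _) (n1 _)).trans (cc P a a.2.1 a.2.2).symm)⟩, fun _ => rfl, fun _ => rfl⟩
  replace hn : Nat.card (Sylow p G) = r + 2 :=
    Nat.eq_of_mul_eq_mul_right (by omega : 0 < r) (by rw [← hn, mul_comm]; exact hc)
  obtain ⟨P⟩ : Nonempty (Sylow p G) := inferInstance
  have hP := h.syl P
  obtain ⟨F, _, _, e, j⟩ := zass_of_inv P (P : Subgroup G) (m := r) (by rw [hn, hP]) (by omega)
    (fun k hk => Sylow.smul_eq_iff_mem_normalizer.2 (le_normalizer hk))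
    (fun g hg k hk => (mem_normalizer_iff.1 (Sylow.smul_eq_iff_mem_normalizer.1 hg) k).1 hk) (ab P)
    (fun k hk Q hQ e => by_contra fun k1 => hQ (Sylow.ext ((cc Q k (H22.mem_sylow_of_mem_normalizer Q
      (H22.orderOf_eq_pow_of_mem P.isPGroup' hk) (Sylow.smul_eq_iff_mem_normalizer.1 e)) k1).trans (cc P k hk k1).symm)))
    (fun k hk k1 g _ e => (cc P k hk k1).ge (mem_centralizer_singleton_iff.2 e))
    (by
      have e1 := (stabilizer G P).card_mul_index
      rw [index_stabilizer_of_transitive, hn, h.card, ← mul_assoc] at e1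
      rw [hP]; exact Nat.eq_of_mul_eq_mul_right (by omega) e1) (by omega) (hP ▸ h.odd) (hP ▸ hi)
  exact ⟨F, _, _, e.trans hP, (j.resolve_right (by omega)).2⟩

end PQ

variable {F : Type*} [Field F] [Fintype F]

theorem pgl_sing (hp : p.Prime) (p2 : p ≠ 2) [CharP F p] (hd : p ∣ Fintype.card F) (x : PGL(2, F))
    (e : p ∣ orderOf x) : orderOf x = p := by
  have := Fact.mk hp
  have n1 : ¬ p ∣ Fintype.card F - 1 := fun d => hp.one_lt.ne' (Nat.dvd_one.1 (by
    simpa [Nat.sub_sub_self Fintype.card_pos] using Nat.dvd_sub hd d))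
  have n2 : ¬ p ∣ Fintype.card F + 1 := fun d => hp.one_lt.ne' (Nat.dvd_one.1 ((Nat.dvd_add_right hd).1 d))
  obtain ⟨n, -, hn⟩ := FiniteField.card F p
  have ho : Odd (Fintype.card F) := hn ▸ (hp.odd_of_ne_two p2).pow
  have d := ((H10.orderOf_PGL2_dvd x).resolve_left fun d => n1 (e.trans d)).resolve_right fun d => n2 (e.trans d)
  have m : x ^ 2 ∈ H10.PSL2 F := by
    obtain ⟨a, b, c, w, h, rfl⟩ := H10.mob_surj x
    rw [sq, H10.mob_mul, H10.mob_mem_PSL2_iff]
    exact ⟨a * w - b * c, by ring⟩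
  have := H10.orderOf_PSL2_dvd p m
  rw [Nat.Coprime.orderOf_pow (Nat.coprime_two_right.2 (ho.of_dvd_nat d))] at this
  obtain j | j | j := this
  · exact Nat.dvd_antisymm j e
  · exact absurd ((e.trans j).trans (Nat.div_dvd_of_dvd ((Nat.gcd_dvd_left ..).trans ho.add_one.two_dvd))) n2
  · exact absurd ((e.trans j).trans (Nat.div_dvd_of_dvd (Nat.gcd_dvd_right ..))) n1

theorem pgl_inv (h2 : (2 : F) ≠ 0) : Fintype.card F * Fintype.card F ≤ oc PGL(2, F) 2 := by
  classical
  let f : F × F → PGL(2, F) := fun u => if c : u.2 = 0 then H10.mob 1 u.1 0 (-1) (by simp) else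
    H10.mob u.1 (u.2 - u.1 ^ 2) 1 (-u.1) (by intro e; exact c (by linear_combination -e))
  have o : ∀ u, orderOf (f u) = 2 := fun u => by
    have := Fact.mk Nat.prime_two
    refine orderOf_eq_prime ?_ ?_ <;> simp only [f] <;> split_ifs
    · rw [sq, H10.mob_mul, H10.mob_eq_one_iff]; refine ⟨?_, ?_, ?_⟩ <;> ring
    · rw [sq, H10.mob_mul, H10.mob_eq_one_iff]; refine ⟨?_, ?_, ?_⟩ <;> ring
    · rw [Ne, H10.mob_eq_one_iff]; exact fun e => h2 (by linear_combination e.2.2)
    · rw [Ne, H10.mob_eq_one_iff]; exact fun e => one_ne_zero e.2.1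
  have : Finite PGL(2, F) := Nat.finite_of_card_ne_zero (by
    rw [H10.card_PGL2]; have := Fintype.one_lt_card (α := F); have : 0 < Fintype.card F - 1 := by omega
    positivity)
  rw [← Fintype.card_prod, ← Nat.card_eq_fintype_card]
  refine Nat.card_le_card_of_injective (fun u => (⟨f u, o u⟩ : {g // orderOf g = 2})) fun ⟨a, c⟩ ⟨b, d⟩ e => ?_
  have e : f (a, c) = f (b, d) := congrArg Subtype.val e
  simp only [f] at e
  split_ifs at e with h1 h3 h3 <;> obtain ⟨u, u0, e1, e2, e3, e4⟩ := (H10.mob_eq_mob_iff ..).1 e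
  · rw [mul_one] at e1; subst e1; rw [one_mul] at e2; exact Prod.ext e2.symm (h1.trans h3.symm)
  · simp at e3
  · exact absurd (by simpa using e3.symm) u0
  · rw [mul_one] at e3; subst e3; rw [one_mul] at e1 e2; subst e1
    exact Prod.ext rfl (sub_left_inj.1 e2).symm

end H326
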