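import Cfsg.Agent.H26.Yk1
import Mathlib.LinearAlgebra.Matrix.SchurComplement
import Mathlib.Data.Rat.Lemmas
import Mathlib.Tactic

/-! Counting tools for permutation groups: inequalities for fibres, orbit-stabiliser, free actions, parity,
and the discriminant of a strongly regular graph on an even number of vertices (`disc_sq`). -/

set_option autoImplicit false

namespace H326.Rf

open Finset H326.Yk MulAction

theorem cn_fib_le {α β : Type*} [Finite α] [Finite β] (p : α → Prop) (q : β → Prop) (π : α → β) (c : ℕ)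
    (h1 : ∀ x, p x → q (π x)) (h2 : ∀ y, q y → cn (fun x => p x ∧ π x = y) ≤ c) : cn p ≤ cn q * c := by
  classical
  cases nonempty_fintype α; cases nonempty_fintype β
  rw [cn_dec p, cn_dec q, card_eq_sum_card_fiberwise (f := π) (t := univ.filter q)
    (fun x hx => by simpa using h1 x (by simpa using hx)), ← smul_eq_mul]
  refine sum_le_card_nsmul _ _ _ fun y hy => ?_
  have := h2 y (by simpa using hy)
  rwa [cn_dec, ← filter_filter] at this

theorem cn_fib_ge {α β : Type*} [Finite α] [Finite β] (p : α → Prop) (q : β → Prop) (π : α → β) (c : ℕ)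
    (h2 : ∀ y, q y → c ≤ cn (fun x => p x ∧ π x = y)) : cn q * c ≤ cn p := by
  classical
  cases nonempty_fintype α; cases nonempty_fintype β
  have : cn (fun x => p x ∧ q (π x)) ≤ cn p := cn_le id (fun x h => h.1) (fun x y _ _ h => h)
  refine le_trans ?_ this
  rw [cn_dec (fun x => p x ∧ q (π x)), cn_dec q, card_eq_sum_card_fiberwise (f := π) (t := univ.filter q)
    (fun x hx => by simpa using (by simpa using hx : p x ∧ q (π x)).2), ← smul_eq_mul]
  refine card_nsmul_le_sum _ _ _ fun y hy => ?_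
  have hq : q y := by simpa using hy
  refine (h2 y hq).trans (le_of_eq ?_)
  rw [cn_dec, filter_filter]
  congr 1; ext x; simp only [mem_filter, mem_univ, true_and]
  exact ⟨fun h => ⟨⟨h.1, h.2 ▸ hq⟩, h.2⟩, fun h => ⟨h.1.1, h.2⟩⟩

theorem cn_mono {α : Type*} [Finite α] {p q : α → Prop} (h : ∀ x, p x → q x) : cn p ≤ cn q :=
  cn_le id h (fun _ _ _ _ e => e)

theorem cn_split {α : Type*} [Finite α] (p q : α → Prop) :
    cn p = cn (fun x => p x ∧ q x) + cn (fun x => p x ∧ ¬ q x) := by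
  rw [← cn_or _ _ (fun x a b => b.2 a.2)]
  exact cn_congr fun x => by tauto

theorem cn_one {α : Type*} (a : α) : cn (fun x => x = a) = 1 := by
  unfold cn; simp

theorem cn_pos {α : Type*} [Finite α] {p : α → Prop} {a : α} (h : p a) : 0 < cn p := by
  have := cn_mono (p := fun x => x = a) (q := p) (fun x e => e ▸ h)
  rw [cn_one] at this; omega

theorem cn_ex {α : Type*} {p : α → Prop} (h : 0 < cn p) : ∃ a, p a := by
  by_contra e
  rw [cn_zero (fun x hx => e ⟨x, hx⟩)] at h; omega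

theorem cn_le_one {α : Type*} [Finite α] {p : α → Prop} (h : ∀ x y, p x → p y → x = y) : cn p ≤ 1 := by
  by_cases e : ∃ a, p a
  · obtain ⟨a, ha⟩ := e
    rw [← cn_one a]; exact cn_mono fun x hx => h x a hx ha
  · rw [cn_zero (fun x hx => e ⟨x, hx⟩)]; omega

theorem cn_del {α : Type*} [Finite α] {p : α → Prop} {a : α} (h : p a) :
    cn p = cn (fun x => p x ∧ x ≠ a) + 1 := by
  rw [cn_split p (fun x => x ≠ a), ← cn_one a]
  congr 1; exact cn_congr fun x => ⟨fun e => not_not.1 e.2, fun e => ⟨e ▸ h, not_not.2 e⟩⟩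

theorem cn_true {α : Type*} [Fintype α] : cn (fun _ : α => True) = Fintype.card α := by
  rw [cn_dec]; simp

theorem cn_surj {α β : Type*} [Finite α] [Finite β] {p : α → Prop} {q : β → Prop} (f : α → β)
    (h1 : ∀ x, p x → q (f x)) (h2 : ∀ x y, p x → p y → f x = f y → x = y) (h3 : cn q ≤ cn p) :
    ∀ y, q y → ∃ x, p x ∧ f x = y := by
  intro y hy
  by_contra e
  have := cn_le (p := p) (q := fun z => q z ∧ z ≠ y) f (fun x hx => ⟨h1 x hx, fun a => e ⟨x, hx, a⟩⟩) h2
  rw [cn_del hy] at h3; omega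

theorem cn_prod {α β : Type*} [Finite α] [Finite β] (p : α → Prop) (q : β → Prop) :
    cn (fun x : α × β => p x.1 ∧ q x.2) = cn p * cn q :=
  cn_fib _ p Prod.fst _ (fun _ h => h.1) fun a ha =>
    cn_bij Prod.snd (fun x h => h.1.2) (fun x y hx hy e => Prod.ext (hx.2.trans hy.2.symm) e)
      (fun b hb => ⟨(a, b), ⟨⟨ha, hb⟩, rfl⟩, rfl⟩)

theorem cn_even {α : Type*} [Finite α] (p : α → Prop) (f : α → α) (h1 : ∀ x, p x → p (f x))
    (h2 : ∀ x, p x → f x ≠ x) (h3 : ∀ x, p x → f (f x) = x) : Even (cn p) := by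
  classical
  cases nonempty_fintype α
  rw [cn_dec, ← ZMod.natCast_eq_zero_iff_even, card_eq_sum_ones, Nat.cast_sum]
  refine sum_involution (fun a _ => f a) (fun a _ => by decide) (fun a ha _ => h2 a (by simpa using ha))
    (fun a ha => by simpa using h1 a (by simpa using ha)) (fun a ha => h3 a (by simpa using ha))

variable {G X : Type*} [Group G] [Finite G] [MulAction G X]

theorem os [Finite X] (W : Subgroup G) (w : X) :
    Nat.card W = cn (fun u => ∃ g ∈ W, g • w = u) * Nat.card ↥(W ⊓ stabilizer G w) := by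
  rw [← cn_mem W]
  refine cn_fib _ _ (fun g => g • w) _ (fun g hg => ⟨g, hg, rfl⟩) ?_
  rintro _ ⟨g, hg, rfl⟩
  refine cn_coset _ g _ fun x => ?_
  simp only [Subgroup.mem_inf, mem_stabilizer_iff, mul_smul, inv_smul_eq_iff]
  exact ⟨fun h => ⟨W.mul_mem (W.inv_mem hg) h.1, h.2⟩, fun h => ⟨by simpa using W.mul_mem hg h.1, h.2⟩⟩

theorem orb_free [Finite X] (W : Subgroup G) (w : X) (h : ∀ g ∈ W, g • w = w → g = 1) :
    cn (fun u => ∃ g ∈ W, g • w = u) = Nat.card W := by
  have : W ⊓ stabilizer G w = ⊥ := eq_bot_iff.2 fun g hg => h g hg.1 hg.2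
  rw [os W w, this]; simp

theorem free_dvd [Finite X] (W : Subgroup G) (p : X → Prop) (hinv : ∀ g ∈ W, ∀ u, p u → p (g • u))
    (hfree : ∀ g ∈ W, ∀ u, p u → g • u = u → g = 1) : Nat.card W ∣ cn p := by
  have key : ∀ (x : X) (y : orbitRel.Quotient W X), Quotient.mk'' x = y ↔ ∃ g ∈ W, g • y.out = x := by
    intro x y
    rw [← Quotient.out_eq' y, Quotient.eq'', orbitRel_apply, Quotient.out_eq' y]
    exact ⟨fun ⟨g, e⟩ => ⟨g, g.2, e⟩, fun ⟨g, a, e⟩ => ⟨⟨g, a⟩, e⟩⟩
  rw [cn_fib p (fun y : orbitRel.Quotient W X => p y.out) (fun x => Quotient.mk'' x) (Nat.card W) ?_ ?_]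
  · exact Dvd.intro_left _ rfl
  · intro x hx
    obtain ⟨g, a, e⟩ := (key x _).1 rfl
    have := hinv _ (W.inv_mem a) _ hx
    have e2 : g⁻¹ • x = (Quotient.mk'' x : orbitRel.Quotient W X).out := by rw [inv_smul_eq_iff, e]
    rwa [e2] at this
  · intro y hy
    rw [← orb_free W y.out (fun g a e => hfree g a _ hy e)]
    refine cn_congr fun x => ?_
    rw [key]
    exact ⟨fun h => h.2, fun ⟨g, a, e⟩ => ⟨e ▸ hinv g a _ hy, g, a, e⟩⟩

theorem card_conj (W W' : Subgroup G) (g : G) (h : ∀ u, u ∈ W ↔ g * u * g⁻¹ ∈ W') :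
    Nat.card W = Nat.card W' := by
  rw [← cn_mem, ← cn_mem]
  exact cn_bij (fun u => g * u * g⁻¹) (fun u a => (h u).1 a) (fun x y _ _ e => by simpa using e)
    (fun y a => ⟨g⁻¹ * y * g, (h _).2 (by simpa [mul_assoc] using a), by group⟩)

theorem mul_le_card (A B C : Subgroup G) (hA : A ≤ C) (hB : B ≤ C) (h : ∀ g ∈ A, g ∈ B → g = 1) :
    Nat.card A * Nat.card B ≤ Nat.card C := by
  rw [← cn_mem, ← cn_mem, ← cn_mem, ← cn_prod]
  refine cn_le (fun x : G × G => x.1 * x.2) (fun x a => C.mul_mem (hA a.1) (hB a.2)) ?_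
  rintro ⟨a, b⟩ ⟨a', b'⟩ ⟨ha, hb⟩ ⟨ha', hb'⟩ e
  simp only at e ha hb ha' hb'
  have e1 : a'⁻¹ * a = b' * b⁻¹ := by rw [inv_mul_eq_iff_eq_mul, ← mul_assoc, ← e]; group
  have := h _ (A.mul_mem (A.inv_mem ha') ha) (e1 ▸ B.mul_mem hb' (B.inv_mem hb))
  have e2 : a' = a := by simpa [inv_mul_eq_one] using this
  subst e2
  simpa using e

theorem big_sub (W M : Subgroup G) (h : W ≤ M) (h2 : Nat.card M < 2 * Nat.card W) : W = M := by
  obtain ⟨c, hc⟩ := Subgroup.card_dvd_of_le h
  have p1 : 0 < Nat.card W := Nat.card_pos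
  have p2 : 0 < Nat.card M := Nat.card_pos
  have : c = 1 := by
    rcases c with _ | _ | c
    · omega
    · rfl
    · nlinarith
  exact Subgroup.eq_of_le_of_card_ge h (by rw [hc, this, mul_one])

/-- commutator map onto an invariant subgroup with no fixed points -/
theorem comm_onto (D : Subgroup G) (g : G) (h1 : ∀ δ ∈ D, g * δ * g⁻¹ ∈ D)
    (h2 : ∀ δ ∈ D, g * δ = δ * g → δ = 1) : ∀ e ∈ D, ∃ δ ∈ D, g * δ * g⁻¹ * δ⁻¹ = e := by
  refine cn_surj (p := fun x => x ∈ D) (q := fun x => x ∈ D) (fun δ => g * δ * g⁻¹ * δ⁻¹)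
    (fun δ a => D.mul_mem (h1 δ a) (D.inv_mem a)) ?_ le_rfl
  intro a b ha hb e
  have := h2 (b⁻¹ * a) (D.mul_mem (D.inv_mem hb) ha) (by
    calc g * (b⁻¹ * a) = (g * b⁻¹ * g⁻¹) * (g * a * g⁻¹ * a⁻¹) * a * g := by group
      _ = b⁻¹ * a * g := by rw [show g * a * g⁻¹ * a⁻¹ = g * b * g⁻¹ * b⁻¹ from e]; group)
  exact (by simpa [inv_mul_eq_one] using this : b = a).symm

theorem disc_sq {Y : Type*} [Fintype Y] (adj : Y → Y → Prop) (symm : ∀ x y, adj x y → adj y x)
    (irr : ∀ x, ¬ adj x x) (k l lam mu : ℕ) (hk : ∀ x, cn (adj x) = k)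
    (h1 : ∀ x y, adj x y → cn (fun w => adj x w ∧ adj y w) = lam)
    (h2 : ∀ x y, x ≠ y → ¬ adj x y → cn (fun w => adj x w ∧ adj y w) = mu)
    (hn : Fintype.card Y = 1 + k + l) (he : Even (Fintype.card Y)) (hp : k * k = k + k * lam + l * mu)
    (hmu : mu < k) (h0 : 0 < mu) : ∃ e : ℤ, ((lam : ℤ) - mu) ^ 2 + 4 * (k - mu) = e ^ 2 := by
  classical
  set D : ℚ := ((lam : ℚ) - mu) ^ 2 + 4 * (k - mu) with hD
  have D0 : 0 < D := by
    have : (mu : ℚ) < k := by exact_mod_cast hmu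
    positivity
  let A : Matrix Y Y ℚ := Matrix.of fun x y => if adj x y then 1 else 0
  let Z : Matrix Y Y ℚ := (2 : ℚ) • A - ((lam : ℚ) - mu) • (1 : Matrix Y Y ℚ)
  let J : Matrix Y Y ℚ := Matrix.replicateCol Unit (fun _ : Y => 4 * (mu : ℚ) / D) *
    Matrix.replicateRow Unit (fun _ : Y => (1 : ℚ))
  have hA : A * A = Matrix.of fun x y => if x = y then (k : ℚ) else if adj x y then (lam : ℚ) else mu := by
    ext x y
    have : (A * A) x y = (cn (fun w => adj x w ∧ adj y w) : ℚ) := by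
      rw [Matrix.mul_apply, cn_dec, card_filter, Nat.cast_sum]
      refine sum_congr rfl fun w _ => ?_
      by_cases a : adj x w <;> by_cases b : adj y w <;>
        simp [A, a, b, show adj w y ↔ adj y w from ⟨symm _ _, symm _ _⟩]
    rw [this, Matrix.of_apply]
    split_ifs with a b
    · subst a; rw [← hk x]; simp
    · rw [h1 x y b]
    · rw [h2 x y a b]
  have hZ : Z * Z = D • (1 + J) := by
    have : Z * Z = (4 : ℚ) • (A * A) - (4 * ((lam : ℚ) - mu)) • A + (((lam : ℚ) - mu) ^ 2) • (1 : Matrix Y Y ℚ) := by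
      simp only [Z, sub_mul, mul_sub, Matrix.smul_mul, Matrix.mul_smul, Matrix.one_mul, Matrix.mul_one, smul_sub,
        smul_smul]
      module
    rw [this, hA]
    ext x y
    have hJ : J x y = 4 * mu / D := by simp [J, Matrix.mul_apply]
    simp only [Matrix.add_apply, Matrix.sub_apply, Matrix.smul_apply, Matrix.of_apply, hJ, A, smul_eq_mul,
      Matrix.one_apply]
    have hD' : D * (4 * mu / D) = 4 * mu := by field_simp
    by_cases a : x = y
    · subst a; simp only [if_true, irr x, if_false, mul_add, hD']; rw [hD]; ring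
    · by_cases b : adj x y <;> simp only [a, b, if_true, if_false, mul_add, hD'] <;> ring
  have hdet := congrArg Matrix.det hZ
  rw [Matrix.det_mul, Matrix.det_smul, Matrix.det_one_add_replicateCol_mul_replicateRow] at hdet
  obtain ⟨j, hj⟩ : ∃ j, Fintype.card Y = 2 * j + 2 := by
    obtain ⟨j, hj⟩ := he
    exact ⟨j - 1, by omega⟩
  have hs : (fun _ : Y => (1 : ℚ)) ⬝ᵥ (fun _ : Y => 4 * (mu : ℚ) / D) = (1 + k + l) * (4 * mu / D) := by
    simp [dotProduct, hn]
  have hp' : (k : ℚ) * k = k + k * lam + l * mu := by exact_mod_cast hp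
  set E : ℚ := 2 * k - lam + mu with hE
  have hDE : D * (1 + (1 + k + l) * (4 * mu / D)) = E ^ 2 := by
    have : D * (1 + (1 + k + l) * (4 * mu / D)) = D + (1 + k + l) * (4 * mu) := by field_simp
    rw [this, hD, hE]; linear_combination (-4) * hp'
  have E0 : E ≠ 0 := by
    intro e
    rw [e] at hDE
    have : 0 < D * (1 + (1 + k + l) * (4 * mu / D)) := by positivity
    rw [hDE] at this; simp at this
  have hsq : IsSquare D := by
    refine ⟨Z.det / (D ^ j * E), ?_⟩
    rw [hs, hj] at hdet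
    field_simp
    rw [sq Z.det, hdet, ← hDE]; ring
  have : D = ((((lam : ℤ) - mu) ^ 2 + 4 * (k - mu) : ℤ) : ℚ) := by rw [hD]; push_cast; ring
  rw [this, Rat.isSquare_intCast_iff] at hsq
  obtain ⟨e, he⟩ := hsq
  exact ⟨e, by rw [he]; ring⟩

end H326.Rf
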