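import Cfsg.Agent.H26.Rf1

/-! Rank three groups whose point stabiliser is a Frobenius group on a suborbit: the setting `Rk` and its parameters. -/

set_option autoImplicit false

namespace H326.Rf

open Finset H326.Yk MulAction

/-- the graph of the Frobenius suborbit, with the Frobenius kernels `K x` -/
structure Rk (G X : Type*) [Group G] [MulAction G X] where
  adj : X → X → Prop
  K : X → Subgroup G
  x0 : X
  symm : ∀ {x y}, adj x y → adj y x
  irr : ∀ x, ¬ adj x x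
  inv : ∀ (g : G) {x y}, adj x y → adj (g • x) (g • y)
  tr : ∀ x y : X, ∃ g : G, g • x = y
  etr : ∀ {x y x' y'}, adj x y → adj x' y' → ∃ g : G, g • x = x' ∧ g • y = y'
  ntr : ∀ {x y x' y'}, x ≠ y ∧ ¬ adj x y → x' ≠ y' ∧ ¬ adj x' y' → ∃ g : G, g • x = x' ∧ g • y = y'
  frob : ∀ {g : G} {x y y'}, g • x = x → adj x y → adj x y' → g • y = y → g • y' = y' → y ≠ y' → g = 1
  memK : ∀ x g, g ∈ K x ↔ g • x = x ∧ (g = 1 ∨ ∀ y, adj x y → g • y ≠ y)
  Kreg : ∀ {x y y'}, adj x y → adj x y' → ∃ κ ∈ K x, κ • y = y'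
  cinv : ∀ x, Even (Nat.card (K x)) → ∃ u ∈ K x, u ≠ 1 ∧ u * u = 1 ∧ ∀ κ ∈ K x, u * κ = κ * u
  exE : ∀ x, ∃ y, adj x y
  exN : ∀ x, ∃ z, x ≠ z ∧ ¬ adj x z
  hne : ∀ {x y}, adj x y → ∃ g : G, g ≠ 1 ∧ g • x = x ∧ g • y = y
  mu0 : ∀ {x z}, x ≠ z ∧ ¬ adj x z → ∃ w, adj x w ∧ adj z w
  muk : ∀ {x z}, x ≠ z ∧ ¬ adj x z → ∃ w, (x ≠ w ∧ ¬ adj x w) ∧ adj z w

variable {G X : Type*} [Group G] [MulAction G X]

/-- two-point stabiliser -/
def S (G : Type*) {X : Type*} [Group G] [MulAction G X] (x y : X) : Subgroup G := stabilizer G x ⊓ stabilizer G y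

theorem mem_S {x y : X} {g : G} : g ∈ S G x y ↔ g • x = x ∧ g • y = y := Iff.rfl

theorem cn_smul (g : G) {p q : X → Prop} (h : ∀ w, p w ↔ q (g • w)) : cn p = cn q :=
  cn_bij (fun w => g • w) (fun w a => (h w).1 a) (fun _ _ _ _ e => MulAction.injective g e)
    (fun y a => ⟨g⁻¹ • y, (h _).2 (by simpa using a), by simp⟩)

theorem conj_fix {g u : G} {x : X} : (g * u * g⁻¹) • g • x = g • x ↔ u • x = x := by
  simp [mul_smul]

theorem conj_smul (g u : G) (x : X) : (g * u * g⁻¹) • g • x = g • u • x := by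
  simp [mul_smul]

namespace Rk

variable (s : Rk G X)

/-- distinct and not adjacent -/
def nd (x z : X) : Prop := x ≠ z ∧ ¬ s.adj x z
/-- the part of the kernel fixing a second point -/
def D (x z : X) : Subgroup G := s.K x ⊓ stabilizer G z
noncomputable def y0 : X := (s.exE s.x0).choose
noncomputable def z0 : X := (s.exN s.x0).choose
noncomputable def k : ℕ := cn (s.adj s.x0)
noncomputable def l : ℕ := cn (s.nd s.x0)
noncomputable def h : ℕ := Nat.card (S G s.x0 s.y0)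
noncomputable def m : ℕ := Nat.card (S G s.x0 s.z0)
noncomputable def d : ℕ := Nat.card (s.D s.x0 s.z0)
noncomputable def lam : ℕ := cn (fun w => s.adj s.x0 w ∧ s.adj s.y0 w)
noncomputable def mu : ℕ := cn (fun w => s.adj s.x0 w ∧ s.adj s.z0 w)

theorem e0 : s.adj s.x0 s.y0 := (s.exE s.x0).choose_spec
theorem n0 : s.nd s.x0 s.z0 := (s.exN s.x0).choose_spec

variable {s}

theorem mem_D {x z : X} {g : G} : g ∈ s.D x z ↔ g ∈ s.K x ∧ g • z = z := Iff.rfl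

theorem adj_iff (g : G) (x y : X) : s.adj (g • x) (g • y) ↔ s.adj x y :=
  ⟨fun a => by simpa using s.inv g⁻¹ a, s.inv g⟩

theorem nd_iff (g : G) (x y : X) : s.nd (g • x) (g • y) ↔ s.nd x y := by
  simp [nd, adj_iff]

theorem nd.symm {x y : X} (a : s.nd x y) : s.nd y x := ⟨a.1.symm, fun b => a.2 (s.symm b)⟩

theorem adj_ne {x y : X} (a : s.adj x y) : x ≠ y := fun e => s.irr y (e ▸ a)

theorem tri (x y : X) : x = y ∨ s.adj x y ∨ s.nd x y := by unfold nd; tauto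

theorem adj_fix {g : G} {x y : X} (e : g • x = x) (a : s.adj x y) : s.adj x (g • y) := e ▸ s.inv g (e.symm ▸ a)

theorem nd_fix {g : G} {x y : X} (e : g • x = x) (a : s.nd x y) : s.nd x (g • y) := by
  have := (nd_iff g x y).2 a; rwa [e] at this

theorem Kfix {x : X} {g : G} (a : g ∈ s.K x) : g • x = x := ((s.memK x g).1 a).1

theorem Kfree {x y : X} {g : G} (a : g ∈ s.K x) (b : s.adj x y) (c : g • y = y) : g = 1 :=
  ((s.memK x g).1 a).2.resolve_right fun e => e y b c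

theorem notK {x : X} {g : G} (a : g • x = x) (b : g ∉ s.K x) : ∃ y, s.adj x y ∧ g • y = y := by
  by_contra e
  exact b ((s.memK x g).2 ⟨a, Or.inr fun y c f => e ⟨y, c, f⟩⟩)

theorem Kconj' {x : X} {u : G} (g : G) (a : u ∈ s.K x) : g * u * g⁻¹ ∈ s.K (g • x) := by
  refine (s.memK _ _).2 ⟨conj_fix.2 (Kfix a), ?_⟩
  by_cases e : u = 1
  · left; simp [e]
  · right
    intro y b c
    have b' : s.adj x (g⁻¹ • y) := by simpa using s.inv g⁻¹ b
    refine e (Kfree a b' ((conj_fix (g := g)).1 (by simpa using c)))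

theorem Kconj {x : X} {u : G} (g : G) : u ∈ s.K x ↔ g * u * g⁻¹ ∈ s.K (g • x) :=
  ⟨Kconj' g, fun a => by simpa [mul_assoc] using Kconj' g⁻¹ a⟩

theorem Knorm {x : X} {u g : G} (e : g • x = x) (a : u ∈ s.K x) : g * u * g⁻¹ ∈ s.K x := by
  have := Kconj' g a; rwa [e] at this

theorem cenK {x : X} {g κ : G} (a : g • x = x) (b : κ ∈ s.K x) (c : κ ≠ 1) (e : g * κ = κ * g) : g ∈ s.K x := by
  by_contra f
  obtain ⟨y, p, q⟩ := notK a f
  have : g = 1 := s.frob a p (adj_fix (Kfix b) p) q (by rw [← mul_smul, e, mul_smul, q])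
    (fun r => c (Kfree b p r.symm))
  exact f (this ▸ (s.K x).one_mem)

theorem k_eq (x : X) : cn (s.adj x) = s.k := by
  obtain ⟨g, e⟩ := s.tr x s.x0
  exact cn_smul g fun w => by rw [← e, adj_iff]

theorem l_eq (x : X) : cn (s.nd x) = s.l := by
  obtain ⟨g, e⟩ := s.tr x s.x0
  exact cn_smul g fun w => by rw [← e, nd_iff]

theorem S_conj (g : G) (x y : X) : Nat.card (S G x y) = Nat.card (S G (g • x) (g • y)) := by
  rw [← cn_mem, ← cn_mem]
  exact cn_bij (fun u => g * u * g⁻¹) (fun u a => ⟨conj_fix.2 a.1, conj_fix.2 a.2⟩) (fun x y _ _ e => by simpa using e)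
    (fun u a => ⟨g⁻¹ * u * g, ⟨by simpa using (conj_fix (g := g⁻¹)).2 a.1, by simpa using (conj_fix (g := g⁻¹)).2 a.2⟩,
      by group⟩)

theorem h_eq {x y : X} (a : s.adj x y) : Nat.card (S G x y) = s.h := by
  obtain ⟨g, e, f⟩ := s.etr a s.e0
  rw [S_conj g, e, f]; rfl

theorem m_eq {x y : X} (a : s.nd x y) : Nat.card (S G x y) = s.m := by
  obtain ⟨g, e, f⟩ := s.ntr a s.n0
  rw [S_conj g, e, f]; rfl

theorem lam_eq {x y : X} (a : s.adj x y) : cn (fun w => s.adj x w ∧ s.adj y w) = s.lam := by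
  obtain ⟨g, e, f⟩ := s.etr a s.e0
  exact cn_smul g fun w => by rw [← f, ← e, adj_iff, adj_iff]

theorem mu_eq {x y : X} (a : s.nd x y) : cn (fun w => s.adj x w ∧ s.adj y w) = s.mu := by
  obtain ⟨g, e, f⟩ := s.ntr a s.n0
  exact cn_smul g fun w => by rw [← f, ← e, adj_iff, adj_iff]

variable [Finite G] [Fintype X]

theorem d_eq {x y : X} (a : s.nd x y) : Nat.card (s.D x y) = s.d := by
  obtain ⟨g, e, f⟩ := s.ntr a s.n0
  exact card_conj _ _ g fun u => by rw [mem_D, mem_D, ← f, ← e, conj_fix, ← Kconj]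

theorem card_K (x : X) : Nat.card (s.K x) = s.k := by
  obtain ⟨y, a⟩ := s.exE x
  rw [← orb_free (s.K x) y (fun g b c => Kfree b a c), ← k_eq x]
  exact cn_congr fun u => ⟨fun ⟨g, b, c⟩ => c ▸ adj_fix (Kfix b) a, fun b => s.Kreg a b⟩

theorem n_eq : Fintype.card X = 1 + s.k + s.l := by
  rw [← cn_true, cn_del (a := s.x0) trivial, cn_split _ (s.adj s.x0), ← k_eq s.x0, ← l_eq s.x0]
  have : cn (fun x => (True ∧ x ≠ s.x0) ∧ s.adj s.x0 x) = cn (s.adj s.x0) :=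
    cn_congr fun x => ⟨fun a => a.2, fun a => ⟨⟨trivial, (adj_ne a).symm⟩, a⟩⟩
  have : cn (fun x => (True ∧ x ≠ s.x0) ∧ ¬ s.adj s.x0 x) = cn (s.nd s.x0) :=
    cn_congr fun x => ⟨fun a => ⟨a.1.2.symm, a.2⟩, fun a => ⟨⟨trivial, a.1.symm⟩, a.2⟩⟩
  omega

theorem stab_h (x : X) : Nat.card (stabilizer G x) = s.k * s.h := by
  obtain ⟨y, a⟩ := s.exE x
  rw [os (stabilizer G x) y, ← k_eq x, ← h_eq a]
  congr 1
  exact cn_congr fun u => ⟨fun ⟨g, b, c⟩ => c ▸ adj_fix b a, fun b => s.etr a b⟩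

theorem lm_eq : s.l * s.m = s.k * s.h := by
  rw [← stab_h s.x0, os (stabilizer G s.x0) s.z0, ← l_eq s.x0, ← m_eq s.n0]
  congr 1
  exact cn_congr fun u => ⟨fun b => s.ntr s.n0 b, fun ⟨g, b, c⟩ => c ▸ nd_fix b s.n0⟩

theorem card_G : Nat.card G = Fintype.card X * (s.k * s.h) := by
  rw [← stab_h s.x0, ← Subgroup.card_top, os ⊤ s.x0, top_inf_eq, ← cn_true]
  congr 1
  exact cn_congr fun u => ⟨fun _ => trivial, fun _ => by simpa using s.tr s.x0 u⟩

theorem h_dvd : ∃ c, s.k = c * s.h + 1 := by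
  obtain ⟨c, e⟩ := free_dvd (S G s.x0 s.y0) (fun w => s.adj s.x0 w ∧ w ≠ s.y0)
    (fun g a u b => ⟨adj_fix a.1 b.1, fun e => b.2 (MulAction.injective g (e.trans a.2.symm))⟩)
    (fun g a u b e => s.frob a.1 b.1 s.e0 e a.2 b.2)
  exact ⟨c, by rw [← k_eq s.x0, cn_del s.e0, e, mul_comm]; rfl⟩

theorem h_lam : s.h ∣ s.lam :=
  free_dvd (S G s.x0 s.y0) _ (fun _ a _ b => ⟨adj_fix a.1 b.1, adj_fix a.2 b.2⟩)
    (fun _ a _ b e => s.frob a.1 b.1 s.e0 e a.2 (adj_ne b.2).symm)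

theorem h_two : 2 ≤ s.h := by
  obtain ⟨g, a, b⟩ := s.hne s.e0
  have : Nontrivial (S G s.x0 s.y0) := ⟨⟨⟨g, b⟩, 1, fun e => a (congrArg Subtype.val e)⟩⟩
  exact Finite.one_lt_card

theorem l_pos : 0 < s.l := cn_pos s.n0
theorem m_pos : 0 < s.m := Nat.card_pos
theorem d_pos : 0 < s.d := Nat.card_pos
theorem mu_pos : 0 < s.mu := by obtain ⟨w, a⟩ := s.mu0 s.n0; exact cn_pos a

theorem mu_add {x z : X} (a : s.nd x z) : s.mu + cn (fun w => s.nd x w ∧ s.adj z w) = s.k := by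
  rw [← k_eq z, cn_split (s.adj z) (s.adj x), ← mu_eq a]
  congr 1
  · exact cn_congr fun w => and_comm
  · exact cn_congr fun w => ⟨fun b => ⟨b.2, b.1.2⟩, fun b => ⟨⟨fun e => a.2 (s.symm (e ▸ b.1)), b.2⟩, b.1⟩⟩

theorem mu_lt : s.mu < s.k := by
  obtain ⟨w, a⟩ := s.muk s.n0
  have := mu_add s.n0
  have := cn_pos (p := fun w => s.nd s.x0 w ∧ s.adj s.z0 w) a
  omega

theorem param : s.k * s.k = s.k + s.k * s.lam + s.l * s.mu := by
  set x := s.x0
  have e1 : cn (fun p : X × X => s.adj x p.1 ∧ s.adj p.2 p.1) = s.k * s.k := by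
    rw [← k_eq x]
    refine cn_fib _ _ Prod.fst _ (fun _ a => a.1) fun y a => ?_
    rw [k_eq x, ← k_eq y]
    exact cn_bij Prod.snd (fun p b => b.2 ▸ s.symm b.1.2) (fun p q b c e => Prod.ext (b.2.trans c.2.symm) e)
      (fun w b => ⟨(y, w), ⟨⟨a, s.symm b⟩, rfl⟩, rfl⟩)
  have gen : ∀ (q : X → Prop) (c : ℕ), (∀ w, q w → cn (fun y => s.adj x y ∧ s.adj w y) = c) →
      cn (fun p : X × X => (s.adj x p.1 ∧ s.adj p.2 p.1) ∧ q p.2) = cn q * c := by
    intro q c hq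
    refine cn_fib _ _ Prod.snd _ (fun _ a => a.2) fun w a => ?_
    rw [← hq w a]
    exact cn_bij Prod.fst (fun p b => b.2 ▸ b.1.1) (fun p q b c e => Prod.ext e (b.2.trans c.2.symm))
      (fun y b => ⟨(y, w), ⟨⟨b, a⟩, rfl⟩, rfl⟩)
  have g1 := gen (fun w => w = x) s.k (fun w a => by rw [a, ← k_eq x]; exact cn_congr fun _ => and_self_iff)
  have g2 := gen (s.adj x) s.lam (fun w a => lam_eq a)
  have g3 := gen (s.nd x) s.mu (fun w a => mu_eq a)
  rw [cn_one, one_mul] at g1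
  rw [k_eq] at g2
  rw [l_eq] at g3
  rw [← e1, ← g2, ← g3]
  nth_rewrite 1 [← g1]
  rw [← cn_or, ← cn_or]
  · refine cn_congr fun p => ⟨fun a => ?_, fun a => by tauto⟩
    rcases s.tri x p.2 with b | b | b
    · exact Or.inl (Or.inl ⟨a, b.symm⟩)
    · exact Or.inl (Or.inr ⟨a, b⟩)
    · exact Or.inr ⟨a, b⟩
  · rintro p (a | a) b
    · exact b.2.1 a.2.symm
    · exact b.2.2 a.2
  · exact fun p a b => adj_ne b.2 a.2.symm

theorem k_three : 3 ≤ s.k := by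
  obtain ⟨c, e⟩ := s.h_dvd
  have := s.h_two; have := s.mu_pos; have := s.mu_lt
  rcases c with _ | c
  · omega
  · nlinarith

theorem Kpow {x : X} {g : G} (a : g ∈ s.K x) : g ^ s.k = 1 := by
  have := pow_card_eq_one' (x := (⟨g, a⟩ : s.K x))
  rw [card_K] at this; exact congrArg Subtype.val this

theorem Kloc {x w : X} {g : G} (a : g ∈ s.K x) (b : g • w = w) : g ∈ s.K w := by
  by_contra e
  obtain ⟨y, p, q⟩ := notK b e
  have h1 := pow_card_eq_one' (x := (⟨g, b, q⟩ : S G w y))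
  rw [h_eq p] at h1
  have h2 : g ^ s.h = 1 := congrArg Subtype.val h1
  obtain ⟨c, hc⟩ := s.h_dvd
  have h3 := Kpow a
  rw [hc, pow_succ, mul_comm c, pow_mul, h2, one_pow, one_mul] at h3
  exact e (h3 ▸ (s.K w).one_mem)

theorem K_nd {x w w' : X} {g : G} (a : g ∈ s.K x) (b : g ≠ 1) (c : g • w = w) (c' : g • w' = w') (e : w ≠ w') :
    s.nd w w' := ⟨e, fun f => b (Kfree (Kloc a c) f c')⟩

theorem exK (x : X) : ∃ κ ∈ s.K x, κ ≠ 1 := by
  have := s.k_three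
  rw [← card_K x] at this
  have : Nontrivial (s.K x) := Finite.one_lt_card_iff_nontrivial.1 (by omega)
  obtain ⟨⟨κ, a⟩, b⟩ := exists_ne (1 : s.K x)
  exact ⟨κ, a, fun e => b (Subtype.ext e)⟩

theorem dsq : s.d * s.d ≤ s.k := by
  obtain ⟨w, a, b⟩ := s.muk s.n0
  rw [← card_K s.x0]
  nth_rewrite 1 [← d_eq s.n0, ← d_eq (show s.nd s.x0 w from a)]
  exact mul_le_card _ _ _ inf_le_left inf_le_left fun g p q => Kfree (Kloc p.1 p.2) b q.2

theorem d_dvd_k : s.d ∣ s.k := by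
  rw [← card_K s.x0]; exact Subgroup.card_dvd_of_le inf_le_left

theorem d_dvd_m : s.d ∣ s.m := Subgroup.card_dvd_of_le fun _ a => ⟨Kfix a.1, a.2⟩

theorem DF {x z w w' : X} (a : s.nd x z) (h1 : 1 < s.d) (p : ∀ δ ∈ s.D x z, δ • w = w)
    (q : ∀ δ ∈ s.D x z, δ • w' = w') (e : w ≠ w') : s.nd w w' ∧ s.D w w' = s.D x z := by
  rw [← d_eq a] at h1
  have : Nontrivial (s.D x z) := Finite.one_lt_card_iff_nontrivial.1 h1
  obtain ⟨⟨κ, b⟩, c⟩ := exists_ne (1 : s.D x z)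
  have n := K_nd b.1 (fun e => c (Subtype.ext e)) (p κ b) (q κ b) e
  have le : s.D x z ≤ s.D w w' := fun δ r => ⟨Kloc r.1 (p δ r), q δ r⟩
  exact ⟨n, (Subgroup.eq_of_le_of_card_ge le (by rw [d_eq n, d_eq a])).symm⟩

theorem exD {x z : X} (a : s.nd x z) (h1 : 1 < s.d) : ∃ κ ∈ s.D x z, κ ≠ 1 := by
  rw [← d_eq a] at h1
  have : Nontrivial (s.D x z) := Finite.one_lt_card_iff_nontrivial.1 h1
  obtain ⟨⟨κ, b⟩, c⟩ := exists_ne (1 : s.D x z)
  exact ⟨κ, b, fun e => c (Subtype.ext e)⟩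

theorem d_one (h1 : s.d = 1) {x z : X} {g : G} (a : g ∈ s.K x) (b : g • z = z) (c : x ≠ z) : g = 1 := by
  by_contra e
  have n := K_nd a e (Kfix a) b c
  have := Subgroup.eq_bot_of_card_eq (s.D x z) ((d_eq n).trans h1)
  exact e (by have : g ∈ s.D x z := ⟨a, b⟩; simp_all)

theorem disc (he : Even (Fintype.card X)) : ∃ e : ℤ, ((s.lam : ℤ) - s.mu) ^ 2 + 4 * (s.k - s.mu) = e ^ 2 :=
  disc_sq s.adj (fun _ _ => s.symm) s.irr s.k s.l s.lam s.mu k_eq (fun _ _ => lam_eq) (fun _ _ a b => mu_eq ⟨a, b⟩)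
    n_eq he param mu_lt mu_pos

/-- elements moving `x` to a fixed point form a coset -/
theorem cos_le (p : G → Prop) (W : Subgroup G) (h : ∀ u u', p u → p u' → u⁻¹ * u' ∈ W) : cn p ≤ Nat.card W := by
  by_cases e : ∃ u, p u
  · obtain ⟨u, a⟩ := e
    rw [← cn_mem]
    exact cn_le (fun v => u⁻¹ * v) (fun v b => h u v a b) (fun _ _ _ _ e => mul_left_cancel e)
  · rw [cn_zero (fun x hx => e ⟨x, hx⟩)]; omega

end Rk

end H326.Rf
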