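import Cfsg.Agent.H26.Rf2

/-! Rank three groups with Frobenius point stabiliser: the complement has even order (`Rk.even_h`). -/

set_option autoImplicit false

namespace H326.Rf

open Finset H326.Yk MulAction

variable {G X : Type*} [Group G] [MulAction G X]

theorem inv2 {u : G} (a : u * u = 1) : u⁻¹ = u := inv_eq_of_mul_eq_one_right a

theorem back {u : G} {x y : X} (a : u * u = 1) (b : u • x = y) : u • y = x := by
  rw [← b, ← mul_smul, a, one_smul]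

theorem swap_S {u u' : G} {x y : X} (a : u * u = 1) (a' : u' * u' = 1) (b : u • x = y) (b' : u' • x = y) :
    u⁻¹ * u' ∈ S G x y := by
  rw [mem_S, mul_smul, mul_smul, b', back a' b', inv2 a, back a b, b]; exact ⟨rfl, rfl⟩

namespace Rk

variable (s : Rk G X)

/-- central involutions of the kernel -/
def Z (x : X) : Subgroup G where
  carrier := {u | u ∈ s.K x ∧ u * u = 1 ∧ ∀ κ ∈ s.K x, u * κ = κ * u}
  one_mem' := ⟨(s.K x).one_mem, mul_one 1, fun κ _ => by simp⟩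
  mul_mem' := fun {a b} p q => ⟨(s.K x).mul_mem p.1 q.1, by
      rw [mul_assoc, ← mul_assoc b, ← p.2.2 b q.1, mul_assoc, q.2.1, mul_one, p.2.1],
    fun κ r => by rw [mul_assoc, q.2.2 κ r, ← mul_assoc, p.2.2 κ r, mul_assoc]⟩
  inv_mem' := fun {a} p => by rw [inv2 p.2.1]; exact p

variable {s}

theorem mem_Z {x : X} {u : G} : u ∈ s.Z x ↔ u ∈ s.K x ∧ u * u = 1 ∧ ∀ κ ∈ s.K x, u * κ = κ * u := Iff.rfl

theorem Zconj' {x : X} {u : G} (g : G) (a : u ∈ s.Z x) : g * u * g⁻¹ ∈ s.Z (g • x) := by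
  refine ⟨Kconj' g a.1, by rw [show g * u * g⁻¹ * (g * u * g⁻¹) = g * (u * u) * g⁻¹ by group, a.2.1]; simp,
    fun κ b => ?_⟩
  have b' : g⁻¹ * κ * g ∈ s.K x := by simpa using Kconj' g⁻¹ b
  calc g * u * g⁻¹ * κ = g * (u * (g⁻¹ * κ * g)) * g⁻¹ := by group
    _ = κ * (g * u * g⁻¹) := by rw [a.2.2 _ b']; group

theorem Zconj {x : X} {u : G} (g : G) : u ∈ s.Z x ↔ g * u * g⁻¹ ∈ s.Z (g • x) :=
  ⟨Zconj' g, fun a => by simpa [mul_assoc] using Zconj' g⁻¹ a⟩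

variable [Finite G] [Fintype X]

theorem Z_eq (x x' : X) : Nat.card (s.Z x) = Nat.card (s.Z x') := by
  obtain ⟨g, rfl⟩ := s.tr x x'
  exact card_conj _ _ g fun u => Zconj g

theorem Y_eq {x z x' z' : X} (a : s.nd x z) (a' : s.nd x' z') :
    Nat.card ↥(s.Z x ⊓ stabilizer G z) = Nat.card ↥(s.Z x' ⊓ stabilizer G z') := by
  obtain ⟨g, rfl, rfl⟩ := s.ntr a a'
  exact card_conj _ _ g fun u => by
    simp only [Subgroup.mem_inf, mem_stabilizer_iff]; rw [conj_fix, ← Zconj]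

theorem Z_inj {x y : X} (a : s.adj x y) {u : G} (b : u ∈ s.K x) (c : u ≠ 1) (η η' : G) (p : η ∈ S G x y)
    (p' : η' ∈ S G x y) (e : η * u * η⁻¹ = η' * u * η'⁻¹) : η = η' := by
  have q := (S G x y).mul_mem ((S G x y).inv_mem p') p
  have := Kfree (cenK q.1 b c (by
    calc η'⁻¹ * η * u = η'⁻¹ * (η * u * η⁻¹) * η := by group
      _ = u * (η'⁻¹ * η) := by rw [e]; group)) a q.2
  exact (by simpa [inv_mul_eq_one] using this : η' = η).symm

theorem Z_ge (he : Even s.k) (x : X) : s.h ≤ cn (fun u => u ∈ s.Z x ∧ u ≠ 1) := by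
  obtain ⟨u, a, b, c, e⟩ := s.cinv x (by rwa [card_K])
  obtain ⟨y, p⟩ := s.exE x
  rw [← h_eq p, ← cn_mem]
  refine cn_le (fun η => η * u * η⁻¹) (fun η q => ⟨?_, by simpa using b⟩) (fun η η' q q' => Z_inj p a b η η' q q')
  have := Zconj' η (show u ∈ s.Z x from ⟨a, c, e⟩)
  rwa [q.1] at this

theorem Z_del (x : X) : Nat.card (s.Z x) = cn (fun u => u ∈ s.Z x ∧ u ≠ 1) + 1 := by
  rw [← cn_mem, cn_del (s.Z x).one_mem]

theorem odd_d1 (he : Even s.k) (h1 : s.d = 1) : False := by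
  set x := s.x0
  set j := cn (fun u => u ∈ s.Z x ∧ u ≠ 1) with hj
  have jw : ∀ w, cn (fun u => u ∈ s.Z w ∧ u ≠ 1) = j := fun w => by
    have := Z_del (s := s) w; have := Z_del (s := s) x; have := Z_eq (s := s) w x; omega
  let P : X × G → Prop := fun p => p.1 ≠ x ∧ p.2 ∈ s.Z p.1 ∧ p.2 ≠ 1
  have c1 : cn P = cn (fun w => w ≠ x) * j := by
    refine cn_fib _ _ Prod.fst _ (fun _ a => a.1) fun w a => ?_
    rw [← jw w]
    exact cn_bij Prod.snd (fun p b => b.2 ▸ b.1.2) (fun p q b c e => Prod.ext (b.2.trans c.2.symm) e)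
      (fun u b => ⟨(w, u), ⟨⟨a, b⟩, rfl⟩, rfl⟩)
  have c2 : cn (fun w => w ≠ x) = s.k + s.l := by
    have := cn_del (p := fun _ : X => True) (a := x) trivial
    rw [cn_true, s.n_eq] at this
    simp only [true_and] at this; omega
  have gen : ∀ (q : X → Prop) (c : ℕ), (∀ y, q y → Nat.card (S G x y) = c) →
      cn (fun p => P p ∧ q (p.2 • x)) ≤ cn q * c := by
    intro q c hq
    refine cn_fib_le _ _ (fun p => p.2 • x) _ (fun _ a => a.2) fun y a => ?_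
    refine le_trans (cn_le (q := fun u : G => u * u = 1 ∧ u • x = y) Prod.snd (fun p b => ⟨b.1.1.2.1.2.1, b.2⟩) ?_) ?_
    · rintro ⟨w, u⟩ ⟨w', u'⟩ b b' e
      obtain rfl : u = u' := e
      by_contra f
      exact b.1.1.2.2 (d_one h1 b.1.1.2.1.1 (Kfix b'.1.1.2.1.1) (fun r => f (by rw [show w = w' from r])))
    · rw [← hq y a]; exact cos_le _ _ fun u u' b b' => swap_S b.1 b'.1 b.2 b'.2
  have g1 := gen (s.adj x) s.h (fun y a => h_eq a)
  have g2 := gen (s.nd x) s.m (fun y a => m_eq a)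
  have c3 : cn P ≤ s.k * s.h + s.l * s.m := by
    rw [cn_split P (fun p => s.adj x (p.2 • x))]
    refine Nat.add_le_add g1 (le_trans (cn_mono fun p a => ⟨a.1, fun e => ?_, a.2⟩) g2)
    exact a.1.2.2 (d_one h1 a.1.2.1.1 e.symm a.1.1)
  have := Z_ge he x
  have lm := s.lm_eq
  have h2 := s.h_two
  have kl : s.l ≤ s.k := by rw [c1, c2] at c3; nlinarith
  have fr : ∀ g ∈ s.K x, ∀ u, s.nd x u → g • u = u → g = 1 := fun g a u b e => d_one h1 a e b.1
  have dv := free_dvd (s.K x) (s.nd x) (fun g a u b => nd_fix (Kfix a) b) fr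
  rw [card_K, l_eq] at dv
  have lk : s.l = s.k := le_antisymm kl (Nat.le_of_dvd s.l_pos dv)
  have mh : s.m = s.h := by
    rw [lk] at lm; exact Nat.eq_of_mul_eq_mul_left (by have := s.k_three; omega) lm
  have n0 := s.n0
  set z := s.z0
  have : Nontrivial (S G x z) := Finite.one_lt_card_iff_nontrivial.1 (by rw [m_eq n0]; omega)
  obtain ⟨⟨g, a⟩, b⟩ := exists_ne (1 : S G x z)
  have g1 : g ≠ 1 := fun e => b (Subtype.ext e)
  obtain ⟨z', p, q⟩ := notK a.2 (fun e => g1 (d_one h1 e a.1 n0.1.symm))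
  have n' : s.nd x z' := ⟨fun e => n0.2 (s.symm (show s.adj z x by rw [e]; exact p)), fun e => g1 (s.frob q (s.symm e) (s.symm p) a.1 a.2 n0.1)⟩
  obtain ⟨κ, r, e⟩ := cn_surj (p := fun κ => κ ∈ s.K x) (q := s.nd x) (fun κ => κ • z)
    (fun κ a => nd_fix (Kfix a) n0) (fun κ κ' a a' e => by
      have := fr _ ((s.K x).mul_mem ((s.K x).inv_mem a') a) z n0 (by rw [mul_smul, inv_smul_eq_iff]; exact e)
      exact (by simpa [inv_mul_eq_one] using this : κ' = κ).symm) (by rw [cn_mem, card_K, l_eq, lk]) z' n'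
  have e' : κ • z = z' := e
  have a2 : g⁻¹ • z = z := by rw [inv_smul_eq_iff]; exact a.2.symm
  have := fr (κ⁻¹ * (g * κ * g⁻¹)) ((s.K x).mul_mem ((s.K x).inv_mem r) (Knorm a.1 r)) z n0
    (by simp only [mul_smul]; rw [a2, e', q, ← e', inv_smul_smul])
  have c : g * κ = κ * g := by
    rw [inv_mul_eq_one] at this
    nth_rewrite 2 [this]; group
  exact g1 (fr g (cenK a.1 r (fun f => adj_ne p (by rw [← e', f, one_smul])) c) z n0 a.2)

/-- the basic count on the fixed points of `D` -/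
theorem odd_cnt (h1 : 1 < s.d) {x z : X} (a : s.nd x z) (T : X → Prop)
    (hT : ∀ w u, (∀ δ ∈ s.D x z, δ • w = w) → u ∈ s.Z w → (∀ δ ∈ s.D x z, δ • u • x = u • x) → u • x ≠ x →
      T (u • x)) :
    cn (fun w => (∀ δ ∈ s.D x z, δ • w = w) ∧ w ≠ x) *
        (Nat.card (s.Z x) - Nat.card ↥(s.Z x ⊓ stabilizer G z)) ≤ cn T * Nat.card ↥(s.Z x ⊓ stabilizer G z) := by
  let F : X → Prop := fun w => ∀ δ ∈ s.D x z, δ • w = w
  have Fx : F x := fun δ b => Kfix b.1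
  let P : X × G → Prop := fun p => (F p.1 ∧ p.1 ≠ x) ∧ p.2 ∈ s.Z p.1 ∧ p.2 • x ≠ x
  have com : ∀ w u, F w → u ∈ s.Z w → ∀ δ ∈ s.D x z, u * δ = δ * u :=
    fun w u b c δ e => c.2.2 δ (Kloc e.1 (b δ e))
  have pres : ∀ w u, F w → u ∈ s.Z w → ∀ w', F w' → F (u • w') :=
    fun w u b c w' f δ e => by rw [← mul_smul, ← com w u b c δ e, mul_smul, f δ e]
  refine le_trans (cn_fib_ge P _ Prod.fst _ fun w b => ?_) (cn_fib_le P T (fun p => p.2 • x) _
    (fun p b => hT _ _ b.1.1 b.2.1 (pres _ _ b.1.1 b.2.1 x Fx) b.2.2) fun z' _ => ?_)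
  · have n := (DF a h1 b.1 Fx b.2).1
    have e1 := cn_split (fun u => u ∈ s.Z w) (fun u => u • x = x)
    have e2 : cn (fun u => u ∈ s.Z w ∧ u • x = x) = Nat.card ↥(s.Z x ⊓ stabilizer G z) := by
      rw [← Y_eq n a, ← cn_mem]; rfl
    rw [cn_mem, Z_eq w x, e2] at e1
    have e3 : cn (fun u => u ∈ s.Z w ∧ ¬ u • x = x) ≤ cn (fun p => P p ∧ p.1 = w) :=
      cn_le (fun u => (w, u)) (fun u c => ⟨⟨b, c⟩, rfl⟩) (fun _ _ _ _ e => congrArg Prod.snd e)
    omega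
  · by_cases ex : ∃ p, P p ∧ p.2 • x = z'
    swap
    · rw [cn_zero (fun p b => ex ⟨p, b⟩)]; omega
    obtain ⟨⟨w, u⟩, b, c⟩ := ex
    have same : ∀ w' u', P (w', u') → u' • x = z' → w' = w := by
      intro w' u' b' c'
      by_contra f
      have sw := swap_S b'.2.1.2.1 b.2.1.2.1 c' c
      obtain ⟨δ, p, q⟩ := exD a h1
      have k1 : u'⁻¹ * u ∈ s.K x := cenK sw.1 p.1 q (by
        rw [inv2 b'.2.1.2.1, mul_assoc, com _ _ b.1.1 b.2.1 δ p, ← mul_assoc, com _ _ b'.1.1 b'.2.1 δ p, mul_assoc])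
      have Fz : F z' := c ▸ pres _ _ b.1.1 b.2.1 x Fx
      have k2 : u'⁻¹ * u ∈ s.D x z := by
        rw [← (DF a h1 Fx Fz (fun e => b.2.2 (c.trans e.symm))).2]; exact ⟨k1, sw.2⟩
      have k3 : u • w' = w' := by
        have := b'.1.1 _ k2
        rw [mul_smul, inv_smul_eq_iff, Kfix b'.2.1.1] at this; exact this
      have k4 : u ∈ s.D x z := by
        rw [← (DF a h1 b.1.1 b'.1.1 (Ne.symm f)).2]; exact ⟨b.2.1.1, k3⟩
      exact b.2.2 (Fx u k4)
    rw [← Y_eq (DF a h1 b.1.1 Fx b.1.2).1 a]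
    refine le_trans (cn_le (q := fun u : G => u ∈ s.Z w ∧ u • x = z') Prod.snd
      (fun p r => ⟨same p.1 p.2 r.1 r.2 ▸ r.1.2.1, r.2⟩)
      (fun p q r r' e => Prod.ext ((same p.1 p.2 r.1 r.2).trans (same q.1 q.2 r'.1 r'.2).symm) e)) ?_
    exact cos_le _ _ fun v v' r r' => ⟨(s.Z w).mul_mem ((s.Z w).inv_mem r.1) r'.1,
      (swap_S r.1.2.1 r'.1.2.1 r.2 r'.2).1⟩

theorem odd_d2 (he : Even s.k) (ho : Odd s.h) (h1 : 1 < s.d) : False := by
  have h3 : 3 ≤ s.h := by have := s.h_two; obtain ⟨j, e⟩ := ho; omega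
  have zy : ∀ {x z}, s.nd x z → Nat.card (s.Z x) = 4 ∧ Nat.card ↥(s.Z x ⊓ stabilizer G z) = 2 := by
    intro x z a
    have c1 := odd_cnt h1 a (fun w => (∀ δ ∈ s.D x z, δ • w = w) ∧ w ≠ x) (fun w u _ _ b c => ⟨b, c⟩)
    have c0 := cn_pos (p := fun w => (∀ δ ∈ s.D x z, δ • w = w) ∧ w ≠ x) (a := z) ⟨fun δ b => b.2, a.1.symm⟩
    have c2 := Nat.le_of_mul_le_mul_left c1 c0
    obtain ⟨w, b, c⟩ := s.muk a
    have c3 := mul_le_card (s.Z x ⊓ stabilizer G z) (s.Z x ⊓ stabilizer G w) (s.Z x) inf_le_left inf_le_left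
      fun g p q => Kfree (Kloc p.1.1 p.2) c q.2
    rw [Y_eq (show s.nd x w from b) a] at c3
    have := Z_ge he x
    have := Z_del (s := s) x
    have : Nat.card ↥(s.Z x ⊓ stabilizer G z) ≤ 2 := by
      by_contra e
      have : Nat.card (s.Z x) ≤ 2 * Nat.card ↥(s.Z x ⊓ stabilizer G z) := by omega
      nlinarith
    omega
  have ysym : ∀ {x z v}, s.nd x z → v ∈ s.Z x → v • z = z → v ∈ s.Z z := by
    intro x z v a b c
    by_contra f
    have c1 := odd_cnt h1 a (fun w => ((∀ δ ∈ s.D x z, δ • w = w) ∧ w ≠ x) ∧ w ≠ z) (fun w u p q r t => ⟨⟨r, t⟩,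
      fun e => f (by
        have := Zconj' u b
        rwa [e, q.2.2 v (Kloc b.1 (p v ⟨b.1, c⟩)), mul_inv_cancel_right] at this)⟩)
    rw [(zy a).1, (zy a).2, cn_del (a := z) ⟨fun δ b => b.2, a.1.symm⟩] at c1
    omega
  have uq : ∀ {x z v v'}, s.nd x z → v ∈ s.Z x → v • z = z → v ≠ 1 → v' ∈ s.Z x → v' • z = z → v' ≠ 1 → v = v' := by
    intro x z v v' a b c e b' c' e'
    by_contra f
    have := (zy a).2
    rw [← cn_mem, cn_del (s.Z x ⊓ stabilizer G z).one_mem, cn_del (a := v) ⟨⟨b, c⟩, e⟩] at this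
    have := cn_pos (p := fun u => (u ∈ s.Z x ⊓ stabilizer G z ∧ u ≠ 1) ∧ u ≠ v) (a := v') ⟨⟨⟨b', c'⟩, e'⟩, Ne.symm f⟩
    omega
  have ex : ∀ {x z}, s.nd x z → ∃ v, v ∈ s.Z x ∧ v ≠ 1 ∧ v • z = z := by
    intro x z a
    have := (zy a).2
    rw [← cn_mem, cn_del (s.Z x ⊓ stabilizer G z).one_mem] at this
    obtain ⟨v, b⟩ := cn_ex (p := fun u => u ∈ s.Z x ⊓ stabilizer G z ∧ u ≠ 1) (by omega)
    exact ⟨v, b.1.1, b.2, b.1.2⟩
  have T0 : ∀ {x z w v}, s.nd x z → s.nd x w → v ∈ s.Z x → v ≠ 1 → v • z = z → v • w ≠ w → s.adj z w := by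
    intro x z w v a a' b c e f
    rcases s.tri z w with r | r | r
    · exact absurd (r ▸ e) f
    · exact r
    exfalso
    obtain ⟨v2, p2, q2, r2⟩ := ex a'
    obtain ⟨v3, p3, q3, r3⟩ := ex r
    have t2 : v2 • v • w = v • w := by rw [← mul_smul, p2.2.2 v b.1, mul_smul, r2]
    have t3 : v3 • v • w = v • w := by rw [← mul_smul, p3.2.2 v (ysym a b e).1, mul_smul, r3]
    have w2 := ysym a' p2 r2
    have w3 := ysym r p3 r3
    have e23 := uq (K_nd w2.1 q2 r2 t2 (Ne.symm f)) w2 t2 q2 w3 t3 q3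
    have := uq a p2 (e23 ▸ Kfix p3.1) q2 b e c
    exact f (this ▸ r2)
  have n0 := s.n0
  have e0 := s.e0
  set x := s.x0
  set z := s.z0
  set y := s.y0
  choose vf hv using fun w : X => show ∃ v : G, s.nd x w → v ∈ s.Z x ∧ v ≠ 1 ∧ v • w = w from by
    by_cases a : s.nd x w
    · obtain ⟨v, b⟩ := ex a; exact ⟨v, fun _ => b⟩
    · exact ⟨1, fun b => absurd b a⟩
  have z3 : cn (fun u => u ∈ s.Z x ∧ u ≠ 1) = 3 := by have := Z_del (s := s) x; have := (zy n0).1; omega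
  obtain ⟨v1, v2, v3⟩ := hv z n0
  set c := cn (fun w => s.nd x w ∧ vf z • w = w) with hc
  have cv : ∀ v, v ∈ s.Z x ∧ v ≠ 1 → cn (fun w => s.nd x w ∧ v • w = w) = c := by
    intro v a
    obtain ⟨η, p, q⟩ := cn_surj (p := fun η => η ∈ S G x y) (q := fun u => u ∈ s.Z x ∧ u ≠ 1)
      (fun η => η * vf z * η⁻¹) (fun η q => ⟨by have := Zconj' η v1; rwa [q.1] at this, by simpa using v2⟩)
      (fun η η' q q' => Z_inj e0 v1.1 v2 η η' q q') (by rw [z3, cn_mem, h_eq e0]; exact h3) v a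
    refine (cn_smul η fun w => ?_).symm
    rw [← q, conj_fix, ← nd_iff η, p.1]
  have l3 : s.l = 3 * c := by
    rw [← l_eq x, ← z3]
    refine cn_fib _ _ vf _ (fun w a => ⟨(hv w a).1, (hv w a).2.1⟩) fun v a => ?_
    rw [← cv v a]
    exact cn_congr fun w => ⟨fun b => ⟨b.1, b.2 ▸ (hv w b.1).2.2⟩,
      fun b => ⟨b.1, uq b.1 (hv w b.1).1 (hv w b.1).2.2 (hv w b.1).2.1 a.1 b.2 a.2⟩⟩
  have nb : ∀ w, s.nd x w → 2 * c ≤ cn (fun y' => s.adj x y' ∧ ¬ s.adj w y') := by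
    intro w a
    have e1 := cn_split (s.adj x) (s.adj w)
    have e2 := cn_split (s.nd x) (fun w' => vf w • w' = w')
    rw [k_eq, mu_eq a] at e1
    rw [l_eq, cv _ ⟨(hv w a).1, (hv w a).2.1⟩] at e2
    have e3 := mu_add a
    have e4 : cn (fun w' => s.nd x w' ∧ ¬ vf w • w' = w') ≤ cn (fun w' => s.nd x w' ∧ s.adj w w') :=
      cn_mono fun w' b => ⟨b.1, T0 a b.1 (hv w a).1 (hv w a).2.1 (hv w a).2.2 b.2⟩
    omega
  let P : X × X → Prop := fun p => s.adj x p.1 ∧ s.nd x p.2 ∧ ¬ s.adj p.2 p.1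
  have lo : s.l * (2 * c) ≤ cn P := by
    rw [← l_eq x]
    refine cn_fib_ge P _ Prod.snd _ fun w a => (nb w a).trans ?_
    exact cn_le (fun y' => (y', w)) (fun y' b => ⟨⟨b.1, a, b.2⟩, rfl⟩) (fun _ _ _ _ e => congrArg Prod.fst e)
  have hi : cn P ≤ s.k * 3 := by
    rw [← k_eq x, ← z3]
    refine cn_fib_le P _ Prod.fst _ (fun p a => a.1) fun y' a => ?_
    refine cn_le (fun p => vf p.2) (fun p b => ⟨(hv _ b.1.2.1).1, (hv _ b.1.2.1).2.1⟩) ?_
    rintro ⟨y1, w⟩ ⟨y2, w'⟩ ⟨b, e1⟩ ⟨b', e2⟩ e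
    obtain rfl : y' = y1 := e1.symm
    obtain rfl : y' = y2 := e2.symm
    by_contra f
    have f' : w ≠ w' := fun r => f (by rw [r])
    obtain ⟨p, q, r⟩ := hv w b.2.1
    have r' : vf w • w' = w' := by rw [show vf w = vf w' from e]; exact (hv w' b'.2.1).2.2
    have ny : ∀ u, s.nd x u → ¬ s.adj u y' → s.nd u y' := fun u t t' => ⟨fun e => t.2 (e ▸ a), t'⟩
    by_cases g : vf w • y' = y'
    · exact q (Kfree p.1 a g)
    · exact b'.2.2 (T0 (K_nd p.1 q r r' f') (ny w b.2.1 b.2.2) (ysym b.2.1 p r) q r' g)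
  have ko := os (s.K x) z
  rw [card_K, show Nat.card ↥(s.K x ⊓ stabilizer G z) = s.d from d_eq n0] at ko
  have kc : cn (fun u => ∃ g ∈ s.K x, g • z = u) ≤ c := cn_mono fun u ⟨g, a, b⟩ =>
    ⟨b ▸ nd_fix (Kfix a) n0, by rw [← b, ← mul_smul, v1.2.2 g a, mul_smul, v3]⟩
  have := s.dsq
  have dk : s.d ≤ cn (fun u => ∃ g ∈ s.K x, g • z = u) := by
    rw [ko] at this; exact Nat.le_of_mul_le_mul_right this s.d_pos
  have : s.k ≤ c * c := by rw [ko]; exact Nat.mul_le_mul kc (dk.trans kc)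
  have := s.l_pos
  nlinarith

theorem even_h (s : Rk G X) (he : Even (Nat.card G)) : Even s.h := by
  by_contra ho
  rw [Nat.not_even_iff_odd] at ho
  by_cases hk : Even s.k
  · rcases Nat.lt_or_ge 1 s.d with a | a
    · exact odd_d2 hk ho a
    · exact odd_d1 hk (by have := s.d_pos; omega)
  · rw [Nat.not_even_iff_odd] at hk
    have h1 : Odd (s.l * s.m) := by rw [lm_eq]; exact hk.mul ho
    have h2 := (Nat.odd_mul.1 h1).1
    rw [s.card_G, s.n_eq] at he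
    exact Nat.not_even_iff_odd.2 (Odd.mul (by obtain ⟨a, e⟩ := hk; obtain ⟨b, f⟩ := h2; exact ⟨a + b + 1, by omega⟩)
      (hk.mul ho)) he

end Rk

end H326.Rf
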