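import Cfsg.Agent.H26.Rf3

/-! Rank three groups with Frobenius point stabiliser, complement of even order: the involutions with fixed points
and the case of a non-trivial intersection of two kernels (`Rk.big_d`). -/

set_option autoImplicit false

namespace H326.Rf

open Finset H326.Yk MulAction

variable {G X : Type*} [Group G] [MulAction G X]

/-- involution -/
def Iv (u : G) : Prop := u * u = 1 ∧ u ≠ 1

theorem Iv.conj {u : G} (a : Iv u) (g : G) : Iv (g * u * g⁻¹) :=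
  ⟨by rw [show g * u * g⁻¹ * (g * u * g⁻¹) = g * (u * u) * g⁻¹ by group, a.1]; simp, by simpa using a.2⟩

/-- involution with a fixed point -/
def Tv (X : Type*) [MulAction G X] (u : G) : Prop := Iv u ∧ ∃ w : X, u • w = w

theorem Tv.conj {u : G} (a : Tv X u) (g : G) : Tv X (g * u * g⁻¹) := by
  obtain ⟨b, w, c⟩ := a
  exact ⟨b.conj g, g • w, conj_fix.2 c⟩

theorem ex_iv [Finite G] (W : Subgroup G) (h : Even (Nat.card W)) : ∃ t ∈ W, Iv t := by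
  haveI : Fact (Nat.Prime 2) := ⟨Nat.prime_two⟩
  obtain ⟨t, e⟩ := exists_prime_orderOf_dvd_card' (G := W) 2 h.two_dvd
  have e' : orderOf (t : G) = 2 := by rw [Subgroup.orderOf_coe, e]
  exact ⟨t, t.2, by rw [← sq, ← e', pow_orderOf_eq_one], fun f => by rw [f, orderOf_one] at e'; omega⟩

theorem even_of_iv [Finite G] (W : Subgroup G) {t : G} (a : t ∈ W) (b : Iv t) : Even (Nat.card W) := by
  haveI : Fact (Nat.Prime 2) := ⟨Nat.prime_two⟩
  have : orderOf t = 2 := orderOf_eq_prime (by rw [sq, b.1]) b.2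
  exact even_iff_two_dvd.2 (this ▸ Subgroup.orderOf_dvd_natCard W a)

namespace Rk

variable {s : Rk G X} [Finite G] [Fintype X]

theorem modD {w y : X} (a : s.adj w y) (D : Subgroup G) (le : D ≤ s.K w) {g κ : G} (p : g ∈ S G w y) (g1 : g ≠ 1)
    (q : ∀ δ ∈ D, g * δ * g⁻¹ ∈ D) (r : κ ∈ s.K w) (e : g * κ * g⁻¹ * κ⁻¹ ∈ D) : κ ∈ D := by
  have c : ∀ δ ∈ s.K w, g * δ = δ * g → δ = 1 := fun δ b f => by
    by_contra n; exact g1 (Kfree (cenK p.1 b n f) a p.2)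
  obtain ⟨δ, b, f⟩ := comm_onto D g q (fun δ b => c δ (le b)) _ e
  have := c (δ⁻¹ * κ) ((s.K w).mul_mem ((s.K w).inv_mem (le b)) r) (by
    calc g * (δ⁻¹ * κ) = (g * δ⁻¹ * g⁻¹) * (g * κ * g⁻¹ * κ⁻¹) * κ * g := by group
      _ = δ⁻¹ * κ * g := by rw [← f]; group)
  rw [inv_mul_eq_one] at this
  exact this ▸ b

theorem inverts {x y : X} {t κ : G} (a : Iv t) (e : s.adj x y) (b : t ∈ S G x y) (c : κ ∈ s.K x) :
    t * κ * t⁻¹ = κ⁻¹ := by
  obtain ⟨δ, _, rfl⟩ := comm_onto (s.K x) t (fun δ p => Knorm b.1 p) (fun δ p f => by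
    by_contra n; exact a.2 (Kfree (cenK b.1 p n f) e b.2)) κ c
  calc t * (t * δ * t⁻¹ * δ⁻¹) * t⁻¹ = (t * t) * δ * t⁻¹ * δ⁻¹ * t⁻¹ := by group
    _ = (t * δ * t⁻¹ * δ⁻¹)⁻¹ := by rw [a.1]; nth_rewrite 1 [inv2 a.1]; group

variable (hh : Even s.h)
include hh

theorem ex_t {x y : X} (a : s.adj x y) : ∃ t ∈ S G x y, Iv t := ex_iv _ (by rwa [h_eq a])

theorem k_odd : Odd s.k := by
  obtain ⟨c, e⟩ := s.h_dvd
  rw [e]; exact (hh.mul_left c).add_one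

theorem noinv {x : X} {κ : G} (a : κ ∈ s.K x) (b : κ * κ = 1) : κ = 1 := by
  by_contra e
  have := even_of_iv _ a ⟨b, e⟩
  rw [card_K] at this
  exact Nat.not_even_iff_odd.2 (k_odd hh) this

theorem Iv_nb {x : X} {u : G} (a : Iv u) (b : u • x = x) : ∃ y, s.adj x y ∧ u • y = y :=
  notK b fun e => a.2 (noinv hh e a.1)

theorem Iv_inv {x : X} {u κ : G} (a : Iv u) (b : u • x = x) (c : κ ∈ s.K x) : u * κ * u⁻¹ = κ⁻¹ := by
  obtain ⟨y, p, q⟩ := Iv_nb hh a b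
  exact inverts a p ⟨b, q⟩ c

omit [Finite G] [Fintype X] hh in
theorem mul_com {u u' κ : G} (a : u * κ⁻¹ * u⁻¹ = κ⁻¹⁻¹) (b : u' * κ * u'⁻¹ = κ⁻¹) : u * u' * κ = κ * (u * u') := by
  calc u * u' * κ = u * (u' * κ * u'⁻¹) * u⁻¹ * (u * u') := by group
    _ = κ * (u * u') := by rw [b, a, inv_inv]

theorem Iv_mul {x : X} {u u' : G} (a : Iv u) (a' : Iv u') (b : u • x = x) (b' : u' • x = x) : u * u' ∈ s.K x := by
  obtain ⟨κ, p, q⟩ := s.exK x
  exact cenK (by rw [mul_smul, b', b]) p q (mul_com (Iv_inv hh a b ((s.K x).inv_mem p)) (Iv_inv hh a' b' p))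

theorem Iv_uq {x y : X} {u u' : G} (a : Iv u) (a' : Iv u') (e : s.adj x y) (b : u ∈ S G x y) (b' : u' ∈ S G x y) :
    u = u' := by
  have := Kfree (Iv_mul hh a a' b.1 b'.1) e (by rw [mul_smul, b'.2, b.2])
  rw [← inv2 a.1, inv_eq_of_mul_eq_one_right this]

theorem Kcomm {x : X} {a b : G} (p : a ∈ s.K x) (q : b ∈ s.K x) : a * b = b * a := by
  obtain ⟨y, e⟩ := s.exE x
  obtain ⟨t, r, i⟩ := ex_t hh e
  have h1 := inverts i e r ((s.K x).mul_mem ((s.K x).inv_mem p) ((s.K x).inv_mem q))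
  rw [show t * (a⁻¹ * b⁻¹) * t⁻¹ = (t * a⁻¹ * t⁻¹) * (t * b⁻¹ * t⁻¹) by group, inverts i e r ((s.K x).inv_mem p),
    inverts i e r ((s.K x).inv_mem q)] at h1
  simpa using h1

theorem sqrt {x : X} {κ : G} (a : κ ∈ s.K x) : ∃ j : ℕ, κ ^ j * κ ^ j = κ := by
  obtain ⟨j, e⟩ := k_odd hh
  refine ⟨j + 1, ?_⟩
  rw [← pow_add, show j + 1 + (j + 1) = s.k + 1 by omega, pow_succ, Kpow a, one_mul]

theorem T_tr {u u' : G} (a : Tv X u) (a' : Tv X u') : ∃ g : G, g * u * g⁻¹ = u' := by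
  obtain ⟨i, x, b⟩ := a
  obtain ⟨i', x', b'⟩ := a'
  obtain ⟨y, p, q⟩ := Iv_nb hh i b
  obtain ⟨y', p', q'⟩ := Iv_nb hh i' b'
  obtain ⟨g, rfl, rfl⟩ := s.etr p p'
  exact ⟨g, Iv_uq hh (i.conj g) i' p' ⟨conj_fix.2 b, conj_fix.2 q⟩ ⟨b', q'⟩⟩

theorem Htr {x y z z' : X} {u : G} (i : Iv u) (e : s.adj x y) (b : u ∈ S G x y) (n : s.nd x z) (n' : s.nd x z')
    (c : u • z = z) (c' : u • z' = z') : ∃ η ∈ S G x y, η • z = z' := by
  obtain ⟨p, p1, p2⟩ := s.ntr n n'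
  have f1 : (p * u * p⁻¹) • x = x := by have := (conj_fix (g := p)).2 b.1; rwa [p1] at this
  have f2 : (p * u * p⁻¹) • z' = z' := by have := (conj_fix (g := p)).2 c; rwa [p2] at this
  have k1 := Iv_mul hh i (i.conj p) b.1 f1
  obtain ⟨j, hj⟩ := sqrt hh k1
  have k2 : (u * (p * u * p⁻¹)) ^ j ∈ s.D x z' :=
    (s.D x z').pow_mem ⟨k1, show _ • z' = z' by rw [mul_smul, f2, c']⟩ j
  set δ := (u * (p * u * p⁻¹)) ^ j
  have k3 := Iv_inv hh i b.1 k2.1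
  have k4 : δ * p * u * (δ * p)⁻¹ = u := by
    have : p * u * p⁻¹ = u * (δ * δ) := by rw [hj, ← mul_assoc, i.1, one_mul]
    calc δ * p * u * (δ * p)⁻¹ = δ * (p * u * p⁻¹) * δ⁻¹ := by group
      _ = δ * (u * δ * u⁻¹) * u := by rw [this]; group
      _ = u := by rw [k3]; group
  have k5 : (δ * p) • x = x := by rw [mul_smul, p1, Kfix k2.1]
  refine ⟨δ * p, ⟨k5, ?_⟩, by rw [mul_smul, p2]; exact k2.2⟩
  by_contra f
  refine i.2 (s.frob b.1 (adj_fix k5 e) e ?_ b.2 f)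
  nth_rewrite 1 [← k4]
  exact conj_fix.2 b.2

theorem cnt_x (x : X) : cn (fun u : G => Tv X u ∧ u • x = x) = s.k := by
  choose nb hn using fun u : G => show ∃ y, Iv u ∧ u • x = x → s.adj x y ∧ u • y = y from by
    by_cases a : Iv u ∧ u • x = x
    · obtain ⟨y, b⟩ := Iv_nb hh a.1 a.2; exact ⟨y, fun _ => b⟩
    · exact ⟨x, fun b => absurd b a⟩
  rw [← k_eq x]
  refine cn_bij nb (fun u a => (hn u ⟨a.1.1, a.2⟩).1) (fun u u' a a' e => ?_) fun y a => ?_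
  · exact Iv_uq hh a.1.1 a'.1.1 (hn u ⟨a.1.1, a.2⟩).1 ⟨a.2, (hn u ⟨a.1.1, a.2⟩).2⟩
      ⟨a'.2, e ▸ (hn u' ⟨a'.1.1, a'.2⟩).2⟩
  · obtain ⟨t, p, i⟩ := ex_t hh a
    refine ⟨t, ⟨⟨i, x, p.1⟩, p.1⟩, ?_⟩
    by_contra f
    exact i.2 (s.frob p.1 (hn t ⟨i, p.1⟩).1 a (hn t ⟨i, p.1⟩).2 p.2 f)

theorem dc (R : G → X → Prop) (hR : ∀ g u w, R u w ↔ R (g * u * g⁻¹) (g • w)) {t : G} (a : Tv X t) (x : X) :
    cn (Tv (G := G) X) * cn (R t) = Fintype.card X * cn (fun u => Tv X u ∧ R u x) := by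
  rw [← cn_true, ← cn_fib (fun p : G × X => Tv X p.1 ∧ R p.1 p.2) _ Prod.fst _ (fun _ b => b.1),
    cn_fib (fun p : G × X => Tv X p.1 ∧ R p.1 p.2) (fun _ => True) Prod.snd _ (fun _ _ => trivial)]
  · intro w _
    obtain ⟨g, rfl⟩ := s.tr w x
    refine cn_bij (fun p => g * p.1 * g⁻¹) (fun p b => ⟨b.1.1.conj g, b.2 ▸ (hR g _ _).1 b.1.2⟩)
      (fun p q b c e => Prod.ext (by simpa using e) (b.2.trans c.2.symm)) fun u b =>
      ⟨(g⁻¹ * u * g, w), ⟨⟨by simpa using b.1.conj g⁻¹, by simpa using (hR g⁻¹ _ _).1 b.2⟩, rfl⟩, by group⟩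
  · intro u b
    obtain ⟨g, rfl⟩ := T_tr hh b a
    rw [← cn_smul g (p := R u) (fun w => hR g u w)]
    exact cn_bij Prod.snd (fun p c => c.2 ▸ c.1.2) (fun p q c c' e => Prod.ext (c.2.trans c'.2.symm) e)
      (fun w c => ⟨(u, w), ⟨⟨b, c⟩, rfl⟩, rfl⟩)

omit hh in
theorem i_conj (g : G) (x y : X) :
    cn (fun u : G => Tv X u ∧ u • x = y) = cn (fun u : G => Tv X u ∧ u • g • x = g • y) :=
  cn_bij (fun u => g * u * g⁻¹) (fun u b => ⟨b.1.conj g, by rw [conj_smul, b.2]⟩) (fun _ _ _ _ e => by simpa using e)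
    fun u b => ⟨g⁻¹ * u * g, ⟨by simpa using b.1.conj g⁻¹, by simp [mul_smul, b.2]⟩, by group⟩

omit [Fintype X] hh in
theorem i_le (x y : X) : cn (fun u : G => Tv X u ∧ u • x = y) ≤ Nat.card (S G x y) :=
  cos_le _ _ fun _ _ b b' => swap_S b.1.1.1 b'.1.1.1 b.2 b'.2

theorem counts {t : G} (a : Tv X t) {x y z : X} (e : s.adj x y) (n : s.nd x z) :
    cn (fun w => s.adj w (t • w)) = cn (fun w : X => t • w = w) * cn (fun u : G => Tv X u ∧ u • x = y) ∧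
    cn (fun w => s.nd w (t • w)) * s.k =
      cn (fun w : X => t • w = w) * (s.l * cn (fun u : G => Tv X u ∧ u • x = z)) := by
  have e1 := dc hh (fun u w => u • w = w) (fun g u w => conj_fix.symm) a x
  have e2 := dc hh (fun u w => s.adj w (u • w)) (fun g u w => by rw [conj_smul, adj_iff]) a x
  have e3 := dc hh (fun u w => s.nd w (u • w)) (fun g u w => by rw [conj_smul, nd_iff]) a x
  rw [cnt_x hh] at e1
  rw [cn_fib (fun u : G => Tv X u ∧ s.adj x (u • x)) (s.adj x) (fun u : G => u • x) (cn (fun u : G => Tv X u ∧ u • x = y)) (fun _ b => b.2) (fun y' b => by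
    obtain ⟨g, p, rfl⟩ := s.etr e b
    rw [i_conj g x y, p]
    exact cn_congr fun u => ⟨fun c => ⟨c.1.1, c.2⟩, fun c => ⟨⟨c.1, c.2 ▸ b⟩, c.2⟩⟩), k_eq] at e2
  rw [cn_fib (fun u : G => Tv X u ∧ s.nd x (u • x)) (s.nd x) (fun u : G => u • x) (cn (fun u : G => Tv X u ∧ u • x = z)) (fun _ b => b.2) (fun y' b => by
    obtain ⟨g, p, rfl⟩ := s.ntr n b
    rw [i_conj g x z, p]
    exact cn_congr fun u => ⟨fun c => ⟨c.1.1, c.2⟩, fun c => ⟨⟨c.1, c.2 ▸ b⟩, c.2⟩⟩), l_eq] at e3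
  have p := cn_pos a
  constructor
  · refine Nat.eq_of_mul_eq_mul_left p ?_
    rw [e2, ← mul_assoc, ← mul_assoc, e1]
  · refine Nat.eq_of_mul_eq_mul_left p ?_
    rw [← mul_assoc, e3, ← mul_assoc, ← mul_assoc, e1]; ring

theorem f_even {t : G} (a : Iv t) : Even (cn (fun w : X => t • w = w)) := by
  choose nb hn using fun w : X => show ∃ y, t • w = w → s.adj w y ∧ t • y = y from by
    by_cases b : t • w = w
    · obtain ⟨y, c⟩ := Iv_nb hh a b; exact ⟨y, fun _ => c⟩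
    · exact ⟨w, fun c => absurd c b⟩
  refine cn_even _ nb (fun w b => (hn w b).2) (fun w b => (adj_ne (hn w b).1).symm) fun w b => ?_
  by_contra f
  exact a.2 (s.frob (hn w b).2 (hn _ (hn w b).2).1 (s.symm (hn w b).1) (hn _ (hn w b).2).2 b f)

theorem n_even : Even (Fintype.card X) := by
  obtain ⟨t, _, i⟩ := ex_t hh s.e0
  rw [← cn_true, cn_split _ (fun w : X => t • w = w)]
  simp only [true_and]
  exact (f_even hh i).add (cn_even _ (fun w => t • w) (fun w b e => b (MulAction.injective t e)) (fun w b => b)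
    (fun w _ => back i.1 rfl))

omit [Finite G] hh in
theorem n_split (t : G) : Fintype.card X =
    cn (fun w : X => t • w = w) + cn (fun w => s.adj w (t • w)) + cn (fun w => s.nd w (t • w)) := by
  rw [← cn_true, ← cn_or, ← cn_or]
  · exact cn_congr fun w => ⟨fun _ => (s.tri w (t • w)).elim (fun a => Or.inl (Or.inl a.symm))
      (fun a => a.elim (fun b => Or.inl (Or.inr b)) Or.inr), fun _ => trivial⟩
  · rintro w (a | a) b
    · exact b.1 a.symm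
    · exact b.2 a
  · exact fun w a b => adj_ne b a.symm

omit hh in
theorem f_eq {t : G} (t1 : t ≠ 1) {x y : X} (e : s.adj x y) (b : t ∈ S G x y) :
    cn (fun w : X => t • w = w) = 2 + cn (fun w => s.nd x w ∧ t • w = w) := by
  rw [cn_del (p := fun w : X => t • w = w) (a := x) b.1, cn_del (a := y) ⟨b.2, (adj_ne e).symm⟩]
  have : cn (fun w => (t • w = w ∧ w ≠ x) ∧ w ≠ y) = cn (fun w => s.nd x w ∧ t • w = w) :=
    cn_congr fun w => ⟨fun c => ⟨⟨c.1.2.symm, fun f => t1 (s.frob b.1 f e c.1.1 b.2 c.2)⟩, c.1.1⟩,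
      fun c => ⟨⟨c.2, c.1.1.symm⟩, fun f => c.1.2 (f ▸ e)⟩⟩
  omega

theorem phi_le (h1 : 1 < s.d) {x z w : X} (a : s.nd x z) (Fw : ∀ δ ∈ s.D x z, δ • w = w) {u : G} (i : Iv u)
    (b : u • w = w) :
    (2 * cn (fun w' => ((∀ δ ∈ s.D x z, δ • w' = w') ∧ u • w' = w') ∧ w' ≠ w) + 1) * s.d ≤ s.k := by
  have dk : s.d < s.k := by have := s.dsq; nlinarith
  by_cases ex : ∃ w', ((∀ δ ∈ s.D x z, δ • w' = w') ∧ u • w' = w') ∧ w' ≠ w
  swap
  · rw [cn_zero (fun p b => ex ⟨p, b⟩)]; omega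
  obtain ⟨z1, p1⟩ := ex
  obtain ⟨y, e, c⟩ := Iv_nb hh i b
  have le : s.D x z ≤ s.K w := fun δ r => Kloc r.1 (Fw δ r)
  obtain ⟨κ, k1, k2⟩ : ∃ κ ∈ s.K w, κ ∉ s.D x z := by
    by_contra! f
    have := Subgroup.card_le_of_le (show s.K w ≤ s.D x z from f)
    rw [card_K, d_eq a] at this; omega
  let N : G → Prop := fun η => η ∈ S G w y ∧ (∀ δ ∈ s.D x z, η * δ * η⁻¹ ∈ s.D x z) ∧
    ∀ δ ∈ s.D x z, η⁻¹ * δ * η ∈ s.D x z
  have c1 : cn N * s.d ≤ cn (fun g => g ∈ s.K w ∧ g ∉ s.D x z) := by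
    rw [← d_eq a, ← cn_mem, ← cn_prod]
    refine cn_le (fun p : G × G => p.2 * (p.1 * κ * p.1⁻¹)) (fun p r => ⟨(s.K w).mul_mem (le r.2) (Knorm r.1.1.1 k1),
      fun f => k2 ?_⟩) ?_
    · simpa [mul_assoc] using r.1.2.2 _ ((s.D x z).mul_mem ((s.D x z).inv_mem r.2) f)
    · rintro ⟨η, δ⟩ ⟨η', δ'⟩ r r' f
      simp only at f r r'
      have g1 : η'⁻¹ * η = 1 := by
        by_contra g
        refine k2 (modD e _ le ((S G w y).mul_mem ((S G w y).inv_mem r'.1.1) r.1.1) g (fun ε t => ?_) k1 ?_)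
        · simpa [mul_assoc] using r'.1.2.2 _ (r.1.2.1 ε t)
        · have : η'⁻¹ * η * κ * (η'⁻¹ * η)⁻¹ * κ⁻¹ = η'⁻¹ * (δ⁻¹ * δ') * η' := by
            calc _ = η'⁻¹ * δ⁻¹ * (δ * (η * κ * η⁻¹)) * η' * κ⁻¹ := by group
              _ = _ := by rw [f]; group
          rw [this]; exact r'.1.2.2 _ ((s.D x z).mul_mem ((s.D x z).inv_mem r.2) r'.2)
      obtain rfl : η' = η := by simpa [inv_mul_eq_one] using g1
      rw [mul_right_cancel f]
  have c2 : cn (fun w' => ((∀ δ ∈ s.D x z, δ • w' = w') ∧ u • w' = w') ∧ w' ≠ w) * 2 ≤ cn N := by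
    refine cn_fib_ge N _ (fun η => η • z1) 2 fun z2 p2 => ?_
    have d1 := DF a h1 Fw p1.1.1 p1.2.symm
    have d2 := DF a h1 Fw p2.1.1 p2.2.symm
    have nn : ∀ η ∈ S G w y, η • z1 = z2 → N η := fun η r t => ⟨r, fun δ f => by
        rw [← d1.2] at f; rw [← d2.2]
        exact ⟨Knorm r.1 f.1, by rw [← t]; exact conj_fix.2 f.2⟩, fun δ f => by
        rw [← d2.2] at f; rw [← d1.2]
        refine ⟨by simpa using Knorm ((S G w y).inv_mem r).1 f.1, ?_⟩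
        show _ • z1 = z1
        rw [mul_smul, mul_smul, t, f.2, ← t, inv_smul_smul]⟩
    obtain ⟨η, r, t⟩ := Htr hh i e ⟨b, c⟩ d1.1 d2.1 p1.1.2 p2.1.2
    have t' : (η * u) • z1 = z2 := by rw [mul_smul, p1.1.2, t]
    rw [cn_del (a := η) ⟨nn η r t, t⟩]
    have := cn_pos (p := fun g => (N g ∧ g • z1 = z2) ∧ g ≠ η) (a := η * u)
      ⟨⟨nn _ ((S G w y).mul_mem r ⟨b, c⟩) t', t'⟩, by simpa using i.2⟩
    omega
  have c3 := cn_split (fun g => g ∈ s.K w) (fun g => g ∈ s.D x z)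
  rw [cn_mem, card_K, cn_congr (q := fun g => g ∈ s.D x z) (fun g => ⟨fun r => r.2, fun r => ⟨le r, r⟩⟩), cn_mem,
    d_eq a] at c3
  nlinarith

theorem big_cnt (h1 : 1 < s.d) (c : ℕ) (hc : ∀ (w : X) (u : G), (∀ δ ∈ s.D s.x0 s.z0, δ • w = w) → Iv u → u • w = w →
    cn (fun w' => ((∀ δ ∈ s.D s.x0 s.z0, δ • w' = w') ∧ u • w' = w') ∧ w' ≠ w) ≤ c) : s.k ≤ s.d * (c + 2) := by
  have a := s.n0
  set x := s.x0
  set z := s.z0
  let F : X → Prop := fun w => ∀ δ ∈ s.D x z, δ • w = w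
  have Fx : F x := fun δ b => Kfix b.1
  let U : G → Prop := fun u => (Iv u ∧ ∃ w, F w ∧ u • w = w) ∧ u • x ≠ x
  let P : X × G → Prop := fun p => (F p.1 ∧ p.1 ≠ x) ∧ Iv p.2 ∧ p.2 • p.1 = p.1 ∧ p.2 • x ≠ x
  have iv : ∀ u, U u → ∀ δ ∈ s.D x z, u * δ * u⁻¹ = δ⁻¹ :=
    fun u ⟨⟨i, w, p, q⟩, _⟩ δ r => Iv_inv hh i q (Kloc r.1 (p δ r))
  have c1 : cn U ≤ cn (fun w => F w ∧ w ≠ x) * s.d := by
    have pres : ∀ u, U u → F (u • x) := fun u b δ r => by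
      have := iv u b _ ((s.D x z).inv_mem r)
      rw [inv_inv] at this
      rw [← this, conj_smul, Fx _ ((s.D x z).inv_mem r)]
    refine cn_fib_le U _ (fun u => u • x) _ (fun u b => ⟨pres u b, b.2⟩) fun z' b => ?_
    rw [← d_eq (DF a h1 Fx b.1 b.2.symm).1]
    refine cos_le _ _ fun u u' r r' => ?_
    have sw := swap_S r.1.1.1.1 r'.1.1.1.1 r.2 r'.2
    obtain ⟨δ, p, q⟩ := exD a h1
    refine ⟨cenK sw.1 p.1 q ?_, sw.2⟩
    rw [inv2 r.1.1.1.1]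
    exact mul_com (iv u r.1 _ ((s.D x z).inv_mem p)) (iv u' r'.1 _ p)
  have c2 : cn P ≤ cn U * (c + 1) := by
    refine cn_fib_le P U Prod.snd _ (fun p b => ⟨⟨b.2.1, p.1, b.1.1, b.2.2.1⟩, b.2.2.2⟩) ?_
    rintro u ⟨⟨i, w, p, q⟩, _⟩
    refine le_trans (cn_le (q := fun w' => F w' ∧ u • w' = w') Prod.fst (fun r b => ⟨b.1.1.1, b.2 ▸ b.1.2.2.1⟩)
      (fun r r' b b' e => Prod.ext e (b.2.trans b'.2.symm))) ?_
    rw [cn_del (a := w) ⟨p, q⟩]
    exact Nat.add_le_add_right (hc w u p i q) 1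
  have c3 : cn (fun w => F w ∧ w ≠ x) * (s.k - s.d) ≤ cn P := by
    refine cn_fib_ge P _ Prod.fst _ fun w b => ?_
    have e1 := cn_split (fun u : G => Tv X u ∧ u • w = w) (fun u => u • x = x)
    rw [cnt_x hh] at e1
    have e2 : cn (fun u : G => (Tv X u ∧ u • w = w) ∧ u • x = x) ≤ s.d := by
      rw [← d_eq (DF a h1 b.1 Fx b.2).1]
      refine cos_le _ _ fun u u' r r' => ?_
      rw [inv2 r.1.1.1.1]
      exact ⟨Iv_mul hh r.1.1.1 r'.1.1.1 r.1.2 r'.1.2, show _ • x = x by rw [mul_smul, r'.2, r.2]⟩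
    have e3 : cn (fun u : G => (Tv X u ∧ u • w = w) ∧ ¬ u • x = x) ≤ cn (fun p => P p ∧ p.1 = w) :=
      cn_le (fun u => (w, u)) (fun u r => ⟨⟨b, r.1.1.1, r.1.2, r.2⟩, rfl⟩) (fun _ _ _ _ e => congrArg Prod.snd e)
    omega
  have c0 := cn_pos (p := fun w => F w ∧ w ≠ x) (a := z) ⟨fun δ b => b.2, a.1.symm⟩
  have : s.k - s.d ≤ s.d * (c + 1) := by
    refine Nat.le_of_mul_le_mul_left ?_ c0
    rw [← mul_assoc]
    exact c3.trans (c2.trans (Nat.mul_le_mul_right _ c1))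
  have : s.d * (c + 2) = s.d * (c + 1) + s.d := by ring
  omega

theorem big_d (h1 : 1 < s.d) : Fintype.card X = 16 ∧ s.k * s.h ∣ 2 ^ 3 * 3 ^ 2 := by
  have ko := k_odd hh
  have dsq := s.dsq
  obtain ⟨k', hk⟩ := s.d_dvd_k
  have do' : Odd s.d := (Nat.odd_mul.1 (hk ▸ ko)).1
  have d3 : 3 ≤ s.d := by obtain ⟨j, e⟩ := do'; omega
  have dk : s.d ≤ k' := by rw [hk] at dsq; exact Nat.le_of_mul_le_mul_left dsq s.d_pos
  have me : Even s.m := by
    by_contra f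
    have := big_cnt hh h1 0 fun w u p i q => le_of_eq (cn_zero fun w' r => f ?_)
    · nlinarith
    · rw [← m_eq (DF s.n0 h1 p r.1.1 r.2.symm).1]; exact even_of_iv _ ⟨q, r.1.2⟩ i
  have k3 : k' ≤ 3 := by
    have := big_cnt hh h1 ((k' - 1) / 2) fun w u p i q => by
      have := phi_le hh h1 s.n0 p i q
      rw [hk, mul_comm s.d] at this
      have := Nat.le_of_mul_le_mul_right this s.d_pos
      omega
    rw [hk] at this
    have := Nat.le_of_mul_le_mul_left this s.d_pos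
    omega
  have e3 : s.d = 3 := by omega
  have e9 : s.k = 9 := by rw [hk, e3, show k' = 3 by omega]
  obtain ⟨c, hc⟩ := s.h_dvd
  have h8 : s.h ∣ 8 := ⟨c, by rw [mul_comm]; omega⟩
  refine ⟨?_, by rw [e9, mul_comm]; exact Nat.mul_dvd_mul h8 dvd_rfl⟩
  obtain ⟨b, hb⟩ := s.d_dvd_m
  obtain ⟨b', hb'⟩ : Even b := by
    rw [hb, e3] at me; simpa [Nat.even_mul, show ¬ Even 3 by decide] using me
  have lm := s.lm_eq
  have pa := s.param
  have ne := n_even hh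
  obtain ⟨e, he⟩ := s.disc ne
  obtain ⟨r, hr⟩ := s.h_lam
  have := s.mu_pos; have := s.mu_lt; have := s.l_pos; have := s.h_two
  rw [s.n_eq] at ne ⊢
  obtain ⟨l', hl⟩ : Even s.l := by rw [e9] at ne; obtain ⟨j, f⟩ := ne; exact ⟨j - 5, by omega⟩
  rw [hb, hb', e3, e9, hl] at lm
  rw [e9] at pa he ⊢
  have h8' := Nat.le_of_dvd (by norm_num) h8
  have q : 4 * (l' * b') = 3 * s.h := by nlinarith
  have q2 : l' ∣ 6 ∧ (s.h = 4 → l' ∣ 3) := by
    generalize s.h = h at *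
    interval_cases h <;> first | omega | skip
    · exact ⟨⟨2 * b', by nlinarith⟩, fun _ => ⟨b', by omega⟩⟩
    · exact ⟨⟨b', by omega⟩, fun f => by omega⟩
  have l6 := Nat.le_of_dvd (by norm_num) q2.1
  have h48 : s.h = 4 ∨ s.h = 8 := by
    generalize s.h = h at *
    interval_cases h <;> omega
  rw [hl] at pa ⊢
  interval_cases l'
  · omega
  · omega
  · rcases h48 with f | f
    · have := q2.2 f; omega
    · rw [f] at hr; omega
  · rfl
  · omega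
  · omega
  · rcases h48 with f | f
    · have := q2.2 f; omega
    · rw [f] at hr
      have l0 : s.lam = 0 := by omega
      have m6 : s.mu = 6 := by omega
      rw [l0, m6] at he
      exfalso
      have : e ^ 2 = 48 := by rw [← he]; norm_num
      have : e ≤ 7 := by nlinarith
      have : -7 ≤ e := by nlinarith
      interval_cases e <;> omega

end Rk

end H326.Rf
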