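import Cfsg.Agent.H26.Rf4

/-! Rank three groups with Frobenius point stabiliser whose kernel acts freely: valency `v` inside an orbit of the
kernel, the orbit inequality `orb_ineq` and the case of two orbits (`two_orb`). -/

set_option autoImplicit false

namespace H326.Rf

open Finset H326.Yk MulAction

theorem sum_ind {α : Type*} [Fintype α] (p : α → Prop) [DecidablePred p] (c : ℤ) : ∑ w, (if p w then c else 0) = cn p * c := by
  rw [cn_dec, ← sum_filter, sum_const, nsmul_eq_mul]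

variable {G X : Type*} [Group G] [MulAction G X]

namespace Rk

/-- valency inside an orbit of the kernel -/
noncomputable def v (s : Rk G X) : ℕ := cn (fun κ => κ ∈ s.K s.x0 ∧ s.adj s.z0 (κ • s.z0))

variable {s : Rk G X}

theorem v_eq {x z : X} (a : s.nd x z) : cn (fun κ => κ ∈ s.K x ∧ s.adj z (κ • z)) = s.v := by
  obtain ⟨g, e, f⟩ := s.ntr a s.n0
  rw [v, ← f, ← e]
  exact cn_bij (fun u => g * u * g⁻¹) (fun u b => ⟨Kconj' g b.1, by rw [conj_smul, adj_iff]; exact b.2⟩)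
    (fun _ _ _ _ e => by simpa using e) fun u b => ⟨g⁻¹ * u * g, ⟨by simpa using Kconj' g⁻¹ b.1, by
      rw [← adj_iff g]; simpa [mul_smul] using b.2⟩, by group⟩

variable [Finite G] [Fintype X] (h1 : s.d = 1)
include h1

theorem exa : ∃ a, s.l = s.k * a ∧ s.h = a * s.m := by
  obtain ⟨a, e⟩ := free_dvd (s.K s.x0) (s.nd s.x0) (fun g a u b => nd_fix (Kfix a) b)
    (fun g a u b e => d_one h1 a e b.1)
  rw [card_K, l_eq] at e
  have lm := s.lm_eq
  rw [e, mul_assoc] at lm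
  exact ⟨a, e, (Nat.eq_of_mul_eq_mul_left (by have := s.k_three; omega) lm).symm⟩

theorem Kinj {x w : X} {κ κ' : G} (a : κ ∈ s.K x) (a' : κ' ∈ s.K x) (n : x ≠ w) (e : κ • w = κ' • w) : κ = κ' := by
  have := d_one h1 ((s.K x).mul_mem ((s.K x).inv_mem a') a) (by rw [mul_smul, inv_smul_eq_iff]; exact e) n
  exact (by simpa [inv_mul_eq_one] using this : κ' = κ).symm

theorem Kcn {x w : X} (n : x ≠ w) (p : X → Prop) :
    cn (fun κ => κ ∈ s.K x ∧ p (κ • w)) = cn (fun u => p u ∧ ∃ κ ∈ s.K x, κ • w = u) :=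
  cn_bij (fun κ => κ • w) (fun κ a => ⟨a.2, κ, a.1, rfl⟩) (fun _ _ a a' e => Kinj h1 a.1 a'.1 n e)
    fun _ ⟨b, κ, c, e⟩ => ⟨κ, ⟨c, e ▸ b⟩, e⟩

theorem Korb {x w : X} (n : x ≠ w) : cn (fun u => ∃ κ ∈ s.K x, κ • w = u) = s.k := by
  rw [orb_free _ _ (fun g a e => d_one h1 a e n), card_K]

theorem m_v : s.m ∣ s.v := by
  have a := s.n0
  rw [← v_eq a, Kcn h1 a.1, ← m_eq a]
  refine free_dvd _ _ ?_ ?_
  · rintro g b _ ⟨c, κ, p, rfl⟩
    exact ⟨adj_fix b.2 c, _, Knorm b.1 p, by nth_rewrite 1 [← b.2]; exact conj_smul _ _ _⟩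
  · rintro g b _ ⟨c, κ, p, rfl⟩ e
    have := Kinj h1 (Knorm b.1 p) p a.1 (by nth_rewrite 1 [← b.2]; rw [conj_smul, e])
    refine d_one h1 (cenK b.1 p (fun f => s.irr s.z0 (by simpa [f] using c)) ?_) b.2 a.1
    nth_rewrite 2 [← this]; group

theorem orb_ineq {a : ℕ} (ha : s.l = s.k * a) (b : ℤ) : ((s.mu : ℤ) - b) ^ 2 + (s.v - b) ^ 2 ≤
    s.k + s.lam * s.v + s.mu * (s.k - 1 - s.v) - 2 * b * s.k + (1 + a) * b ^ 2 := by
  classical
  have n0 := s.n0
  set x := s.x0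
  set z := s.z0
  haveI : Fintype G := Fintype.ofFinite G
  let I : Prop → ℤ := fun p => if p then 1 else 0
  let q : X → ℤ := fun w => ∑ κ : G, I (κ ∈ s.K x ∧ s.adj z (κ • w))
  have hq : ∀ w, q w = cn (fun κ => κ ∈ s.K x ∧ s.adj z (κ • w)) := fun w => by
    rw [← mul_one (cn _ : ℤ), ← sum_ind]
    exact sum_congr rfl fun κ _ => by simp only [I]; congr
  have cK : cn (fun κ => κ ∈ s.K x) = s.k := by rw [cn_mem, card_K]
  have S1 : ∑ w, q w = s.k * s.k := by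
    simp only [q]
    rw [sum_comm, ← cK, ← sum_ind]
    refine sum_congr rfl fun κ _ => ?_
    by_cases c : κ ∈ s.K x
    · simp only [I, c, true_and, if_true]
      rw [sum_ind, mul_one, cK, ← k_eq z, cn_smul κ (q := s.adj z) (fun w => Iff.rfl)]
    · simp [I, c]
  set E : ℤ := s.k + s.lam * s.v + s.mu * (s.k - 1 - s.v) with hE
  have SE : ∑ κ : G, (if κ ∈ s.K x then (cn (fun w => s.adj z w ∧ s.adj (κ • z) w) : ℤ) else 0) = E := by
    have : ∀ κ : G, (if κ ∈ s.K x then (cn (fun w => s.adj z w ∧ s.adj (κ • z) w) : ℤ) else 0) =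
        (if κ = 1 then (s.k : ℤ) - s.mu else 0) + (if κ ∈ s.K x ∧ s.adj z (κ • z) then (s.lam : ℤ) - s.mu else 0) +
          (if κ ∈ s.K x then (s.mu : ℤ) else 0) := by
      intro κ
      by_cases c : κ ∈ s.K x
      · by_cases c1 : κ = 1
        · subst c1; simp [s.irr, (s.K x).one_mem, k_eq]
        · by_cases c2 : s.adj z (κ • z)
          · simp [c, c1, c2, lam_eq c2]
          · simp [c, c1, c2, mu_eq (show s.nd z (κ • z) from ⟨fun e => c1 (d_one h1 c e.symm n0.1), c2⟩)]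
      · simp [c, show κ ≠ 1 from fun e => c (e ▸ (s.K x).one_mem)]
    rw [sum_congr rfl (fun κ _ => this κ), sum_add_distrib, sum_add_distrib, sum_ind, sum_ind, sum_ind, cn_one, cK,
      v_eq n0, hE]
    push_cast; ring
  have S2 : ∑ w, q w ^ 2 = s.k * E := by
    simp only [q, sq, sum_mul_sum]
    rw [sum_comm, ← cK, ← sum_ind]
    refine sum_congr rfl fun κ _ => ?_
    rw [sum_comm]
    by_cases c : κ ∈ s.K x
    · rw [if_pos c, ← SE]
      refine Eq.trans ?_ (((Equiv.inv G).trans (Equiv.mulLeft κ)).sum_comp _)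
      refine sum_congr rfl fun κ' _ => ?_
      simp only [Equiv.trans_apply, Equiv.inv_apply, Equiv.coe_mulLeft]
      by_cases c' : κ' ∈ s.K x
      · rw [if_pos ((s.K x).mul_mem c ((s.K x).inv_mem c')), ← mul_one (cn _ : ℤ),
          ← cn_smul κ (p := fun w => s.adj z (κ • w) ∧ s.adj z (κ' • w)) (fun w => by
            rw [mul_smul, adj_iff, ← adj_iff κ' (κ'⁻¹ • z), smul_inv_smul]), ← sum_ind]
        refine sum_congr rfl fun w _ => ?_
        simp only [I, c, c', true_and]; split_ifs <;> simp_all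
      · rw [if_neg (fun e => c' (by simpa using (s.K x).mul_mem ((s.K x).inv_mem e) c))]
        simp [I, c']
    · simp [I, c]
  have lo : ∀ w, (if w = x then b ^ 2 else 0) + (if s.adj x w then ((s.mu : ℤ) - b) ^ 2 else 0) +
      (if ∃ κ ∈ s.K x, κ • z = w then ((s.v : ℤ) - b) ^ 2 else 0) ≤ (q w - b) ^ 2 := by
    intro w
    by_cases c3 : ∃ κ ∈ s.K x, κ • z = w
    · obtain ⟨κ, c, rfl⟩ := id c3
      have n := nd_fix (Kfix c) n0
      rw [if_neg n.1.symm, if_neg n.2, if_pos c3, hq, ← v_eq n0, cn_bij (p := fun κ' => κ' ∈ s.K x ∧ s.adj z (κ' • κ • z))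
        (q := fun κ => κ ∈ s.K x ∧ s.adj z (κ • z))
        (fun κ' => κ' * κ) (fun κ' p => ⟨(s.K x).mul_mem p.1 c, by rw [mul_smul]; exact p.2⟩)
        (fun _ _ _ _ e => mul_right_cancel e) (fun κ' p => ⟨κ' * κ⁻¹, ⟨(s.K x).mul_mem p.1 ((s.K x).inv_mem c), by
          simpa [mul_smul] using p.2⟩, by group⟩)]
      simp
    rw [if_neg c3, add_zero]
    rcases s.tri x w with c | c | c
    · subst c
      rw [if_pos rfl, if_neg (s.irr _), hq, cn_zero (fun κ p => n0.2 (s.symm (by rw [← Kfix p.1]; exact p.2)))]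
      simp
    · rw [if_neg (adj_ne c).symm, if_pos c, hq, Kcn h1 (adj_ne c), ← mu_eq n0,
        cn_congr (p := fun u => s.adj z u ∧ ∃ κ ∈ s.K x, κ • w = u) (q := fun w => s.adj x w ∧ s.adj z w)
        (fun u => ⟨fun ⟨p, κ, r, e⟩ => ⟨e ▸ adj_fix (Kfix r) c, p⟩, fun p => ⟨p.2, s.Kreg c p.1⟩⟩)]
      simp
    · rw [if_neg c.1.symm, if_neg c.2]; positivity
  have := sum_le_sum (s := univ) fun w _ => lo w
  rw [sum_add_distrib, sum_add_distrib, sum_ind, sum_ind, sum_ind, cn_one, k_eq, Korb h1 n0.1,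
    sum_congr rfl (fun w _ => sub_sq (q w) b), sum_add_distrib, sum_sub_distrib, S2, ← sum_mul, ← mul_sum, S1,
    sum_const, card_univ, s.n_eq, ha, nsmul_eq_mul] at this
  have k0 : (0 : ℤ) < s.k := by have := s.k_three; omega
  push_cast at this
  refine le_of_mul_le_mul_left ?_ k0
  linarith

theorem two_orb (ha : s.l = s.k * 2) (l0 : s.lam = 0) (hm : s.mu = s.m) (hk : s.k = 2 * s.m + 1) : s.m ≤ 2 := by
  have i := orb_ineq h1 ha ((s.m : ℤ) + 1 - s.v)
  rw [l0, hm, hk] at i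
  push_cast at i
  by_contra f
  have v0 : s.v = 0 := by
    by_contra e
    have := Nat.le_of_dvd (Nat.pos_of_ne_zero e) (m_v h1)
    have : (3 : ℤ) ≤ s.m := by omega
    have : (s.m : ℤ) ≤ s.v := by omega
    nlinarith
  have n0 := s.n0
  set x := s.x0
  set z := s.z0
  have nv : ∀ w κ, s.nd x w → κ ∈ s.K x → ¬ s.adj w (κ • w) := fun w κ a b c => by
    have := cn_pos (p := fun κ => κ ∈ s.K x ∧ s.adj w (κ • w)) ⟨b, c⟩
    rw [v_eq a] at this; omega
  let O : X → Prop := fun w => s.nd x w ∧ ¬ ∃ κ ∈ s.K x, κ • z = w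
  have cO : cn O = s.k := by
    have := cn_split (s.nd x) (fun w => ∃ κ ∈ s.K x, κ • z = w)
    rw [l_eq, cn_congr (q := fun w => ∃ κ ∈ s.K x, κ • z = w) (fun w => ⟨fun p => p.2, fun ⟨κ, p, e⟩ =>
      ⟨e ▸ nd_fix (Kfix p) n0, κ, p, e⟩⟩), Korb h1 n0.1] at this
    simp only [O]; omega
  have trO : ∀ w w', O w → O w' → ∃ κ, κ ∈ s.K x ∧ κ • w = w' := fun w w' a a' =>
    cn_surj (p := fun κ => κ ∈ s.K x) (q := O) (fun κ => κ • w) (fun κ b => ⟨nd_fix (Kfix b) a.1, fun ⟨κ', c, e⟩ =>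
      a.2 ⟨κ⁻¹ * κ', (s.K x).mul_mem ((s.K x).inv_mem b) c, by rw [mul_smul, e, inv_smul_smul]⟩⟩)
      (fun _ _ b b' e => Kinj h1 b b' a.1.1 e) (by rw [cO, cn_mem, card_K]) w' a'
  have c2 : 2 ≤ cn (fun w => O w ∧ ¬ s.adj z w) := by
    have := cn_split O (s.adj z)
    have := mu_add n0
    have : cn (fun w => O w ∧ s.adj z w) ≤ cn (fun w => s.nd x w ∧ s.adj z w) := cn_mono fun w a => ⟨a.1.1, a.2⟩
    omega
  have same : ∀ w, O w ∧ ¬ s.adj z w → ∀ y, s.adj x y → (s.adj z y ↔ s.adj w y) := by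
    intro w a
    have n : s.nd z w := ⟨fun e => a.1.2 ⟨1, (s.K x).one_mem, by simpa using e⟩, a.2⟩
    have sub : ∀ y, s.adj z y ∧ s.adj w y → s.adj x y := by
      intro y b
      rcases s.tri x y with c | c | c
      · exact absurd (s.symm (c ▸ b.1)) n0.2
      · exact c
      · by_cases e : ∃ κ ∈ s.K x, κ • z = y
        · obtain ⟨κ, p, rfl⟩ := e; exact absurd b.1 (nv z κ n0 p)
        · obtain ⟨κ, p, rfl⟩ := trO w y a.1 ⟨c, e⟩; exact absurd b.2 (nv w κ a.1.1 p)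
    intro y b
    constructor
    · intro c
      obtain ⟨u, p, e⟩ := cn_surj (p := fun y => s.adj z y ∧ s.adj w y) (q := fun y => s.adj x y ∧ s.adj z y) id
        (fun u p => ⟨sub u p, p.1⟩) (fun _ _ _ _ e => e) (by rw [mu_eq n, mu_eq n0]) y ⟨b, c⟩
      exact e ▸ p.2
    · intro c
      obtain ⟨u, p, e⟩ := cn_surj (p := fun y => s.adj z y ∧ s.adj w y) (q := fun y => s.adj x y ∧ s.adj w y) id
        (fun u p => ⟨sub u p, p.2⟩) (fun _ _ _ _ e => e) (by rw [mu_eq n, mu_eq a.1.1]) y ⟨b, c⟩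
      exact e ▸ p.1
  obtain ⟨w, a⟩ := cn_ex (p := fun w => O w ∧ ¬ s.adj z w) (by omega)
  rw [cn_del (p := fun w => O w ∧ ¬ s.adj z w) a] at c2
  obtain ⟨w', a', ne⟩ := cn_ex (p := fun u => (O u ∧ ¬ s.adj z u) ∧ u ≠ w) (by omega)
  obtain ⟨κ, p, rfl⟩ := trO w w' a.1 a'.1
  have le : Subgroup.zpowers κ ≤ s.K x := Subgroup.zpowers_le_of_mem p
  have dv := free_dvd (Subgroup.zpowers κ) (fun y => s.adj x y ∧ s.adj z y) (fun g b y c => by
    obtain ⟨j, rfl⟩ := (mem_powers_iff_mem_zpowers.2 b : g ∈ Submonoid.powers κ)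
    induction j with
    | zero => simpa using c
    | succ j ih =>
      have c' := ih (Subgroup.pow_mem _ (Subgroup.mem_zpowers κ) j)
      simp only [pow_succ', mul_smul]
      exact ⟨adj_fix (Kfix p) c'.1, (same _ a' _ (adj_fix (Kfix p) c'.1)).2 (s.inv κ ((same _ a _ c'.1).1 c'.2))⟩)
    (fun g b y c e => Kfree (le b) c.1 e)
  have dk := Subgroup.card_dvd_of_le le
  rw [card_K, hk] at dk
  rw [mu_eq n0, hm] at dv
  have := Subgroup.eq_bot_of_card_eq _ (Nat.dvd_one.1 ((Nat.dvd_add_right (dv.mul_left 2)).1 dk))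
  rw [Subgroup.zpowers_eq_bot] at this
  exact ne (by rw [this, one_smul])

end Rk

end H326.Rf
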