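import Cfsg.Agent.H26.Rf5

/-! Rank three groups with Frobenius point stabiliser whose kernel acts freely: the parameters (`Rk.small_d`). -/

set_option autoImplicit false

namespace H326.Rf

open Finset H326.Yk MulAction

variable {G X : Type*} [Group G] [MulAction G X]

namespace Rk

variable {s : Rk G X} [Finite G] [Fintype X] (hh : Even s.h) (h1 : s.d = 1)
include hh h1

theorem M_uq {x z : X} (n : x ≠ z) {t t' : G} (i : Iv t) (i' : Iv t') (a : t ∈ S G x z) (a' : t' ∈ S G x z) :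
    t = t' := by
  have := d_one h1 (Iv_mul hh i i' a.1 a'.1) (by rw [mul_smul, a'.2, a.2]) n
  rw [← inv2 i.1, inv_eq_of_mul_eq_one_right this]

theorem ab_lem {x z : X} (n : s.nd x z) (me : Even s.m) {i : ℕ} (hi : cn (fun u : G => Tv X u ∧ u • x = z) = i)
    (c : 3 * s.m < 4 * i ∨ (s.m = 4 ∧ s.m < 2 * i)) : s.m ≤ i := by
  have mp := s.m_pos
  have c2 : s.m < 2 * i := by omega
  obtain ⟨u, hu, ux⟩ := cn_ex (p := fun u : G => Tv X u ∧ u • x = z) (by omega)
  have uz := back hu.1.1 ux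
  set M := S G x z with hM
  have cM : Nat.card M = s.m := m_eq n
  obtain ⟨t, tM, it⟩ := ex_iv M (by rwa [cM])
  let I : G → Prop := fun g => g ∈ M ∧ Tv X (u * g)
  have cI : cn I = i := by
    rw [← hi]
    exact cn_bij (fun g => u * g) (fun g a => ⟨a.2, by rw [mul_smul, a.1.1, ux]⟩) (fun _ _ _ _ e => mul_left_cancel e)
      fun v a => ⟨u⁻¹ * v, ⟨swap_S hu.1.1 a.1.1.1 ux a.2, by simpa using a.1⟩, by group⟩
  have iv : ∀ g, I g → u * g * u⁻¹ = g⁻¹ := fun g a => by
    rw [inv2 hu.1.1]; exact eq_inv_of_mul_eq_one_left (by rw [mul_assoc]; exact a.2.1.1)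
  have com : ∀ g ∈ M, ∀ g' ∈ M, g * g' = g' * g := by
    rcases c with c | c
    · have z1 : ∀ g, I g → ∀ e ∈ M, g * e = e * g := by
        intro g a e b
        have e1 := cn_split I (fun e => I (g * e))
        have e2 : cn (fun e => I (g * e)) = i := by
          rw [← cI]
          exact cn_bij (fun e => g * e) (fun _ p => p) (fun _ _ _ _ e => mul_left_cancel e)
            fun v p => ⟨g⁻¹ * v, by simpa using p, by group⟩
        have e3 : cn (fun e => (I e ∧ ¬ I (g * e)) ∨ I (g * e)) ≤ s.m := by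
          rw [← cM, ← cn_mem]
          exact cn_mono fun e p => p.elim (fun q => q.1.1) fun q => by simpa using M.mul_mem (M.inv_mem a.1) q.1
        rw [cn_or _ _ (fun e p => p.2)] at e3
        have e4 : cn (fun e => I e ∧ I (g * e)) ≤ Nat.card ↥(M ⊓ Subgroup.centralizer {g}) := by
          rw [← cn_mem]
          refine cn_mono fun e p => ⟨p.1.1, Subgroup.mem_centralizer_singleton_iff.2 ?_⟩
          have := iv _ p.2
          rw [show u * (g * e) * u⁻¹ = (u * g * u⁻¹) * (u * e * u⁻¹) by group, iv g a, iv e p.1, ← mul_inv_rev,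
            inv_inj] at this
          exact this
        have := big_sub (M ⊓ Subgroup.centralizer {g}) M inf_le_left (by omega)
        rw [← this] at b
        exact (Subgroup.mem_centralizer_singleton_iff.1 b.2).symm
      have e4 : i ≤ Nat.card ↥(M ⊓ Subgroup.centralizer (M : Set G)) := by
        rw [← cn_mem, ← cI]
        exact cn_mono fun g p => ⟨p.1, fun e b => (z1 g p e b).symm⟩
      have := big_sub (M ⊓ Subgroup.centralizer (M : Set G)) M inf_le_left (by omega)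
      intro g a g' a'
      have a2 : g' ∈ M ⊓ Subgroup.centralizer (M : Set G) := by rw [this]; exact a'
      exact a2.2 g a
    · haveI : Fact (Nat.Prime 2) := ⟨Nat.prime_two⟩
      have := IsPGroup.isMulCommutative_of_card_eq_prime_sq (p := 2) (G := M) (by rw [cM, c.1]; norm_num)
      exact fun g a g' a' => congrArg Subtype.val (this.is_comm.comm ⟨g, a⟩ ⟨g', a'⟩)
  let J : Subgroup G :=
    { carrier := {g | g ∈ M ∧ u * g * u⁻¹ = g⁻¹}
      one_mem' := ⟨M.one_mem, by simp⟩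
      mul_mem' := fun {a b} p q => ⟨M.mul_mem p.1 q.1, by
        rw [show u * (a * b) * u⁻¹ = (u * a * u⁻¹) * (u * b * u⁻¹) by group, p.2, q.2, com a p.1 b q.1, mul_inv_rev]⟩
      inv_mem' := fun {a} p => ⟨M.inv_mem p.1, by rw [← p.2]; nth_rewrite 1 [p.2]; group⟩ }
  have eJ : J = M := big_sub J M (fun g a => a.1) (by
    have : i ≤ Nat.card J := by rw [← cn_mem, ← cI]; exact cn_mono fun g p => ⟨p.1, iv g p⟩
    omega)
  have e1 := cn_split (fun g => g ∈ M) (fun g => Tv X (u * g))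
  rw [cn_mem, cM, show cn (fun g => g ∈ M ∧ Tv X (u * g)) = i from cI] at e1
  by_contra f
  obtain ⟨g, a, b⟩ := cn_ex (p := fun g => g ∈ M ∧ ¬ Tv X (u * g)) (by omega)
  have := cn_fib_le (fun e => e ∈ M) (fun g => g ∈ M ∧ ¬ Tv X (u * g)) (fun e => g * (e * e)) 2
    (fun e p => ⟨M.mul_mem a (M.mul_mem p p), fun q => b (by
      have r : e⁻¹ ∈ J := eJ ▸ M.inv_mem p
      have r2 : e * u = u * e⁻¹ := by
        have := r.2; rw [inv_inv] at this
        nth_rewrite 1 [← this]; group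
      have := q.conj e
      rwa [show e * (u * (g * (e * e))) * e⁻¹ = (e * u) * (g * e) by group, r2, com g a e p,
        show u * e⁻¹ * (e * g) = u * g by group] at this)⟩) (fun y _ => by
      haveI : Fact (Nat.Prime 2) := ⟨Nat.prime_two⟩
      have o : Nat.card (Subgroup.zpowers t) = 2 := by
        rw [Nat.card_zpowers]; exact orderOf_eq_prime (by rw [sq, it.1]) it.2
      rw [← o]
      refine cos_le _ _ fun e e' p p' => ?_
      have m1 := M.mul_mem (M.inv_mem p.1) p'.1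
      by_cases q : e⁻¹ * e' = 1
      · rw [q]; exact Subgroup.one_mem _
      · have sq : e * e = e' * e' := mul_left_cancel (p.2.trans p'.2.symm)
        rw [M_uq hh h1 n.1 ⟨by
          calc e⁻¹ * e' * (e⁻¹ * e') = e⁻¹ * (e' * e⁻¹) * e' := by group
            _ = (e * e)⁻¹ * (e' * e') := by rw [com e' p'.1 e⁻¹ (M.inv_mem p.1)]; group
            _ = 1 := by rw [sq]; group, q⟩ it m1 tM]
        exact Subgroup.mem_zpowers t)
  rw [cn_mem, cM] at this
  omega

theorem fix_a {a : ℕ} (ha : s.h = a * s.m) {x y z : X} (e : s.adj x y) (n : s.nd x z) {t : G} (i : Iv t)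
    (b : t ∈ S G x y) (c : t • z = z) : cn (fun w => s.nd x w ∧ t • w = w) = a := by
  have o := os (S G x y) z
  have : S G x y ⊓ stabilizer G z = S G x z := by
    ext g
    refine ⟨fun p => ⟨p.1.1, p.2⟩, fun p => ⟨⟨p.1, ?_⟩, p.2⟩⟩
    have := M_uq hh h1 n.1 (i.conj g) i ⟨by have := (conj_fix (g := g)).2 b.1; rwa [p.1] at this,
      by have := (conj_fix (g := g)).2 c; rwa [p.2] at this⟩ ⟨b.1, c⟩
    by_contra f
    refine i.2 (s.frob b.1 (adj_fix p.1 e) e ?_ b.2 f)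
    nth_rewrite 1 [← this]
    exact conj_fix.2 b.2
  rw [this, h_eq e, m_eq n, ha] at o
  rw [Nat.eq_of_mul_eq_mul_right s.m_pos o]
  refine cn_congr fun w => ⟨fun p => Htr hh i e b n p.1 c p.2, ?_⟩
  rintro ⟨g, p, rfl⟩
  have := Iv_uq hh (i.conj g) i e ⟨by have := (conj_fix (g := g)).2 b.1; rwa [p.1] at this,
    by have := (conj_fix (g := g)).2 b.2; rwa [p.2] at this⟩ b
  refine ⟨nd_fix p.1 n, ?_⟩
  nth_rewrite 1 [← this]
  exact conj_fix.2 c

theorem alpha {a : ℕ} (hl : s.l = s.k * a) {x y : X} (e : s.adj x y) {t : G} (i : Iv t) (b : t ∈ S G x y)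
    (fa : cn (fun w => s.nd x w ∧ t • w = w) = a) : cn (fun w => s.adj w (t • w)) = s.lam + a * s.v := by
  let R : X → Prop := fun w => t • w = w ∧ w ≠ x
  have cR : cn R = 1 + a := by
    have := f_eq i.2 e b
    rw [cn_del (p := fun w : X => t • w = w) (a := x) b.1, fa] at this
    simp only [R]; omega
  have ts : ∀ w κ, R w → κ ∈ s.K x → t • κ • w = κ⁻¹ • w := fun w κ p q => by
    rw [← inverts i e b q]; nth_rewrite 2 [← p.1]; rw [conj_smul]
  have inj : ∀ p p' : X × G, R p.1 ∧ p.2 ∈ s.K x → R p'.1 ∧ p'.2 ∈ s.K x → p.2 • p.1 = p'.2 • p'.1 → p = p' := by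
    rintro ⟨w, κ⟩ ⟨w', κ'⟩ p p' f
    simp only at p p' f
    have m := (s.K x).mul_mem ((s.K x).inv_mem p'.2) p.2
    have f1 : (κ'⁻¹ * κ) • w = w' := by rw [mul_smul, f, inv_smul_smul]
    have f2 := ts w _ p.1 m
    rw [f1, p'.1.1, eq_inv_smul_iff, ← f1, ← mul_smul] at f2
    have := noinv hh m (d_one h1 ((s.K x).mul_mem m m) f2 p.1.2.symm)
    rw [this, one_smul] at f1
    rw [inv_mul_eq_one] at this
    rw [f1, this]
  have sur := cn_surj (p := fun p : X × G => R p.1 ∧ p.2 ∈ s.K x) (q := fun w => w ≠ x) (fun p => p.2 • p.1)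
    (fun p r f => r.1.2 (MulAction.injective p.2 (f.trans (Kfix r.2).symm))) inj (by
      have := cn_del (p := fun _ : X => True) (a := x) trivial
      rw [cn_true, s.n_eq] at this
      simp only [true_and] at this
      rw [cn_prod R (fun g => g ∈ s.K x), cR, cn_mem, card_K]; nlinarith)
  let P : X × G → Prop := fun p => (R p.1 ∧ p.2 ∈ s.K x) ∧ s.adj (p.2 • p.1) (p.2⁻¹ • p.1)
  have c1 : cn P = cn (fun w => s.adj w (t • w)) :=
    cn_bij (fun p => p.2 • p.1) (fun p r => by rw [ts _ _ r.1.1 r.1.2]; exact r.2) (fun p p' r r' => inj p p' r.1 r'.1)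
      fun w r => by
        obtain ⟨p, q, f⟩ := sur w (fun g => s.irr x (by rw [g, b.1] at r; exact r))
        exact ⟨p, ⟨q, by rw [← ts _ _ q.1 q.2, show p.2 • p.1 = w from f]; exact r⟩, f⟩
  have fib : ∀ w, R w → cn (fun p : X × G => P p ∧ p.1 = w) = cn (fun κ => κ ∈ s.K x ∧ s.adj w (κ • w)) := by
    intro w r
    refine cn_bij (fun p => p.2⁻¹ * p.2⁻¹) (fun p q => ⟨(s.K x).mul_mem ((s.K x).inv_mem q.1.1.2)
      ((s.K x).inv_mem q.1.1.2), by rw [← q.2]; simpa [mul_smul] using s.inv p.2⁻¹ q.1.2⟩) ?_ ?_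
    · rintro ⟨w1, κ⟩ ⟨w2, κ'⟩ q q' f
      simp only at f
      have k1 : κ ∈ s.K x := q.1.1.2
      have k2 : κ' ∈ s.K x := q'.1.1.2
      have := noinv hh ((s.K x).mul_mem ((s.K x).inv_mem k1) k2) (by
        calc κ⁻¹ * κ' * (κ⁻¹ * κ') = κ⁻¹ * (κ' * κ⁻¹) * κ' := by group
          _ = (κ⁻¹ * κ⁻¹) * (κ' * κ') := by rw [Kcomm hh k2 ((s.K x).inv_mem k1)]; group
          _ = 1 := by rw [f]; group)
      exact Prod.ext (q.2.trans q'.2.symm) (inv_mul_eq_one.1 this)
    · intro κ q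
      obtain ⟨j, f⟩ := sqrt hh q.1
      refine ⟨(w, (κ ^ j)⁻¹), ⟨⟨⟨r, (s.K x).inv_mem ((s.K x).pow_mem q.1 j)⟩, ?_⟩, rfl⟩, by simpa using f⟩
      rw [← adj_iff (κ ^ j)]
      simpa [← mul_smul, f] using q.2
  rw [← c1, cn_split P (fun p => p.1 = y), fib y ⟨b.2, (adj_ne e).symm⟩, Kcn h1 (adj_ne e), ← lam_eq e, ← fa]
  congr 1
  · exact cn_congr fun u => ⟨fun ⟨p, κ, r, f⟩ => ⟨f ▸ adj_fix (Kfix r) e, p⟩, fun p => ⟨p.2, s.Kreg e p.1⟩⟩
  · refine cn_fib _ _ Prod.fst _ (fun p r => ⟨⟨r.1.1.1.2.symm, fun f => i.2 (s.frob b.1 f e r.1.1.1.1 b.2 r.2)⟩,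
      r.1.1.1.1⟩) fun w r => ?_
    rw [← v_eq r.1, ← fib w ⟨r.2, r.1.1.symm⟩]
    exact cn_congr fun p => ⟨fun q => ⟨q.1.1, q.2⟩, fun q => ⟨⟨q.1, fun f => r.1.2 (by rw [← q.2, f]; exact e)⟩, q.2⟩⟩

end Rk

end H326.Rf
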