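import Cfsg.Agent.H26.Rf6

/-! Rank three groups with Frobenius point stabiliser: degree and order (`Rk.params`). -/

set_option autoImplicit false

namespace H326.Rf

open Finset H326.Yk MulAction

theorem num21 {a b e : ℤ} (a2 : 2 ≤ a) (b2 : 2 ≤ b) (be : Even b) (h : (a * b - b) ^ 2 + 4 * (2 * (a * b) + 1 - b) = e ^ 2) :
    False := by
  obtain ⟨j, rfl⟩ := be
  wlog e0 : 0 ≤ e generalizing e
  · exact this (e := -e) (by rw [h]; ring) (by omega)
  have hh : 2 * (j + j) ≤ a * (j + j) := by nlinarith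
  generalize a * (j + j) = x at *
  obtain ⟨f, rfl⟩ : ∃ f, e = x - (j + j) + f := ⟨e - (x - (j + j)), by ring⟩
  have k : 4 * (2 * x + 1 - (j + j)) = 2 * (x - (j + j)) * f + f ^ 2 := by linarith
  have f1 : 2 < f := by
    by_contra g
    nlinarith
  have f2 : f < 6 := by
    by_contra g
    nlinarith
  interval_cases f <;> omega

theorem sq_small {b c t : ℕ} {e : ℤ} (h : ((0 : ℤ) - b) ^ 2 + 4 * (c * b + 1 - b) = e ^ 2) (ht : c = 2 * t + 2) :
    ∃ f : ℕ, b * b + 4 * (2 * t + 1) * b + 4 = f * f := by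
  refine ⟨e.natAbs, ?_⟩
  zify
  rw [abs_mul_abs_self, ← sq e, ← h, ht]; push_cast; ring

theorem num4 {b f : ℕ} (h : b * b + 12 * b + 4 = f * f) : b = 0 ∨ b = 3 := by
  have f1 : f < b + 6 := by nlinarith
  have b1 : b ≤ 10 := by nlinarith
  have f2 : f < 16 := by omega
  interval_cases b <;> interval_cases f <;> omega

theorem num6 {b f : ℕ} (h : b * b + 20 * b + 4 = f * f) : b = 0 ∨ b = 1 ∨ b = 4 ∨ b = 15 := by
  have f1 : f < b + 10 := by nlinarith
  have f2 : b + 2 ≤ f := by nlinarith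
  obtain ⟨g, rfl⟩ := Nat.exists_eq_add_of_le f2
  have g1 : g < 8 := by omega
  have : 16 * b = 2 * (b * g) + 4 * g + g * g := by nlinarith
  interval_cases g <;> omega

theorem numC {a h c i1 i2 : ℕ} (a2 : 2 ≤ a) (h0 : 0 < h) (p1 : i1 ≤ h) (p2 : i2 ≤ h)
    (q : c * h * (1 + a) = (2 + a) * i1 + (2 + a) * i2) : c ≤ 2 := by
  by_contra f
  have : 3 * h * (1 + a) ≤ c * h * (1 + a) := by gcongr; omega
  have : (2 + a) * i1 ≤ (2 + a) * h := Nat.mul_le_mul_left _ p1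
  have : (2 + a) * i2 ≤ (2 + a) * h := Nat.mul_le_mul_left _ p2
  have : h * 2 ≤ h * a := Nat.mul_le_mul_left _ a2
  nlinarith

theorem numB {a m β : ℤ} (m2 : 2 ≤ m) (le : 2 + a ≤ 2 * m) (o : (m - m) ^ 2 + (m * β - m) ^ 2 ≤
    a * m + 1 + m * (a * m - m * β) - 2 * m * (a * m + 1) + (1 + a) * m ^ 2) : β ≤ 1 := by
  by_contra f
  have : 2 * m ^ 2 ≤ m ^ 2 * (β * (β - 1)) := by
    rw [mul_comm 2]; exact mul_le_mul_of_nonneg_left (by nlinarith) (sq_nonneg _)
  have : a * m ≤ (2 * m - 2) * m := mul_le_mul_of_nonneg_right (by omega) (by omega)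
  nlinarith

theorem num20 {a m β : ℤ} (m2 : 2 ≤ m) (a2 : 2 ≤ a) (βa : a ≤ β) (o : (2 * m) ^ 2 + (m * β) ^ 2 ≤
    2 * (a * m) + 1 + 2 * m * (2 * (a * m) - m * β)) : False := by
  have : m ^ 2 * (a * a + 2 * a) ≤ m ^ 2 * (β * β + 2 * β) :=
    mul_le_mul_of_nonneg_left (by nlinarith) (sq_nonneg _)
  have h3 : 2 * (a * a - 2 * a + 4) ≤ m * (a * a - 2 * a + 4) :=
    mul_le_mul_of_nonneg_right m2 (by nlinarith [sq_nonneg (a - 1)])
  have : m * (2 * a + 1) ≤ m * (m * (a * a - 2 * a + 4)) :=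
    mul_le_mul_of_nonneg_left (by nlinarith [sq_nonneg (2 * a - 3)]) (by omega)
  nlinarith

theorem numE {a j m mu r c β i1 i2 : ℕ} {e : ℤ} (hj : a = 2 * j + 2) (m2 : 2 ≤ m) (me : Even m)
    (pm : mu + m * r = c * m) (rc : r < c) (p1 : i1 ≤ a * m) (p2 : i2 ≤ m)
    (p3 : a * m * r + a * (m * β) = (2 + a) * i1)
    (q : 1 + (c * (a * m) + 1) + (c * (a * m) + 1) * a = 2 + a + (2 + a) * i1 + (2 + a) * (a * i2))
    (oi : ∀ b : ℤ, ((mu : ℤ) - b) ^ 2 + ((m * β : ℕ) - b) ^ 2 ≤ (c * (a * m) + 1 : ℕ) + (a * m * r : ℕ) * (m * β : ℕ) +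
      mu * ((c * (a * m) + 1 : ℕ) - 1 - (m * β : ℕ)) - 2 * b * (c * (a * m) + 1 : ℕ) + (1 + a) * b ^ 2)
    (dd : (((a * m * r : ℕ) : ℤ) - mu) ^ 2 + 4 * ((c * (a * m) + 1 : ℕ) - mu) = e ^ 2)
    (al : 3 * m < 4 * i2 ∨ (m = 4 ∧ m < 2 * i2) → m ≤ i2) : a = 2 ∧ c = 1 := by
  have q' : c * (a * m) * (1 + a) = (2 + a) * i1 + (2 + a) * (a * i2) := by linarith
  have c2 := numC (by omega) (Nat.mul_pos (by omega) (by omega)) p1 (Nat.mul_le_mul_left _ p2) q'
  have q2 : c * m * (1 + a) = m * r + m * β + (2 + a) * i2 :=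
    Nat.eq_of_mul_eq_mul_left (show 0 < a by omega) (by linarith)
  clear q q'
  have : (c = 1 ∧ r = 0) ∨ (c = 2 ∧ r = 0) ∨ (c = 2 ∧ r = 1) := by omega
  rcases this with ⟨rfl, rfl⟩ | ⟨rfl, rfl⟩ | ⟨rfl, rfl⟩
  · obtain rfl : mu = m := by omega
    by_contra a2
    have a2 : a ≠ 2 := fun e => a2 ⟨e, rfl⟩
    have dv : (2 + a : ℤ) ∣ 2 * mu := ⟨2 * mu - 2 * i2 - mu * β + i1, by
      zify at q2 p3; linear_combination p3 - 2 * q2⟩
    have β1 : (β : ℤ) ≤ 1 := numB (a := a) (m := mu) (by omega) (Int.le_of_dvd (by omega) dv) (by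
      have o := oi mu
      push_cast at o
      linarith)
    clear oi dv
    have fin : ¬ mu ≤ i2 := fun f => by
      have : (2 + a) * mu ≤ (2 + a) * i2 := Nat.mul_le_mul_left _ f
      linarith [Nat.zero_le (mu * β)]
    refine fin (al ?_)
    by_contra! f
    have g : (2 + a) * (4 * i2) ≤ (2 + a) * (3 * mu) := Nat.mul_le_mul_left _ f.1
    have g2 : a ≤ 4 * β + 2 := Nat.le_of_mul_le_mul_left (c := mu) (by linarith) (by omega)
    obtain ⟨w, hw⟩ := sq_small (c := a) (t := j) (b := mu) (e := e) (by rw [← dd]; push_cast; ring) hj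
    have : j = 1 ∨ j = 2 := by omega
    obtain ⟨m', hm'⟩ := me
    rcases this with rfl | rfl
    · have := num4 (b := mu) (f := w) (by rw [← hw]); omega
    · have := num6 (b := mu) (f := w) (by rw [← hw])
      have m4 : mu = 4 := by omega
      have := f.2 m4
      rw [hj, m4] at q2
      omega
  · obtain rfl : mu = 2 * m := by omega
    have : (2 + a) * i2 ≤ (2 + a) * m := Nat.mul_le_mul_left _ p2
    have βa : a ≤ β := Nat.le_of_mul_le_mul_left (c := m) (by linarith) (by omega)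
    exact (num20 (a := a) (m := m) (β := β) (by omega) (by omega) (by omega) (by
      have o := oi 0
      push_cast at o
      linarith)).elim
  · obtain rfl : mu = m := by omega
    exact (num21 (a := a) (b := mu) (e := e) (by omega) (by omega) (by exact_mod_cast me)
      (by rw [← dd]; push_cast; ring)).elim

variable {G X : Type*} [Group G] [MulAction G X]

namespace Rk

variable {s : Rk G X} [Finite G] [Fintype X]

theorem small_d (hh : Even s.h) (h1 : s.d = 1) :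
    (Fintype.card X = 10 ∧ s.k * s.h = 6) ∨ (Fintype.card X = 16 ∧ s.k * s.h = 20) := by
  obtain ⟨a, hl, ha⟩ := exa h1
  obtain ⟨c, hc⟩ := s.h_dvd
  obtain ⟨r, hr⟩ := s.h_lam
  have k3 := s.k_three
  have h2 := s.h_two
  have mp := s.m_pos
  have a0 : 0 < a := Nat.pos_of_ne_zero fun e => by rw [e] at ha; omega
  have pm : s.mu + s.m * r = c * s.m := by
    have p := s.param
    have : s.k = 1 + s.lam + a * s.mu := Nat.eq_of_mul_eq_mul_left (show 0 < s.k by omega) (by rw [p, hl]; ring)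
    refine Nat.eq_of_mul_eq_mul_left a0 ?_
    rw [hc, hr, ha] at this
    nlinarith
  have rc : r < c := by
    have := s.mu_pos
    by_contra f
    nlinarith
  have n0 := s.n0
  have nq := s.n_eq
  have two : a = 2 → c = 1 → s.m ≤ 2 := fun e e' => by
    have : r = 0 := by omega
    exact two_orb h1 (by rw [hl, e]) (by rw [hr, this]; rfl) (by rw [this, e'] at pm; omega) (by rw [hc, ha, e, e']; ring)
  have key : ∀ {t : G} {y}, Iv t → s.adj s.x0 y → t ∈ S G s.x0 y → ∀ f, cn (fun w : X => t • w = w) = f →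
      ∃ i1 i2, i1 ≤ s.h ∧ i2 ≤ s.m ∧ cn (fun w => s.adj w (t • w)) = f * i1 ∧
        cn (fun u : G => Tv X u ∧ u • s.x0 = s.z0) = i2 ∧ 1 + s.k + s.k * a = f + f * i1 + f * (a * i2) := by
    intro t y i e b f hf
    obtain ⟨p, q⟩ := counts hh ⟨i, _, b.1⟩ e n0
    refine ⟨_, _, (i_le s.x0 y).trans (h_eq e).le, (i_le s.x0 s.z0).trans (m_eq n0).le, hf ▸ p, rfl, ?_⟩
    rw [← hl, ← nq, s.n_split t, p, hf]
    congr 1
    refine Nat.eq_of_mul_eq_mul_right (show 0 < s.k by omega) ?_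
    rw [q, hf, hl]; ring
  by_cases me : Even s.m
  swap
  · obtain ⟨t, b, i⟩ := ex_t hh s.e0
    obtain ⟨i1, i2, p1, p2, -, -, q⟩ := key i s.e0 b 2 (by
      rw [f_eq i.2 s.e0 b, cn_zero]
      exact fun w p => me (by rw [← m_eq p.1]; exact even_of_iv _ ⟨b.1, p.2⟩ i))
    have : a * i2 ≤ s.h := by rw [ha]; exact Nat.mul_le_mul_left _ p2
    obtain ⟨j, hj⟩ : Even a := by rw [ha, Nat.even_mul] at hh; exact hh.resolve_right me
    have c1 : s.h + 1 ≤ s.k := by rw [hc]; nlinarith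
    have a2 : a = 2 := by
      by_contra f
      have : s.k * 4 ≤ s.k * a := Nat.mul_le_mul_left _ (by omega)
      omega
    have c2 : c = 1 := by
      by_contra f
      have : 2 * s.h ≤ c * s.h := Nat.mul_le_mul_right _ (by omega)
      subst a2; omega
    have := two a2 c2
    have m1 : s.m = 1 := by rw [Nat.even_iff] at me; omega
    left
    rw [nq, hl, hc, ha, a2, c2, m1]; norm_num
  obtain ⟨t, b, i⟩ := ex_iv (S G s.x0 s.z0) (by rwa [m_eq n0])
  obtain ⟨y, e, ty⟩ := Iv_nb hh i b.1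
  have fa := fix_a hh h1 ha e n0 i ⟨b.1, ty⟩ b.2
  have ff := f_eq i.2 e ⟨b.1, ty⟩
  rw [fa] at ff
  obtain ⟨i1, i2, p1, p2, p3, p4, q⟩ := key i e ⟨b.1, ty⟩ _ ff
  rw [alpha hh h1 hl e i ⟨b.1, ty⟩ fa] at p3
  have ae := f_even hh i
  rw [ff] at ae
  obtain ⟨j, hj⟩ : ∃ j, a = 2 * j + 2 := by obtain ⟨j, e⟩ := ae; exact ⟨j - 2, by omega⟩
  obtain ⟨β, hβ⟩ := m_v h1
  have m2 : 2 ≤ s.m := by obtain ⟨j, e⟩ := me; omega
  obtain ⟨e', dd⟩ := s.disc (n_even hh)
  have oi := orb_ineq h1 hl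
  have al := ab_lem hh h1 n0 me p4
  rw [hβ] at oi p3
  rw [hc, hr, ha] at oi dd
  rw [hr, ha] at p3
  rw [hc, ha] at q
  rw [ha] at p1
  obtain ⟨a2, c1⟩ := numE hj m2 me pm rc p1 p2 p3 q oi dd al
  right
  have : s.m = 2 := by have := two a2 c1; omega
  rw [nq, hl, hc, ha, a2, c1, this]; norm_num

theorem params (s : Rk G X) (he : Even (Nat.card G)) : (Fintype.card X = 10 ∧ Nat.card G = 60) ∨
    (Fintype.card X = 16 ∧ (Nat.card G ∣ 2 ^ 7 * 3 ^ 2 ∨ Nat.card G ∣ 2 ^ 6 * 5 ^ 1)) := by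
  have hh : Even s.h := s.even_h he
  rw [s.card_G]
  rcases Nat.lt_or_ge 1 s.d with a | a
  · obtain ⟨p, q⟩ := big_d hh a
    exact Or.inr ⟨p, Or.inl (by rw [p]; exact Nat.mul_dvd_mul_left 16 q)⟩
  · rcases small_d hh (by have := s.d_pos; omega) with ⟨p, q⟩ | ⟨p, q⟩
    · exact Or.inl ⟨p, by rw [p, q]⟩
    · exact Or.inr ⟨p, Or.inr (by rw [p, q]; norm_num)⟩

end Rk

end H326.Rf
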