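import Cfsg.Agent.H26.Rf7
import Cfsg.Agent.S0035
import Cfsg.Agent.S0042
import Cfsg.Agent.S0065
import Mathlib.GroupTheory.GroupAction.Primitive

/-! Construction of the setting `Rk` from a primitive rank three group with a Frobenius suborbit. -/

set_option autoImplicit false

namespace H326.Rf

open H326.Yk MulAction
open scoped Pointwise

variable {G X : Type*} [Group G] [MulAction G X]

theorem equiv_triv (hprim : IsPreprimitive G X) (r : X → X → Prop) (rs : ∀ x y, r x y → r y x)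
    (rt : ∀ x y z, r x y → r y z → r x z) (ri : ∀ (g : G) x y, r x y → r (g • x) (g • y)) (x y z : X) (h0 : r x x)
    (h1 : r x y) (h2 : x ≠ y) : r x z := by
  have : IsBlock G {w | r x w} := isBlock_iff_smul_eq_of_mem.2 fun g a p q => by
    have e : r x (g • x) := rt _ _ _ q (rs _ _ (ri g _ _ p))
    ext w
    rw [Set.mem_smul_set_iff_inv_smul_mem]
    exact ⟨fun t => rt _ _ _ e (by simpa using ri g _ _ t), fun t => by
      simpa using ri g⁻¹ _ _ (rt _ _ _ (rs _ _ e) t)⟩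
  rcases hprim.isTrivialBlock_of_isBlock this with e | e
  · exact absurd (e h0 h1) h2
  · exact (e ▸ Set.mem_univ z : z ∈ {w | r x w})

theorem cinv_nil {N : Type*} [Group N] [Finite N] [Group.IsNilpotent N] (h : Even (Nat.card N)) :
    ∃ u : N, Iv u ∧ u ∈ Subgroup.center N := by
  haveI : Fact (Nat.Prime 2) := ⟨Nat.prime_two⟩
  obtain ⟨P⟩ : Nonempty (Sylow 2 N) := inferInstance
  have := Cfsg.Agent.S0065.result (P : Subgroup N) (P.ne_bot_of_dvd_card h.two_dvd)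
  obtain ⟨j, e⟩ := IsPGroup.iff_card.1 (P.isPGroup'.to_inf_left (K := Subgroup.center N))
  obtain ⟨u, a, b⟩ := ex_iv ((P : Subgroup N) ⊓ Subgroup.center N) (by
    rw [e]
    refine (Nat.even_pow.2 ⟨even_two, fun f => this ?_⟩)
    exact Subgroup.eq_bot_of_card_eq _ (by rw [e, f, pow_zero]))
  exact ⟨u, b, a.2⟩

theorem ker_ex [Finite G] (adj : X → X → Prop) (inv : ∀ (g : G) {x y}, adj x y → adj (g • x) (g • y))
    (etr : ∀ {x y x' y'}, adj x y → adj x' y' → ∃ g : G, g • x = x' ∧ g • y = y')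
    (frob : ∀ {g : G} {x y y'}, g • x = x → adj x y → adj x y' → g • y = y → g • y' = y' → y ≠ y' → g = 1)
    (hne : ∀ {x y}, adj x y → ∃ g : G, g ≠ 1 ∧ g • x = x ∧ g • y = y)
    (two : ∀ {x y}, adj x y → ∃ y', adj x y' ∧ y' ≠ y) (x y : X) (a : adj x y) :
    ∃ K : Subgroup G, (∀ g, g ∈ K ↔ g • x = x ∧ (g = 1 ∨ ∀ y, adj x y → g • y ≠ y)) ∧
      (∀ y y', adj x y → adj x y' → ∃ κ ∈ K, κ • y = y') ∧
      (Even (Nat.card K) → ∃ u ∈ K, u ≠ 1 ∧ u * u = 1 ∧ ∀ κ ∈ K, u * κ = κ * u) := by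
  let H : Subgroup (stabilizer G x) := (stabilizer G y).subgroupOf (stabilizer G x)
  have mH : ∀ g u : stabilizer G x, u ∈ MulAut.conj g • H ↔ (u : G) • (g : G) • y = (g : G) • y := by
    intro g u
    rw [Subgroup.mem_pointwise_smul_iff_inv_smul_mem, Subgroup.mem_subgroupOf, mem_stabilizer_iff]
    simp [mul_smul, inv_smul_eq_iff]
  have ad : ∀ g : stabilizer G x, adj x ((g : G) • y) := fun g => by
    have := inv g a; rwa [show (g : G) • x = x from g.2] at this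
  have hF : Cfsg.IsFrobeniusComplement H := by
    refine ⟨fun e => ?_, fun e => ?_, fun g b => eq_bot_iff.2 fun u c => ?_⟩
    · obtain ⟨g, p, q, r⟩ := hne a
      have : (⟨g, q⟩ : stabilizer G x) ∈ H := r
      rw [e] at this; exact p (congrArg Subtype.val this)
    · obtain ⟨y', p, q⟩ := two a
      obtain ⟨g, r, t⟩ := etr a p
      have : (⟨g, r⟩ : stabilizer G x) ∈ H := e ▸ Subgroup.mem_top _
      exact q (t.symm.trans this)
    · exact Subtype.ext (frob u.2 a (ad g) c.1 ((mH g u).1 c.2) (fun e => b e.symm))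
  obtain ⟨N, e1, -, e2⟩ := Cfsg.Agent.S0035.result H hF
  obtain ⟨N', e3, -, e4⟩ := Cfsg.Agent.S0042.result H hF
  obtain rfl : N' = N := SetLike.coe_injective (e3.trans e1.symm)
  have mN : ∀ u : stabilizer G x, u ∈ N' ↔ (u : G) = 1 ∨ ∀ y, adj x y → (u : G) • y ≠ y := by
    intro u
    rw [← SetLike.mem_coe, e1]
    refine or_congr ⟨fun e => congrArg Subtype.val e, fun e => Subtype.ext e⟩
      ⟨fun p y' b e => ?_, fun p g e => p _ (ad g) ((mH g u).1 e)⟩
    obtain ⟨g, r, rfl⟩ := etr a b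
    exact p ⟨g, r⟩ ((mH _ u).2 e)
  have reg : ∀ y', adj x y' → ∃ κ ∈ N'.map (stabilizer G x).subtype, κ • y = y' := by
    intro y' b
    obtain ⟨g, r, rfl⟩ := etr a b
    obtain ⟨⟨n, η⟩, e, -⟩ := e2.existsUnique ⟨g, r⟩
    refine ⟨n, ⟨n, n.2, rfl⟩, ?_⟩
    have : g = (n : stabilizer G x) * (η : stabilizer G x) := congrArg Subtype.val e.symm
    rw [this, mul_smul, show ((η : stabilizer G x) : G) • y = y from η.2]
  refine ⟨N'.map (stabilizer G x).subtype, fun g => ⟨?_, fun p => ⟨⟨g, p.1⟩, (mN _).2 p.2, rfl⟩⟩, fun y1 y2 b1 b2 => ?_,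
    fun he => ?_⟩
  · rintro ⟨u, p, rfl⟩
    exact ⟨u.2, (mN u).1 p⟩
  · obtain ⟨κ1, p1, rfl⟩ := reg y1 b1
    obtain ⟨κ2, p2, rfl⟩ := reg y2 b2
    exact ⟨κ2 * κ1⁻¹, Subgroup.mul_mem _ p2 (Subgroup.inv_mem _ p1), by simp [mul_smul]⟩
  · rw [Subgroup.card_map_of_injective (stabilizer G x).subtype_injective] at he
    obtain ⟨u, i, c⟩ := cinv_nil he
    refine ⟨u, ⟨u, u.2, rfl⟩, fun e => i.2 (Subtype.ext (Subtype.ext e)),
      congrArg (fun v : N' => ((v : stabilizer G x) : G)) i.1, ?_⟩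
    rintro _ ⟨κ, p, rfl⟩
    exact congrArg (fun v : N' => ((v : stabilizer G x) : G)) (Subgroup.mem_center_iff.1 c ⟨κ, p⟩).symm

theorem mk_rk [Finite G] [FaithfulSMul G X] (heven : Even (Nat.card G)) (hprim : IsPreprimitive G X) (A : X)
    (h3 : Nat.card (orbitRel.Quotient ↥(stabilizer G A) X) = 3) (B : X) (hBA : B ≠ A)
    (hfaith : ∀ g ∈ stabilizer G A, (∀ h ∈ stabilizer G A, g • (h • B) = h • B) → g = 1)
    (hfix : ∃ g ∈ stabilizer G A, g ≠ 1 ∧ g • B = B)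
    (hfrob : ∀ g ∈ stabilizer G A, ∀ h ∈ stabilizer G A, g • B = B → g • (h • B) = h • B → h • B ≠ B → g = 1) :
    Nonempty (Rk G X) := by
  let adj : X → X → Prop := fun x y => ∃ g : G, g • A = x ∧ g • B = y
  have tr : ∀ x y : X, ∃ g : G, g • x = y := hprim.toIsPretransitive.exists_smul_eq
  have inv : ∀ (g : G) {x y}, adj x y → adj (g • x) (g • y) := by
    rintro g _ _ ⟨p, rfl, rfl⟩; exact ⟨g * p, mul_smul _ _ _, mul_smul _ _ _⟩
  have iff : ∀ (g : G) x y, adj (g • x) (g • y) ↔ adj x y := fun g x y => ⟨fun a => by simpa using inv g⁻¹ a, inv g⟩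
  have irr : ∀ x, ¬ adj x x := fun x ⟨g, p, q⟩ => hBA (MulAction.injective g (q.trans p.symm))
  have etr : ∀ {x y x' y'}, adj x y → adj x' y' → ∃ g : G, g • x = x' ∧ g • y = y' := by
    rintro _ _ _ _ ⟨p, rfl, rfl⟩ ⟨q, rfl, rfl⟩; exact ⟨q * p⁻¹, by simp [mul_smul], by simp [mul_smul]⟩
  let π : X → orbitRel.Quotient ↥(stabilizer G A) X := Quotient.mk''
  have hπ : ∀ x y, π x = π y ↔ ∃ g : G, g • A = A ∧ g • y = x := fun x y => by
    rw [Quotient.eq'', orbitRel_apply]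
    exact ⟨fun ⟨g, e⟩ => ⟨g, g.2, e⟩, fun ⟨g, a, e⟩ => ⟨⟨g, a⟩, e⟩⟩
  have nd : ∀ z, (A ≠ z ∧ ¬ adj A z) ↔ (π z ≠ π A ∧ π z ≠ π B) := fun z => by
    rw [Ne, Ne, Ne, hπ, hπ]
    exact and_congr (not_congr ⟨fun e => ⟨1, by simp, by simpa using e⟩, fun ⟨g, p, q⟩ => p.symm.trans q⟩) Iff.rfl
  have AB : π B ≠ π A := fun e => by obtain ⟨g, p, q⟩ := (hπ _ _).1 e; exact hBA (q.symm.trans p)
  haveI : Finite (orbitRel.Quotient ↥(stabilizer G A) X) := Nat.finite_of_card_ne_zero (by omega)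
  have c1 : cn (fun c => c ≠ π A ∧ c ≠ π B) = 1 := by
    haveI := Fintype.ofFinite (orbitRel.Quotient ↥(stabilizer G A) X)
    rw [Nat.card_eq_fintype_card, ← cn_true, cn_del (a := π A) trivial, cn_del (a := π B) ⟨trivial, AB⟩] at h3
    simp only [true_and] at h3; omega
  have ntr : ∀ {x y x' y'}, x ≠ y ∧ ¬ adj x y → x' ≠ y' ∧ ¬ adj x' y' → ∃ g : G, g • x = x' ∧ g • y = y' := by
    intro x y x' y' a a'
    obtain ⟨p, rfl⟩ := tr A x
    obtain ⟨p', rfl⟩ := tr A x'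
    have b := (nd (p⁻¹ • y)).1 ⟨fun e => a.1 (by rw [e, smul_inv_smul]), fun e => a.2 (by simpa using inv p e)⟩
    have b' := (nd (p'⁻¹ • y')).1 ⟨fun e => a'.1 (by rw [e, smul_inv_smul]), fun e => a'.2 (by simpa using inv p' e)⟩
    have : π (p'⁻¹ • y') = π (p⁻¹ • y) := by
      by_contra f
      rw [cn_del (p := fun c => c ≠ π A ∧ c ≠ π B) b] at c1
      have := cn_pos (p := fun c => (c ≠ π A ∧ c ≠ π B) ∧ c ≠ π (p⁻¹ • y)) ⟨b', f⟩
      omega
    obtain ⟨g, r, t⟩ := (hπ _ _).1 this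
    exact ⟨p' * g * p⁻¹, by simp [mul_smul, r], by rw [mul_smul, mul_smul, t, smul_inv_smul]⟩
  have exN : ∀ x, ∃ z, x ≠ z ∧ ¬ adj x z := by
    intro x
    obtain ⟨c, b⟩ := cn_ex (p := fun c => c ≠ π A ∧ c ≠ π B) (by omega)
    obtain ⟨z, rfl⟩ : ∃ z, π z = c := Quotient.exists_rep c
    obtain ⟨g, rfl⟩ := tr A x
    exact ⟨g • z, by simpa using ((nd z).2 b).1, by rw [iff]; exact ((nd z).2 b).2⟩
  have exE : ∀ x, ∃ y, adj x y := fun x => by obtain ⟨g, e⟩ := tr A x; exact ⟨_, g, e, rfl⟩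
  have symm : ∀ {x y}, adj x y → adj y x := by
    obtain ⟨u, -, i⟩ := ex_iv (⊤ : Subgroup G) (by rwa [Subgroup.card_top])
    obtain ⟨w, e⟩ : ∃ w : X, u • w ≠ w := by
      by_contra! f; exact i.2 (eq_of_smul_eq_smul (α := X) fun w => by rw [f, one_smul])
    intro x y a
    by_cases c : adj w (u • w)
    · obtain ⟨g, rfl, rfl⟩ := etr c a
      have := inv u c
      rw [back i.1 rfl] at this
      exact inv g this
    · by_contra f
      obtain ⟨g, r, t⟩ := ntr (x' := y) (y' := x) ⟨e.symm, c⟩ ⟨fun q => irr x (q ▸ a), f⟩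
      rw [← r, ← t, iff, ← iff u, back i.1 rfl] at a
      exact c a
  have frob : ∀ {g : G} {x y y'}, g • x = x → adj x y → adj x y' → g • y = y → g • y' = y' → y ≠ y' → g = 1 := by
    rintro g _ _ _ a ⟨p, rfl, rfl⟩ ⟨q, e, rfl⟩ b b' n
    have := hfrob (p⁻¹ * g * p) (by simp [mul_smul, a]) (p⁻¹ * q) (by simp [mul_smul, e]) (by simp [mul_smul, b])
      (by simp [mul_smul, b']) (fun f => n (by rw [mul_smul, inv_smul_eq_iff] at f; exact f.symm))
    calc g = p * (p⁻¹ * g * p) * p⁻¹ := by group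
      _ = 1 := by rw [this]; group
  have hne : ∀ {x y}, adj x y → ∃ g : G, g ≠ 1 ∧ g • x = x ∧ g • y = y := by
    rintro _ _ ⟨p, rfl, rfl⟩
    obtain ⟨g, a, b, c⟩ := hfix
    exact ⟨p * g * p⁻¹, by simpa using b, conj_fix.2 a, conj_fix.2 c⟩
  have two : ∀ {x y}, adj x y → ∃ y', adj x y' ∧ y' ≠ y := by
    rintro _ _ ⟨p, rfl, rfl⟩
    by_contra! f
    obtain ⟨g, a, b, c⟩ := hfix
    refine b (hfaith g a fun η r => ?_)
    have : η • B = B := MulAction.injective p (f _ ⟨p * η, by rw [mul_smul, r], mul_smul _ _ _⟩)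
    rw [this, c]
  choose K hK using fun x => (exE x).elim fun y a => ker_ex adj inv etr frob hne two x y a
  refine ⟨{ adj := adj, K := K, x0 := A, symm := symm, irr := irr, inv := inv, tr := tr, etr := etr, ntr := ntr,
            frob := frob, memK := fun x => (hK x).1, Kreg := fun {x} => (hK x).2.1 _ _, cinv := fun x => (hK x).2.2,
            exE := exE, exN := exN, hne := hne, mu0 := fun {x z} a => ?_, muk := fun {x z} a => ?_ }⟩
  · by_contra! f
    obtain ⟨y, b⟩ := exE x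
    refine (equiv_triv hprim (fun p q => p = q ∨ adj p q) (fun p q r => r.imp Eq.symm symm) ?_
      (fun g p q r => r.imp (congrArg _) (inv g)) x y z (Or.inl rfl) (Or.inr b) (fun e => irr x (e ▸ b))).elim a.1 a.2
    rintro p q r (rfl | c) c'
    · exact c'
    rcases c' with rfl | c'
    · exact Or.inr c
    by_contra! n
    obtain ⟨g, rfl, rfl⟩ := ntr n a
    exact f _ (inv g c) (inv g (symm c'))
  · by_contra! f
    obtain ⟨y, b⟩ := exE x
    refine (equiv_triv hprim (fun p q => ¬ adj p q) (fun p q r t => r (symm t)) ?_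
      (fun g p q r t => r ((iff g p q).1 t)) x z y (irr x) a.2 a.1) b
    intro p q r c c' t
    obtain ⟨g, rfl, rfl⟩ := ntr (x := q) (y := p) ⟨fun e => c' (e ▸ t), fun e => c (symm e)⟩ a
    exact f (g • r) ⟨fun e => c (MulAction.injective g e ▸ t), fun e => c' ((iff g _ _).1 e)⟩ (inv g t)

end H326.Rf
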